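import Cfsg.Agent.Lib.FS.Pol
import Cfsg.Agent.Lib.Core.Fitting

/-!
# Package BASE1: the groups `V` are `p`-groups (see `plans/FS.md`)
-/

set_option autoImplicit false
set_option maxHeartbeats 400000

namespace CfsgLib.FS
open Cfsg MulAction

section V
variable {X G : Type*} [Group G] [MulAction G X] {x y : X} {g h : G}

theorem V_symm (x y : X) : V G x y = V G y x := by unfold V; rw [inf_comm]
theorem Z_symm (x y : X) : Z G x y = Z G y x := by unfold Z; rw [V_symm]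
theorem V_le (x y : X) : V G x y ≤ stabilizer G x ⊓ stabilizer G y := Subgroup.map_subtype_le _
theorem V_fix (hg : g ∈ V G x y) : g • x = x := (V_le x y hg).1
theorem V_fix' (hg : g ∈ V G x y) : g • y = y := (V_le x y hg).2
theorem V_conj (hg : g ∈ V G x y) (h : G) : h * g * h⁻¹ ∈ V G (h • x) (h • y) := by
  have h1 := Core.map_map_fittingSubgroup_of_injective (stabilizer G x ⊓ stabilizer G y)
    (f := (MulAut.conj h).toMonoidHom) (MulAut.conj h).injective
  have h2 : (stabilizer G x ⊓ stabilizer G y).map (MulAut.conj h).toMonoidHom =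
      stabilizer G (h • x) ⊓ stabilizer G (h • y) := by
    rw [Subgroup.map_inf _ _ _ (MulAut.conj h).injective, stabilizer_smul_eq_stabilizer_map_conj,
      stabilizer_smul_eq_stabilizer_map_conj]
  unfold V fittingOf
  rw [← h2, ← h1]
  exact ⟨g, hg, rfl⟩
theorem V_conj' (hg : g ∈ V G x y) (h1 : h • x = x) (h2 : h • y = y) : h * g * h⁻¹ ∈ V G x y := by
  have := V_conj hg h
  rwa [h1, h2] at this
theorem mem_Z : g ∈ Z G x y ↔ g ∈ V G x y ∧ ∀ v ∈ V G x y, Commute g v := and_congr_right fun _ => Subgroup.mem_centralizer_iff.trans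
    (forall₂_congr fun _ _ => ⟨fun h => h.symm, fun h => h.symm⟩)
theorem Z_conj (hg : g ∈ Z G x y) (h : G) : h * g * h⁻¹ ∈ Z G (h • x) (h • y) := by
  rw [mem_Z] at hg ⊢
  refine ⟨V_conj hg.1 h, fun v hv => ?_⟩
  have h1 := V_conj hv h⁻¹
  rw [inv_smul_smul, inv_smul_smul] at h1
  have h2 := (hg.2 _ h1).conj h
  simpa [mul_assoc] using h2
theorem V_nil [Finite G] (x y : X) : Group.IsNilpotent (V G x y) := Core.isNilpotent_map_fittingSubgroup _

theorem le_V {H : Subgroup G} (h1 : ∀ g ∈ H, g • x = x ∧ g • y = y)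
    (h2 : ∀ h : G, h • x = x → h • y = y → ∀ g ∈ H, h * g * h⁻¹ ∈ H) (h3 : Group.IsNilpotent H) : H ≤ V G x y := Core.le_map_fittingSubgroup (fun g hg => h1 g hg)
    (Subgroup.le_normalizer_iff.2 fun h hh => h2 h hh.1 hh.2) h3

/-- a non-trivial normal subgroup of `V` meets the centre -/
theorem exists_Z [Finite G] {A : Subgroup G} (h1 : A ≤ V G x y) (h2 : ∀ v ∈ V G x y, ∀ a ∈ A, v * a * v⁻¹ ∈ A)
    (h3 : A ≠ ⊥) : ∃ z ∈ A, z ∈ Z G x y ∧ z ≠ 1 := by
  have := V_nil (G := G) x y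
  obtain ⟨⟨z, hz⟩, h0⟩ := Subgroup.ne_bot_iff_exists_ne_one.1
    (Core.inf_centralizer_ne_bot_of_isNilpotent h1 (Subgroup.le_normalizer_iff.2 h2) h3)
  exact ⟨z, hz.1, ⟨h1 hz.1, hz.2⟩, fun h => h0 (Subtype.ext h)⟩

end V

namespace Pol.Spl
variable {n : ℕ} {X : Type*} {Γ : Pol n X} {P R : ℤ → X} {G : Type*} [Group G] [MulAction G X] (S : Γ.Spl G)
include S

theorem trans (h : Γ.W P) (h' : Γ.W R) {i k : ℤ} (h1 : k ≤ i) (h2 : i ≤ k + n) (e1 : P i = R i)
    (e2 : P (i + 1) = R (i + 1)) : ∃ v ∈ V G (P i) (P (i + 1)), ∀ j, k ≤ j → j ≤ k + n + 1 → v • P j = R j := by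
  have h3 := Γ.three
  obtain ⟨A, hA, a⟩ := exists_apt h k
  obtain ⟨B, hB, b⟩ := exists_apt h' k
  have a0 := a i h1 (by omega)
  have a1 := a (i + 1) (by omega) (by omega)
  have b0 := b i h1 (by omega)
  have b1 := b (i + 1) (by omega) (by omega)
  obtain ⟨v, hv, v1, v2⟩ := S.trans0 _ _ (hA.1.shift i) (hB.1.shift i)
    (by simp only [zero_add, a0, b0, e1]) (by simp only [add_comm 1 i, a1, b1, e2])
  simp only [zero_add, add_comm 1 i, a0, a1] at hv
  have e : (fun j => v • A j) = B := by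
    refine (S.toAu.Apt_smul hA v).ext hB (i := i) fun j j1 j2 => ?_
    by_cases hj : j = i
    · simp only [hj, a0, b0, V_fix hv, ← e1]
    by_cases hj' : j = i + n + 1
    · rw [hj', show i + n + 1 = n + 1 + i by ring]; exact v2
    refine uniq (S.toAu.W_smul hA.1 v) hB.1 (i := i + 1) (k := n + i) (by omega) ?_ v1 (by omega)
      (by omega)
    simp only [a1, b1, V_fix' hv, ← e2]
  exact ⟨v, hv, fun j j1 j2 => by rw [← a j j1 j2, ← b j j1 j2, ← e]⟩

theorem trans1 {x y u u' : X} (h : Γ.adj x y) (hu : Γ.adj x u) (hu' : Γ.adj x u') (ne : u ≠ y) (ne' : u' ≠ y) :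
    ∃ v ∈ V G x y, v • u = u' := by
  have h3 := Γ.three
  obtain ⟨P, hP, rfl, rfl, rfl⟩ := exists_W3 (Γ.symm hu) h ne 0
  obtain ⟨R, hR, rfl, r0, r1⟩ := exists_W3 (Γ.symm hu') h ne' 0
  obtain ⟨v, hv, e⟩ := S.trans hP hR (i := 0) (k := 0 - 1) (by omega) (by omega) r0.symm r1.symm
  exact ⟨v, hv, e _ le_rfl (by omega)⟩

theorem exists_nbr {x u u' : X} (hu : Γ.adj x u) (hu' : Γ.adj x u') : ∃ g : G, g • x = x ∧ g • u = u' := by
  obtain ⟨y, hy, h1, h2⟩ := Γ.thick x u u'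
  obtain ⟨v, hv, e⟩ := S.trans1 hy hu hu' h1.symm h2.symm
  exact ⟨v, V_fix hv, e⟩

theorem exists_two (h : Γ.W P) {i j : ℤ} (e : (2 : ℤ) ∣ i - j) : ∃ g : G, g • P i = P j := by
  have step : ∀ k, ∃ g : G, g • P (k + 2) = P k := fun k => by
    obtain ⟨g, -, hg⟩ := S.exists_nbr (h.adj (i := k + 1) (j := k + 2) (by ring))
      (adj' h (i := k + 1) (j := k) rfl)
    exact ⟨g, hg⟩
  obtain ⟨c, hc⟩ := e
  obtain rfl : i = j + 2 * c := by omega
  clear hc
  induction c using Int.induction_on with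
  | zero => exact ⟨1, by simp⟩
  | succ c ih =>
    obtain ⟨g, hg⟩ := ih
    obtain ⟨g', hg'⟩ := step (j + 2 * c)
    exact ⟨g * g', by rw [mul_smul, show j + 2 * ((c : ℤ) + 1) = j + 2 * c + 2 by ring, hg', hg]⟩
  | pred c ih =>
    obtain ⟨g, hg⟩ := ih
    obtain ⟨g', hg'⟩ := step (j + 2 * (-c - 1))
    refine ⟨g * g'⁻¹, ?_⟩
    rw [mul_smul, ← hg', inv_smul_smul, show j + 2 * (-(c : ℤ) - 1) + 2 = j + 2 * -c by ring, hg]

theorem V_ne_bot {x y : X} (h : Γ.adj x y) : V G x y ≠ ⊥ := by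
  obtain ⟨u, hu, h1, -⟩ := Γ.thick x y y
  obtain ⟨u', hu', h2, h3⟩ := Γ.thick x y u
  obtain ⟨v, hv, e⟩ := S.trans1 h hu hu' h1 h2
  intro h0
  rw [h0, Subgroup.mem_bot] at hv
  rw [hv, one_smul] at e
  exact h3 e.symm

/-- what a central element fixes does not depend on the walk -/
theorem Z_all (h : Γ.W P) (h' : Γ.W R) {i j : ℤ} (e1 : P i = R i) (e2 : P (i + 1) = R (i + 1)) {z : G}
    (hz : z ∈ Z G (P i) (P (i + 1))) (h1 : j ≤ i) (h2 : i ≤ j + n) (f : z • P j = P j) : z • R j = R j := by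
  obtain ⟨v, hv, e⟩ := S.trans h h' h1 h2 e1 e2
  rw [← e j le_rfl (by omega), ← mul_smul, ((mem_Z.1 hz).2 v hv).eq, mul_smul, f]

/-- transitivity on the neighbours by elements fixing a root -/
theorem trans_fix (h : Γ.W P) {i : ℤ} {u u' : X} (hu : Γ.adj (P (i + 1)) u) (hu' : Γ.adj (P (i + 1)) u')
    (ne : u ≠ P i) (ne' : u' ≠ P i) : ∃ v ∈ V G (P i) (P (i + 1)),
      (∀ j, i + 1 - n ≤ j → j ≤ i + 1 → v • P j = P j) ∧ v • u = u' := by
  have h3 := Γ.three
  obtain ⟨R, hR, r1, r2⟩ := ext_right h hu (by rwa [add_sub_cancel_right])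
  obtain ⟨R', hR', r1', r2'⟩ := ext_right h hu' (by rwa [add_sub_cancel_right])
  obtain ⟨v, hv, e⟩ := S.trans hR hR' (i := i) (k := i + 1 - n) (by omega) (by omega)
    (by rw [r1 _ (by omega), r1' _ (by omega)]) (by rw [r1 _ le_rfl, r1' _ le_rfl])
  rw [r1 _ (by omega), r1 _ le_rfl] at hv
  refine ⟨v, hv, fun j j1 j2 => ?_, ?_⟩
  · have := e j j1 (by omega)
    rwa [r1 j j2, r1' j j2] at this
  · rw [← r2, ← r2']; exact e _ (by omega) (by omega)

theorem Z_fix (h : Γ.W P) {i j : ℤ} {z : G} (hz : z ∈ Z G (P i) (P (i + 1))) (h1 : j ≤ i) (h2 : 2 * (i - j) < n) :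
    z • P j = P j := by
  have h3 := Γ.three
  have key : ∀ t : ℕ, 2 * (t : ℤ) < n → z • P (i - t) = P (i - t) := by
    intro t
    induction t with
    | zero => intro _; simpa using V_fix (mem_Z.1 hz).1
    | succ t ih =>
      intro ht
      push_cast at ht ⊢
      rw [← sub_sub]
      by_contra ne
      obtain ⟨u, u1, u2, u3⟩ := S.toAu.two_walk h (i := i + 1 - n) (c := i - t) (by omega) (by omega)
        (ih (by omega)) ne
      rw [sub_add_cancel] at u1 u2 u3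
      rw [add_sub_cancel_right] at u2
      obtain ⟨u', hu', n1, n2⟩ := Γ.thick (P (i + 1)) (P i) u
      obtain ⟨v, hv, e1, e2⟩ := S.trans_fix h u1 hu' u2 n1
      refine n2 (e2.symm.trans (u3 v (e1 _ le_rfl (by omega)) (e1 _ (by omega) (by omega)) ?_
        (V_fix' hv)))
      rw [← mul_smul, ← ((mem_Z.1 hz).2 v hv).eq, mul_smul, e1 _ le_rfl (by omega)]
  have := key (i - j).toNat (by omega)
  rwa [show i - ((i - j).toNat : ℤ) = j by omega] at this

variable [Finite G]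

theorem finite_nbr (x : X) : Finite {u // Γ.adj x u} := by
  obtain ⟨u, hu, -⟩ := Γ.thick x x x
  refine Finite.of_surjective (α := stabilizer G x)
    (fun g => ⟨g.1 • u, by have := S.smul g.1 hu; rwa [g.2] at this⟩) fun u' => ?_
  obtain ⟨g, h1, h2⟩ := S.exists_nbr hu u'.2
  exact ⟨⟨g, h1⟩, Subtype.ext h2⟩

theorem two_le_val (x : X) : 2 ≤ Γ.val x := by
  have := S.finite_nbr x
  have := Fintype.ofFinite {u // Γ.adj x u}
  obtain ⟨a, ha, -⟩ := Γ.thick x x x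
  obtain ⟨b, hb, h1, -⟩ := Γ.thick x a a
  obtain ⟨c, hc, h2, h3⟩ := Γ.thick x a b
  have h4 : 2 < Fintype.card {u // Γ.adj x u} := Fintype.two_lt_card_iff.2
    ⟨⟨a, ha⟩, ⟨b, hb⟩, ⟨c, hc⟩, fun e => h1 (congrArg Subtype.val e).symm,
      fun e => h2 (congrArg Subtype.val e).symm, fun e => h3 (congrArg Subtype.val e).symm⟩
  unfold val
  rw [Nat.card_eq_fintype_card]
  omega

theorem V_of_fix {x y y' : X} (h : Γ.adj x y) (h' : Γ.adj x y') {g : G} (hg : g ∈ V G x y)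
    (f : ∀ u, Γ.adj x u → g • u = u) : g ∈ V G x y' := by
  let T : Subgroup G := stabilizer G x ⊓ ⨅ u, ⨅ _ : Γ.adj x u, stabilizer G u
  have mT : ∀ g, g ∈ T ↔ g • x = x ∧ ∀ u, Γ.adj x u → g • u = u := fun g => by
    simp [T, Subgroup.mem_iInf]
  have h1 : ∀ y, Γ.adj x y → T ≤ stabilizer G x ⊓ stabilizer G y := fun y hy g hg =>
    ⟨((mT g).1 hg).1, ((mT g).1 hg).2 y hy⟩
  refine Core.map_fittingSubgroup_le_map_fittingSubgroup (h1 y' h')
    (Subgroup.le_normalizer_iff.2 fun a ha t ht => ?_)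
    (Core.map_fittingSubgroup_inf_le (h1 y h) ⟨hg, (mT g).2 ⟨V_fix hg, f⟩⟩)
  have ha1 : a • x = x := ha.1
  have ha2 : a⁻¹ • x = x := inv_smul_eq_iff.2 ha1.symm
  rw [mT] at ht ⊢
  refine ⟨by rw [mul_smul, mul_smul, ha2, ht.1, ha1], fun u hu => ?_⟩
  have := S.smul a⁻¹ hu
  rw [ha2] at this
  rw [mul_smul, mul_smul, ht.2 _ this, smul_inv_smul]

theorem ncard_nbr {x y : X} (h : Γ.adj x y) : {u | Γ.adj x u ∧ u ≠ y}.ncard = Γ.val x := by
  have := S.finite_nbr x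
  have h1 : {u | Γ.adj x u ∧ u ≠ y} = {u | Γ.adj x u} \ {y} := rfl
  rw [h1, Set.ncard_sdiff_singleton_of_mem (s := {u | Γ.adj x u}) h]
  rfl

/-- an `r`-element without further fixed points -/
theorem dvd_val {x y : X} (h : Γ.adj x y) {z : G} (hz : z ∈ V G x y) {r a : ℕ} (hr : r.Prime)
    (ha : z ^ r ^ a = 1) (f : ∀ u, Γ.adj x u → u ≠ y → z • u ≠ u) : r ∣ Γ.val x := by
  have := Fact.mk hr
  have := S.finite_nbr x
  have hle : Subgroup.zpowers z ≤ V G x y := Subgroup.zpowers_le.2 hz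
  let Ω : SubMulAction (Subgroup.zpowers z) X :=
    { carrier := {u | Γ.adj x u ∧ u ≠ y}
      smul_mem' := fun g u hu => ⟨by
        have := S.smul g.1 hu.1
        rwa [V_fix (hle g.2)] at this, fun e => hu.2 (smul_left_cancel g.1
          (e.trans (V_fix' (hle g.2)).symm))⟩ }
  have : Finite Ω := Finite.of_injective (β := {u // Γ.adj x u}) (fun u => ⟨u.1, u.2.1⟩)
    fun u v e => Subtype.ext (congrArg Subtype.val e :)
  have hp : IsPGroup r (Subgroup.zpowers z) := by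
    rintro ⟨g, k, rfl⟩
    refine ⟨a, Subtype.ext ?_⟩
    change (z ^ k) ^ r ^ a = 1
    rw [← zpow_natCast, ← zpow_mul, mul_comm, zpow_mul, zpow_natCast, ha, one_zpow]
  by_contra hn
  have hc : Nat.card Ω = Γ.val x := S.ncard_nbr h
  obtain ⟨u, hu⟩ := hp.nonempty_fixed_point_of_prime_not_dvd_card Ω (by rwa [hc])
  exact f u.1 u.2.1 u.2.2 (congrArg Subtype.val (hu ⟨z, Subgroup.mem_zpowers z⟩))

/-- the valencies for a prime `r` that divides the order of `V` -/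
theorem val_prime (h : Γ.W P) {r : ℕ} (hr : r.Prime) (hd : r ∣ Nat.card (V G (P 0) (P 1))) :
    ∃ c : ℤ, r ∣ Γ.val (P c) ∧ ∀ q, q.Prime → q ∣ Γ.val (P (c + 1)) → q = r := by
  have h3 := Γ.three
  have := Fact.mk hr
  have := V_nil (G := G) (P 0) (P 1)
  obtain ⟨z, ⟨z', hz', rfl⟩, hz, z0⟩ := exists_Z (A := (pCore r (V G (P 0) (P 1))).map
      (V G (P 0) (P 1)).subtype) (Subgroup.map_subtype_le _) (by
    rintro v hv _ ⟨a, ha, rfl⟩
    exact ⟨_, (inferInstance : (pCore r (V G (P 0) (P 1))).Normal).conj_mem a ha ⟨v, hv⟩, rfl⟩) (by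
    intro h0
    have h1 := Core.not_dvd_index_pCore_of_isNilpotent (G := V G (P 0) (P 1)) r
    rw [(Subgroup.map_eq_bot_iff_of_injective _ Subtype.val_injective).1 h0,
      Subgroup.index_bot] at h1
    exact h1 hd)
  obtain ⟨a, ha⟩ := Core.isPGroup_pCore r _ ⟨z', hz'⟩
  have ha' : (z' : G) ^ r ^ a = 1 := congrArg (fun t => ((t : V G (P 0) (P 1)) : G))
    (congrArg Subtype.val ha)
  change (z' : G) ∈ _ at hz
  change (z' : G) ≠ 1 at z0
  generalize (z' : G) = z at hz z0 ha'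
  have hzV := (mem_Z.1 hz).1
  have nb : ∀ {Q : ℤ → X}, Γ.W Q → z ∈ Z G (Q 0) (Q 1) → ∀ u, Γ.adj (Q 0) u → z • u = u := by
    intro Q hQ hz u hu
    by_cases e : u = Q (0 + 1)
    · rw [e]; exact V_fix' (mem_Z.1 hz).1
    obtain ⟨R, hR, r1, r2⟩ := ext_left hQ hu e
    rw [← r2]
    exact S.Z_fix hR (i := 0) (by rwa [r1 _ le_rfl, r1 _ (by omega)]) (by omega) (by omega)
  have ex : ∃ t : ℕ, (t : ℤ) < n ∧ z • P (-t - 1) ≠ P (-t - 1) := by
    by_contra hn
    push Not at hn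
    refine z0 (S.toAu.rigid h (i := -n) (j := 0) (fun k k1 k2 => ?_) (by omega) (by omega)
      (nb h hz) (nb (rev h 1) (by rw [Z_symm]; exact hz)))
    by_cases k0 : 0 ≤ k
    · have : k = 0 ∨ k = 1 := by omega
      rcases this with rfl | rfl
      · exact V_fix hzV
      · exact V_fix' hzV
    · have := hn (-k - 1).toNat (by omega)
      rwa [show -((-k - 1).toNat : ℤ) - 1 = k by omega] at this
  classical
  obtain ⟨t, ⟨t1, t2⟩, t3⟩ : ∃ t : ℕ, ((t : ℤ) < n ∧ z • P (-t - 1) ≠ P (-t - 1)) ∧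
      ∀ s < t, ¬ ((s : ℤ) < n ∧ z • P (-s - 1) ≠ P (-s - 1)) :=
    ⟨Nat.find ex, Nat.find_spec ex, fun s hs => Nat.find_min ex hs⟩
  have fx : ∀ j : ℤ, -t ≤ j → j ≤ 0 → z • P j = P j := fun j j1 j2 => by
    by_cases j0 : j = 0
    · rw [j0]; exact V_fix hzV
    by_contra hn
    refine t3 (-j - 1).toNat (by omega) ⟨by omega, ?_⟩
    rwa [show -((-j - 1).toNat : ℤ) - 1 = j by omega]
  have t0 : t ≠ 0 := by
    rintro rfl
    exact t2 (S.Z_fix h (i := 0) hz (by omega) (by omega))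
  have mem : ∀ s : ℕ, s ≤ t → z ∈ V G (P (-s)) (P (-s + 1)) := by
    intro s
    induction s with
    | zero => intro _; simpa using hzV
    | succ s ih =>
      intro hs
      push_cast
      rw [V_symm, show -((s : ℤ) + 1) + 1 = -s by ring]
      refine S.V_of_fix (h.1 _) (adj' h (by ring)) (ih (by omega)) fun u hu => ?_
      by_cases e : u = P (-s + 1)
      · rw [e]; exact V_fix' (ih (by omega))
      obtain ⟨R, hR, r1, r2⟩ := ext_left h hu e
      rw [← r2]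
      exact S.Z_all h hR (i := 0) (r1 _ (by omega)).symm (r1 _ (by omega)).symm hz (by omega)
        (by omega) (fx _ (by omega) (by omega))
  have hm := mem t le_rfl
  refine ⟨-t, S.dvd_val (h.1 _) hm hr ha' fun u hu e f => t2 ?_, fun q hq hd => ?_⟩
  · obtain ⟨R, hR, r1, r2⟩ := ext_left h hu e
    exact S.Z_all hR h (i := 0) (r1 _ (by omega)) (r1 _ (by omega))
      (by rwa [r1 _ (by omega), r1 _ (by omega)]) (by omega) (by omega) (by rwa [r2])
  by_contra hqr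
  obtain ⟨u, u1, u2, u3⟩ := S.toAu.two_walk h (i := -t + 1 - n) (c := -t) (by omega) (by omega)
    (fx _ le_rfl (by omega)) t2
  rw [sub_add_cancel] at u1 u2 u3
  rw [add_sub_cancel_right] at u2
  let H : Subgroup G := V G (P (-t)) (P (-t + 1)) ⊓ stabilizer G (P (-t + 1 - n))
  have ho : orbit H u = {w | Γ.adj (P (-t + 1)) w ∧ w ≠ P (-t)} := by
    ext w
    constructor
    · rintro ⟨g, rfl⟩
      refine ⟨?_, fun e => u2 (smul_left_cancel g.1 (e.trans (V_fix g.2.1).symm))⟩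
      have := S.smul g.1 u1
      rwa [V_fix' g.2.1] at this
    · intro hw
      obtain ⟨v, hv, e1, e2⟩ := S.trans_fix h u1 hw.1 u2 hw.2
      exact ⟨⟨v, hv, e1 _ le_rfl (by omega)⟩, e2⟩
  have := Fact.mk hq
  obtain ⟨Q⟩ : Nonempty (Sylow q H) := inferInstance
  refine Q.not_dvd_index (dvd_trans ?_ (Subgroup.index_dvd_of_le (K := stabilizer H u) ?_))
  · rwa [index_stabilizer, ho, S.ncard_nbr (adj' h rfl)]
  · intro g hg
    obtain ⟨b, hb⟩ := Q.isPGroup' ⟨g, hg⟩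
    have hb' : (g : G) ^ q ^ b = 1 := congrArg (fun t => ((t : H) : G)) (congrArg Subtype.val hb)
    have := V_nil (G := G) (P (-t)) (P (-t + 1))
    have hc : Commute (⟨g, g.2.1⟩ : V G (P (-t)) (P (-t + 1))) ⟨z, hm⟩ := by
      refine Core.commute_of_coprime_orderOf_of_isNilpotent ?_
      rw [← Subgroup.orderOf_coe, ← Subgroup.orderOf_coe]
      exact Nat.Coprime.coprime_dvd_left (orderOf_dvd_of_pow_eq_one hb')
        (Nat.Coprime.coprime_dvd_right (orderOf_dvd_of_pow_eq_one ha')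
          (Nat.Coprime.pow _ _ ((Nat.coprime_primes hq hr).2 hqr)))
    have hc' : (g : G) * z = z * g := congrArg Subtype.val hc.eq
    have g2 : (g : G) • P (-t + 1 - n) = P (-t + 1 - n) := g.2.2
    exact u3 g g2 (V_fix g.2.1) (by rw [← mul_smul, hc', mul_smul, g2]) (V_fix' g.2.1)

theorem exists_pg (h : Γ.W P) : ∃ p : ℕ, p.Prime ∧ IsPGroup p (V G (P 0) (P 1)) := by
  have val2 : ∀ {i j : ℤ}, (2 : ℤ) ∣ i - j → Γ.val (P i) = Γ.val (P j) := fun e => by
    obtain ⟨g, hg⟩ := S.exists_two h e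
    rw [← hg, S.toAu.val_smul]
  have uq : ∀ r r' : ℕ, r.Prime → r'.Prime → r ∣ Nat.card (V G (P 0) (P 1)) →
      r' ∣ Nat.card (V G (P 0) (P 1)) → r' = r := by
    intro r r' hr hr' d d'
    obtain ⟨c, c1, c2⟩ := S.val_prime h hr d
    obtain ⟨c', c1', c2'⟩ := S.val_prime h hr' d'
    by_cases e : (2 : ℤ) ∣ c - c'
    · obtain ⟨q, hq, hd⟩ := Nat.exists_prime_and_dvd (n := Γ.val (P (c + 1)))
        (by have := S.two_le_val (P (c + 1)); omega)
      rw [← c2 q hq hd, ← c2' q hq (by rwa [val2 (j := c + 1) (by omega)])]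
    · exact c2 r' hr' (by rwa [val2 (j := c') (by omega)])
  by_cases h1 : Nat.card (V G (P 0) (P 1)) = 1
  · exact ⟨2, Nat.prime_two, IsPGroup.of_card (n := 0) h1⟩
  obtain ⟨p, hp, hd⟩ := Nat.exists_prime_and_dvd h1
  exact ⟨p, hp, IsPGroup.of_card (Nat.eq_prime_pow_of_unique_prime_dvd Nat.card_pos.ne'
    fun hq hq' => uq p _ hp hq hd hq')⟩

theorem exists_SP : ∃ p, Γ.SP G p := by
  by_cases hX : Nonempty X
  swap
  · exact ⟨2, S, Nat.prime_two, fun x => absurd ⟨x⟩ hX⟩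
  obtain ⟨x⟩ := hX
  obtain ⟨P, hP, -⟩ := exists_W1 Γ x 0
  obtain ⟨p, hp, hpg⟩ := S.exists_pg hP
  have step : ∀ {x y y'}, Γ.adj x y → Γ.adj x y' → IsPGroup p (V G x y) → IsPGroup p (V G x y') := by
    intro x y y' hy hy' h1 g
    obtain ⟨a, a1, a2⟩ := S.exists_nbr hy' hy
    have h2 := V_conj g.2 a
    rw [a1, a2] at h2
    obtain ⟨k, hk⟩ := h1 ⟨_, h2⟩
    have h3 : (a * g * a⁻¹) ^ p ^ k = 1 := congrArg Subtype.val hk
    rw [conj_pow, conj_eq_one_iff] at h3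
    exact ⟨k, Subtype.ext h3⟩
  refine ⟨p, S, hp, fun x => ?_⟩
  induction Γ.conn (P 0) x with
  | refl => exact fun y hy => step (hP.1 0) hy hpg
  | tail _ hx ih => exact fun y hy => step (Γ.symm hx) hy (by rw [V_symm]; exact ih _ hx)

end Pol.Spl

end CfsgLib.FS
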