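import Cfsg.Agent.Lib.FS.Base1
import Cfsg.Agent.Lib.Core.MinNormal

/-!
# Package BASE2: the groups `Q`, `K` (see `plans/FS.md`)
-/

set_option autoImplicit false

namespace CfsgLib.FS
open Cfsg MulAction
open scoped commutatorElement

namespace Pol
variable {n : ℕ} {X : Type*} {Γ : Pol n X} {P R : ℤ → X} {G : Type*} [Group G] [MulAction G X]
  {x x' y a b c : X} {g h z : G} {k l : ℕ} {i j : ℤ}

theorem mem_Q : g ∈ Γ.Q G x ↔ ∀ y, Γ.adj x y → g ∈ V G x y := by simp only [Q, Subgroup.mem_iInf]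
theorem Q_le_V (hg : g ∈ Γ.Q G x) (h : Γ.adj x y) : g ∈ V G x y := mem_Q.1 hg y h
theorem Q_le_V' (hg : g ∈ Γ.Q G x) (h : Γ.adj y x) : g ∈ V G y x := (V_symm x y).le (mem_Q.1 hg y (Γ.symm h))
theorem Q_fix (hg : g ∈ Γ.Q G x) : g • x = x := (Γ.thick x x x).elim fun _ h => V_fix (Q_le_V hg h.1)
theorem Q_fix_nbr (hg : g ∈ Γ.Q G x) (h : Γ.adj x y) : g • y = y := V_fix' (Q_le_V hg h)
theorem Q_fix_W (hP : Γ.W P) (hg : g ∈ Γ.Q G (P i)) (h1 : i - 1 ≤ j) (h2 : j ≤ i + 1) : g • P j = P j := by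
  rcases lt_trichotomy j i with e | rfl | e
  exacts [Q_fix_nbr hg (adj' hP (by omega)), Q_fix hg, Q_fix_nbr hg (hP.adj (by omega))]
theorem mem_K : g ∈ Γ.K G k x ↔ ∀ P, Γ.W P → P 0 = x → ∀ j : ℤ, 0 ≤ j → j < k → g ∈ Γ.Q G (P j) := by
  simp only [K, Subgroup.mem_iInf, and_imp]
theorem K_Q (hP : Γ.W P) (hg : g ∈ Γ.K G k (P i)) (h1 : i - k < j) (h2 : j < i + k) : g ∈ Γ.Q G (P j) := by
  rcases le_total i j with e | e
  · simpa using mem_K.1 hg _ (hP.shift i) (by simp) (j - i) (by omega) (by omega)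
  · simpa using mem_K.1 hg _ (rev hP i) (by simp) (i - j) (by omega) (by omega)
theorem K_fix (hP : Γ.W P) (hg : g ∈ Γ.K G k (P i)) (hk : 0 < k) (h1 : i - k ≤ j) (h2 : j ≤ i + k) :
    g • P j = P j := by
  rcases lt_trichotomy j i with e | e | e
  · exact Q_fix_W hP (K_Q hP hg (j := j + 1) (by omega) (by omega)) (by omega) (by omega)
  · exact Q_fix (K_Q hP hg (by omega) (by omega))
  · exact Q_fix_W hP (K_Q hP hg (j := j - 1) (by omega) (by omega)) (by omega) (by omega)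
theorem K_one : Γ.K G 1 x = Γ.Q G x := by
  ext g
  obtain ⟨P, hP, rfl⟩ := Γ.exists_W1 x 0
  exact ⟨fun h => K_Q hP h (by omega) (by omega), fun h => mem_K.2 fun R _ e j _ _ => by
    rwa [show j = 0 by omega, e]⟩
theorem K_mono (hg : g ∈ Γ.K G l x) (h : k ≤ l) : g ∈ Γ.K G k x :=
  mem_K.2 fun P hP e j h1 h2 => mem_K.1 hg P hP e j h1 (by omega)
theorem K_le_Q (hg : g ∈ Γ.K G k x) (hk : 0 < k) : g ∈ Γ.Q G x := K_one (Γ := Γ) (G := G) (x := x) ▸ K_mono hg hk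
theorem K_nbr (hg : g ∈ Γ.K G (k + 1) x) (h : Γ.adj x y) : g ∈ Γ.K G k y :=
  mem_K.2 fun P hP e j h1 h2 => by
    subst e
    by_cases e : x = P (0 + 1)
    · exact K_Q hP (e ▸ hg) (by omega) (by omega)
    · obtain ⟨R, hR, e1, rfl⟩ := ext_left hP (Γ.symm h) e
      exact e1 j h1 ▸ K_Q hR hg (by omega) (by omega)
theorem K_K (hP : Γ.W P) (hg : g ∈ Γ.K G k (P i)) (h1 : i - k + l ≤ j) (h2 : j + l ≤ i + k) : g ∈ Γ.K G l (P j) := by
  have H : ∀ P : ℤ → X, Γ.W P → ∀ d : ℕ, ∀ i, g ∈ Γ.K G (l + d) (P i) → g ∈ Γ.K G l (P (i + d)) := fun P hP d => by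
    induction d with
    | zero => simp
    | succ d ih =>
      intro i h
      simpa [add_assoc, add_comm (1 : ℤ)] using ih (i + 1) (K_nbr h (hP.adj rfl))
  rcases le_total i j with e | e
  · obtain ⟨d, rfl⟩ := Int.le.dest e
    exact H P hP d i (K_mono hg (by omega))
  · obtain ⟨d, rfl⟩ := Int.le.dest e
    simpa using H _ (rev hP (j + d)) d 0 (K_mono (by simpa using hg) (by omega))
theorem mem_K_succ : g ∈ Γ.K G (k + 1) x ↔ g ∈ Γ.Q G x ∧ ∀ y, Γ.adj x y → g ∈ Γ.K G k y := by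
  refine ⟨fun h => ⟨K_le_Q h k.succ_pos, fun _ => K_nbr h⟩, fun h => mem_K.2 fun P hP e j h1 h2 => ?_⟩
  subst e
  rcases h1.eq_or_lt with rfl | e
  exacts [h.1, K_Q hP (h.2 _ (hP.1 0)) (by omega) (by omega)]
theorem mem_U : g ∈ Γ.U G P i ↔ ∀ j, i < j → j < i + n → g ∈ Γ.Q G (P j) := by
  simp only [U, Subgroup.mem_iInf, and_imp]
theorem mem_D : g ∈ Γ.D G P ↔ g ∈ V G (P 0) (P 1) ∧ ∀ j, g • P j = P j := by
  simp only [D, Subgroup.mem_inf, Subgroup.mem_iInf, mem_stabilizer_iff]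
theorem Z_comm_Q (hz : z ∈ Z G x y) (h : Γ.adj x y) (hg : g ∈ Γ.Q G x) : Commute z g := (mem_Z.1 hz).2 g (Q_le_V hg h)
theorem Z_comm_Q' (hz : z ∈ Z G x y) (h : Γ.adj x y) (hg : g ∈ Γ.Q G y) : Commute z g := (mem_Z.1 hz).2 g (Q_le_V' hg h)

namespace Au
variable (S : Γ.Au G)
include S

theorem Q_conj (hg : g ∈ Γ.Q G x) (h : G) : h * g * h⁻¹ ∈ Γ.Q G (h • x) := mem_Q.2 fun y hy => by
  simpa using V_conj (Q_le_V hg ((S.adj_iff h).1 (by simpa using hy : Γ.adj (h • x) (h • h⁻¹ • y)))) h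
theorem Q_conj' (hg : g ∈ Γ.Q G x) (e : h • x = y) : h * g * h⁻¹ ∈ Γ.Q G y := e ▸ S.Q_conj hg h
theorem Q_conj_inv (hg : g ∈ Γ.Q G y) (e : h • x = y) : h⁻¹ * g * h ∈ Γ.Q G x := by
  simpa using S.Q_conj' hg (inv_smul_eq_iff.2 e.symm)
theorem K_conj (hg : g ∈ Γ.K G k x) (h : G) : h * g * h⁻¹ ∈ Γ.K G k (h • x) := mem_K.2 fun P hP e j h1 h2 => by
  simpa using S.Q_conj (mem_K.1 hg _ (S.W_smul hP h⁻¹) (by simp [e]) j h1 h2) h
theorem K_conj' (hg : g ∈ Γ.K G k x) (e : h • x = y) : h * g * h⁻¹ ∈ Γ.K G k y := e ▸ S.K_conj hg h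
theorem K_conj_inv (hg : g ∈ Γ.K G k y) (e : h • x = y) : h⁻¹ * g * h ∈ Γ.K G k x := by
  simpa using S.K_conj' hg (inv_smul_eq_iff.2 e.symm)
theorem comm_Q (hg : g ∈ Γ.Q G x) (e : h • x = x) : ⁅g, h⁆ ∈ Γ.Q G x := by
  simpa only [commutatorElement_def, mul_assoc, inv_inv] using mul_mem hg (S.Q_conj' (inv_mem hg) e)
theorem comm_Q' (hg : g ∈ Γ.Q G x) (e : h • x = x) : ⁅h, g⁆ ∈ Γ.Q G x := mul_mem (S.Q_conj' hg e) (inv_mem hg)
theorem comm_K (hg : g ∈ Γ.K G k x) (e : h • x = x) : ⁅g, h⁆ ∈ Γ.K G k x := by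
  simpa only [commutatorElement_def, mul_assoc, inv_inv] using mul_mem hg (S.K_conj' (inv_mem hg) e)
theorem comm_K' (hg : g ∈ Γ.K G k x) (e : h • x = x) : ⁅h, g⁆ ∈ Γ.K G k x := mul_mem (S.K_conj' hg e) (inv_mem hg)
theorem Q_of_comm (hg : g ∈ Γ.Q G x) (hc : Commute g h) (e : h • x = y) : g ∈ Γ.Q G y := by
  simpa [← hc.eq] using S.Q_conj' hg e
theorem K_of_comm (hg : g ∈ Γ.K G k x) (hc : Commute g h) (e : h • x = y) : g ∈ Γ.K G k y := by
  simpa [← hc.eq] using S.K_conj' hg e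
theorem card_K_smul (g : G) (k : ℕ) (x : X) : Nat.card (Γ.K G k (g • x)) = Nat.card (Γ.K G k x) := by
  rw [← Core.card_map_conj (Γ.K G k x) g]
  refine congrArg (fun H : Subgroup G => Nat.card H) (Subgroup.ext fun h => ?_)
  exact ⟨fun e => Core.mem_map_conj_iff.2 (S.K_conj_inv e rfl),
    fun e => by simpa [mul_assoc] using S.K_conj (Core.mem_map_conj_iff.1 e) g⟩
theorem K_ne_smul (h : Γ.K G k x ≠ ⊥) (g : G) : Γ.K G k (g • x) ≠ ⊥ := fun e =>
  h (Subgroup.card_eq_one.1 ((S.card_K_smul g k x).symm.trans (Subgroup.card_eq_one.2 e)))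
theorem Reg_smul (h : Γ.Reg G x) (g : G) : Γ.Reg G (g • x) := fun y y' hy hy' ne v hv f => by
  have h1 : ∀ y, Γ.adj (g • x) y → Γ.adj x (g⁻¹ • y) := fun y hy => by simpa using S.smul g⁻¹ hy
  have h2 := h _ _ (h1 y hy) (h1 y' hy') (by simpa using ne) (g⁻¹ * v * g)
    (by simpa using V_conj hv g⁻¹) (by simp [mul_smul, f])
  simpa [mul_assoc] using S.Q_conj h2 g

/-- rigidity -/
theorem eq_one (hP : Γ.W P) (e : ∀ k, i ≤ k → k ≤ i + n + 1 → g • P k = P k) (h1 : i ≤ j) (h2 : j ≤ i + n)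
    (f1 : g ∈ Γ.Q G (P j)) (f2 : g ∈ Γ.Q G (P (j + 1))) : g = 1 := S.rigid hP e h1 h2 (fun _ => Q_fix_nbr f1) fun _ => Q_fix_nbr f2

/-- central elations act without further fixed points -/
theorem K_eq_one (hP : Γ.W P) (hn : n = 2 * k) (hg : g ∈ Γ.K G k (P i)) (e : j = i + k + 1 ∨ j = i - k - 1)
    (f : g • P j = P j) : g = 1 := by
  have := Γ.three
  refine S.eq_one hP (i := min (i - k) j) (j := i) (fun m _ _ => ?_) (by omega) (by omega)
    (K_Q hP hg (by omega) (by omega)) (K_Q hP hg (by omega) (by omega))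
  by_cases e : m = j
  exacts [e ▸ f, K_fix hP hg (by omega) (by omega) (by omega)]

theorem K_inf (hn : n = 2 * k) (h : Γ.adj y x) (h' : Γ.adj y x') (ne : x ≠ x') (hg : g ∈ Γ.K G k x)
    (hg' : g ∈ Γ.K G k x') : g = 1 := by
  have := Γ.three
  obtain ⟨P, hP, rfl, rfl, rfl⟩ := exists_W3 (Γ.symm h) h' ne 0
  exact S.K_eq_one hP hn hg (Or.inl rfl) (K_fix hP hg' (by omega) (by omega) (by omega))

end Au

namespace Spl
variable (S : Γ.Spl G)
include S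

theorem val_two (hP : Γ.W P) (e : (2 : ℤ) ∣ i - j) : Γ.val (P i) = Γ.val (P j) :=
  (S.exists_two hP e).elim fun g h => h ▸ (S.val_smul g _).symm
theorem card_K_two (hP : Γ.W P) (e : (2 : ℤ) ∣ i - j) (k : ℕ) :
    Nat.card (Γ.K G k (P i)) = Nat.card (Γ.K G k (P j)) := (S.exists_two hP e).elim fun g h => h ▸ (S.card_K_smul g k _).symm
theorem K_ne_two (hP : Γ.W P) (h : Γ.K G k (P i) ≠ ⊥) (e : (2 : ℤ) ∣ i - j) : Γ.K G k (P j) ≠ ⊥ :=
  (S.exists_two hP e).elim fun g e => e ▸ S.K_ne_smul h g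
theorem K_ne_nbr (h : Γ.K G k x ≠ ⊥) (h1 : Γ.adj y x) (h2 : Γ.adj y x') : Γ.K G k x' ≠ ⊥ :=
  (S.exists_nbr h1 h2).elim fun g e => e.2 ▸ S.K_ne_smul h g
theorem Reg_two (hP : Γ.W P) (h : Γ.Reg G (P i)) (e : (2 : ℤ) ∣ i - j) : Γ.Reg G (P j) :=
  (S.exists_two hP e).elim fun g e => e ▸ S.Reg_smul h g

/-- an invariant property that occurs holds for one of the vertices of every flag -/
theorem or_of_inv {q : X → Prop} (hq : ∀ (g : G) x, q x → q (g • x)) (h0 : q a) (h : Γ.adj x y) : q x ∨ q y := by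
  have H := Γ.conn a x
  induction H generalizing y with
  | refl => exact Or.inl h0
  | tail _ h1 ih =>
    obtain ⟨g, -, rfl⟩ := S.exists_nbr (Γ.symm h1) h
    exact (ih h1).symm.imp_right (hq g _)

variable [Finite G]

theorem mem_Q_of_fix (h : Γ.adj x y) (hg : g ∈ V G x y) (f : ∀ u, Γ.adj x u → g • u = u) : g ∈ Γ.Q G x :=
  mem_Q.2 fun _ h' => S.V_of_fix h h' hg f

/-- an element that commutes with a transitive set -/
theorem mem_Q_of_trans {u : X} (h : Γ.adj x y) (hg : g ∈ V G x y) (f : g • u = u)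
    (t : ∀ u', Γ.adj x u' → u' ≠ y → ∃ a : G, Commute g a ∧ a • u = u') : g ∈ Γ.Q G x := by
  refine S.mem_Q_of_fix h hg fun u' hu => ?_
  by_cases e : u' = y
  · exact e ▸ V_fix' hg
  · obtain ⟨a, hc, rfl⟩ := t u' hu e
    rw [← mul_smul, hc.eq, mul_smul, f]

theorem mem_K_of_fix (h : Γ.adj x y) (hg : g ∈ V G x y)
    (f : ∀ P, Γ.W P → P 0 = x → ∀ j : ℤ, 0 ≤ j → j ≤ k → g • P j = P j) : g ∈ Γ.K G k x := by
  refine mem_K.2 fun P hP e j h1 => ?_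
  induction j, h1 using Int.leInduction with
  | base =>
    refine fun hk => e ▸ S.mem_Q_of_fix h hg fun u hu => ?_
    obtain ⟨R, hR, e1, rfl⟩ := exists_W2 hu 0
    exact f R hR e1 _ (by omega) (by omega)
  | succ j hj ih =>
    refine fun hk => S.mem_Q_of_fix (adj' hP rfl) (Q_le_V' (ih (by omega)) (adj' hP rfl)) fun u hu => ?_
    by_cases e1 : u = P (j + 1 - 1)
    · exact e1 ▸ f P hP e _ (by omega) (by omega)
    · obtain ⟨R, hR, e2, rfl⟩ := ext_right hP hu e1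
      exact f R hR ((e2 0 (by omega)).trans e) _ (by omega) (by omega)

theorem Z_le_K_of (h : Γ.adj x y) (hz : z ∈ Z G x y) (hk : 2 * k < n + 2)
    (f : ∀ P, Γ.W P → P 0 = x → P (0 + 1) = y → ∀ j : ℤ, -k ≤ j → j ≤ 0 → z • P j = P j) : z ∈ Γ.K G k x := by
  refine S.mem_K_of_fix h (mem_Z.1 hz).1 fun P hP e j h1 h2 => ?_
  subst e
  by_cases e : y = P (0 + 1)
  · rcases h1.eq_or_lt with rfl | h3
    · exact V_fix (mem_Z.1 hz).1
    · simpa using S.Z_fix (rev hP 1) (i := 0) (j := 1 - j) (by simpa [Z_symm, e] using hz) (by omega) (by omega)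
  · obtain ⟨R, hR, e1, rfl⟩ := ext_left hP h e
    simpa [e1 j h1] using f _ (rev hR 0) (by simp [e1]) (by simp) (-j) (by omega) (by omega)

theorem Z_le_K (h : Γ.adj x y) (hz : z ∈ Z G x y) (hk : 2 * k < n) : z ∈ Γ.K G k x :=
  S.Z_le_K_of h hz (by omega) fun P hP e1 e2 j h1 h2 => S.Z_fix hP (i := 0) (e1 ▸ e2 ▸ hz) (by omega) (by omega)
theorem Z_le_K' (h : Γ.adj x y) (hz : z ∈ Z G x y) (hk : 2 * k < n) : z ∈ Γ.K G k y :=
  S.Z_le_K (Γ.symm h) ((Z_symm x y).le hz) hk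

theorem ZK (hP : Γ.W P) {m : ℤ} (e : j = i + 1 ∧ m = i - k ∨ j = i - 1 ∧ m = i + k) (hz : z ∈ Z G (P i) (P j))
    (hk : 2 * k < n + 2) (f : z • P m = P m) : z ∈ Γ.K G k (P i) := by
  have := Γ.three
  have H : ∀ P : ℤ → X, Γ.W P → z ∈ Z G (P 0) (P (0 + 1)) → z • P (-k) = P (-k) → z ∈ Γ.K G k (P 0) :=
    fun P hP hz f => S.Z_le_K_of (hP.1 0) hz hk fun R hR e1 e2 j h1 h2 => S.Z_all hP hR e1.symm e2.symm hz h2
      (by omega) (S.fix_between hP (k := 0) (by omega) f (V_fix (mem_Z.1 hz).1) h1 h2)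
  rcases e with ⟨rfl, rfl⟩ | ⟨rfl, rfl⟩
  · simpa using H _ (hP.shift i) (by simpa [add_comm] using hz) (by simpa [neg_add_eq_sub] using f)
  · simpa using H _ (rev hP i) (by simpa using hz) (by simpa using f)

theorem exists_ZK (h : Γ.adj x y) (hk : 0 < k) (ne : Γ.K G k x ≠ ⊥) : ∃ z ∈ Γ.K G k x, z ∈ Z G x y ∧ z ≠ 1 :=
  exists_Z (fun _ hg => Q_le_V (K_le_Q hg hk) h) (fun _ hv _ ha => S.K_conj' ha (V_fix hv)) ne

end Spl

namespace SP
variable {p : ℕ} (S : Γ.SP G p) [Finite G]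
include S

theorem mem_V_shift (h1 : Γ.adj a b) (h2 : Γ.adj b c) (hg : g ∈ V G a b) (f : g • c = c) : g ∈ V G b c := by
  by_cases e : a = c
  · exact (V_symm c b).le (e ▸ hg)
  have := Fact.mk S.prime
  refine le_V (H := V G b c ⊔ V G a b ⊓ stabilizer G c) (fun g hg => ?_) (fun h f1 f2 => ?_) ?_
    (Subgroup.mem_sup_right ⟨hg, f⟩)
  · exact (sup_le (fun _ h => ⟨V_fix h, V_fix' h⟩) fun _ h => ⟨V_fix' h.1, h.2⟩ :
      V G b c ⊔ V G a b ⊓ stabilizer G c ≤ stabilizer G b ⊓ stabilizer G c) hg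
  · obtain ⟨v, hv, e1⟩ := S.trans1 h2 (Γ.symm h1) (f1 ▸ S.smul h (Γ.symm h1)) e
      fun e1 => e (smul_left_cancel h (e1.trans f2.symm))
    have f3 : (v⁻¹ * h) • a = a := by rw [mul_smul, ← e1, inv_smul_smul]
    have f4 : (v⁻¹ * h) • b = b := by rw [mul_smul, f1, V_fix (inv_mem hv)]
    have f5 : (v⁻¹ * h) • c = c := by rw [mul_smul, f2, V_fix' (inv_mem hv)]
    intro g hg
    have h3 : v⁻¹ * h * g * (v⁻¹ * h)⁻¹ ∈ V G b c ⊔ V G a b ⊓ stabilizer G c :=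
      (sup_le (fun _ hx => Subgroup.mem_sup_left (V_conj' hx f4 f5)) fun _ hx => Subgroup.mem_sup_right
        ⟨V_conj' hx.1 f3 f4, mul_mem (mul_mem (s := stabilizer G c) f5 hx.2) (inv_mem (s := stabilizer G c) f5)⟩ :
        V G b c ⊔ V G a b ⊓ stabilizer G c ≤
          (V G b c ⊔ V G a b ⊓ stabilizer G c).comap (MulAut.conj (v⁻¹ * h)).toMonoidHom) hg
    have h4 : v ∈ V G b c ⊔ V G a b ⊓ stabilizer G c := Subgroup.mem_sup_left hv
    simpa [mul_assoc] using mul_mem (mul_mem h4 h3) (inv_mem h4)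
  · exact ((S.pg b c h2).to_sup_of_normal_left' ((S.pg a b h1).to_inf_left (K := stabilizer G c)) fun v hv =>
      Core.mem_normalizer_of_forall_conj_mem fun _ hx => V_conj' hx (V_fix' hv.1) hv.2).isNilpotent

theorem mem_V_walk (hP : Γ.W P) {lo hi : ℤ} (hg : g ∈ V G (P i) (P (i + 1)))
    (f : ∀ k, lo ≤ k → k ≤ hi → g • P k = P k) (h1 : lo ≤ i) (h2 : i + 1 ≤ hi) (h3 : lo ≤ j) (h4 : j + 1 ≤ hi) :
    g ∈ V G (P j) (P (j + 1)) := by
  rcases le_total i j with e | e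
  · induction j, e using Int.leInduction with
    | base => exact hg
    | succ j hj ih =>
      exact S.mem_V_shift (hP.1 j) (hP.1 _) (ih (by omega) (by omega)) (f _ (by omega) (by omega))
  · induction j, e using Int.leInductionDown with
    | base => exact hg
    | pred j hj ih =>
      rw [sub_add_cancel, V_symm]
      exact S.mem_V_shift (adj' hP rfl) (adj' hP (by omega)) ((V_symm _ _).le (ih (by omega) (by omega)))
        (f _ (by omega) (by omega))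

theorem D_le_V (hP : Γ.W P) (hg : g ∈ Γ.D G P) (e : j = i + 1 ∨ j = i - 1) : g ∈ V G (P i) (P j) := by
  have H : ∀ i, g ∈ V G (P i) (P (i + 1)) := fun i => S.mem_V_walk hP (i := 0) (lo := min 0 i) (hi := max 1 (i + 1))
    (mem_D.1 hg).1 (fun k _ _ => (mem_D.1 hg).2 k) (by omega) (by omega) (by omega) (by omega)
  rcases e with rfl | rfl
  · exact H i
  · simpa [V_symm] using H (i - 1)

omit [Finite G] in
theorem pg_Q (x : X) : IsPGroup p (Γ.Q G x) :=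
  (Γ.thick x x x).elim fun y h => (S.pg x y h.1).to_le fun _ hg => Q_le_V hg h.1

theorem exists_Z_pow (h : Γ.adj x y) : ∃ z ∈ Z G x y, z ≠ 1 ∧ z ^ p = 1 := by
  have := Fact.mk S.prime
  obtain ⟨z, -, hz, h1⟩ := exists_Z le_rfl (fun _ hv _ ha => mul_mem (mul_mem hv ha) (inv_mem hv)) (S.V_ne_bot h)
  obtain ⟨w, hw, e⟩ := Core.exists_mem_orderOf_eq_of_isPGroup ((S.pg x y h).to_le (inf_le_left : Z G x y ≤ _))
    fun e => h1 (Subgroup.mem_bot.1 (e ▸ hz))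
  exact ⟨w, hw, fun e1 => S.prime.ne_one (by simpa [e1] using e.symm), e ▸ pow_orderOf_eq_one w⟩

end SP

end Pol

end CfsgLib.FS
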