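import Cfsg.Agent.Lib.FS.Base2
import Cfsg.Agent.Lib.PGroup.Basic

/-!
# Package BASE3: transitivity of `Q b` and `Q b ⊓ Q c` (see `plans/FS.md`)
-/

set_option autoImplicit false

namespace CfsgLib.FS
open Cfsg MulAction
open scoped commutatorElement

namespace Pol.SP
variable {n : ℕ} {X : Type*} {Γ : Pol n X} {P R : ℤ → X} {G : Type*} [Group G] [MulAction G X]
  {x y a b c u u' : X} {g : G} {p : ℕ} (S : Γ.SP G p) [Finite G]
include S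

set_option linter.unusedSectionVars false in
/-- the number of neighbours other than `y` -/
theorem card_nbr (h : Γ.adj x y) : Nat.card {u // Γ.adj x u ∧ u ≠ y} = Γ.val x := by
  have := Set.ncard_sdiff_singleton_of_mem (s := {u | Γ.adj x u}) h
  rwa [← Nat.card_coe_set_eq, ← Nat.card_coe_set_eq] at this

theorem val_pow (x : X) : ∃ e, 0 < e ∧ Γ.val x = p ^ e := by
  have := Fact.mk S.prime
  obtain ⟨y, h, -⟩ := Γ.thick x x x
  obtain ⟨u, hu, ne, -⟩ := Γ.thick x y y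
  have : Finite (orbit (V G x y) u) := (Set.finite_range _).to_subtype
  obtain ⟨e, he⟩ := (S.pg x y h).card_orbit u
  have h1 : orbit (V G x y) u = {u | Γ.adj x u ∧ u ≠ y} := Set.ext fun w => ⟨fun ⟨v, e⟩ => e ▸
    ⟨by simpa [V_fix v.2, Subgroup.smul_def] using S.smul (v : G) hu, fun e1 => ne (smul_left_cancel (v : G) (e1.trans (V_fix' v.2).symm))⟩,
    fun hw => (S.trans1 h hu hw.1 ne hw.2).elim fun v hv => ⟨⟨v, hv.1⟩, hv.2⟩⟩
  rw [h1] at he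
  have h2 := (S.card_nbr h).symm.trans he
  have h3 := S.two_le_val x
  exact ⟨e, Nat.pos_of_ne_zero fun e1 => by simp [h2, e1] at h3, h2⟩

theorem exists_fix_nbr {H : Subgroup G} (hH : IsPGroup p H) (f : ∀ g ∈ H, g • x = x) :
    ∃ y, Γ.adj x y ∧ ∀ g ∈ H, g • y = y := by
  have := Fact.mk S.prime
  let Ω : SubMulAction H X := ⟨{u | Γ.adj x u}, fun c u hu => (f c c.2 ▸ S.smul (c : G) hu : Γ.adj x ((c : G) • u))⟩
  obtain ⟨e, h0, he⟩ := S.val_pow x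
  obtain ⟨y, hy⟩ := hH.nonempty_fixed_point_of_prime_not_dvd_card Ω fun hd => by
    have h1 : Nat.card Ω = p ^ e + 1 := by
      have := S.two_le_val x
      change Nat.card {u // Γ.adj x u} = _
      unfold val at *
      omega
    exact S.prime.not_dvd_one ((Nat.dvd_add_right (dvd_pow_self p h0.ne')).1 (h1 ▸ hd))
  exact ⟨y, y.2, fun g hg => congrArg Subtype.val (hy ⟨g, hg⟩)⟩

theorem exists_cen_mod (_h : Γ.adj x y) {A : Subgroup G} (h1 : A ≤ V G x y)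
    (h2 : ∀ v ∈ V G x y, ∀ t ∈ A, v * t * v⁻¹ ∈ A) (h3 : ¬ A ≤ Γ.Q G x) :
    ∃ z ∈ A, z ∉ Γ.Q G x ∧ ∀ v ∈ V G x y, ⁅z, v⁆ ∈ Γ.Q G x := by
  have := V_nil (G := G) x y
  have : (A.subgroupOf (V G x y)).Normal := ⟨fun t ht v => h2 v v.2 t ht⟩
  have : ((Γ.Q G x).subgroupOf (V G x y)).Normal := ⟨fun t ht v => S.Q_conj' ht (V_fix v.2)⟩
  obtain ⟨z, hz, h4, h5⟩ := PGroup.exists_central_mod_of_not_le (M := A.subgroupOf (V G x y))
    (N := (Γ.Q G x).subgroupOf (V G x y)) fun e => h3 fun t ht => e (show ⟨t, h1 ht⟩ ∈ _ from ht)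
  exact ⟨z, hz, h4, fun v hv => h5 ⟨v, hv⟩⟩

/-- Lemma T -/
theorem T (hab : Γ.adj a b) (hbc : Γ.adj b c) (ne : a ≠ c) {A : Subgroup G} (h1 : A ≤ V G b c)
    (h2 : ∀ v ∈ V G b c, ∀ t ∈ A, v * t * v⁻¹ ∈ A) (h3 : ¬ A ≤ Γ.Q G b) (hu : Γ.adj a u) (hu' : Γ.adj a u')
    (n1 : u ≠ b) (n2 : u' ≠ b) : ∃ g ∈ A, g ∈ Γ.Q G b ∧ g • u = u' := by
  have := Γ.three
  obtain ⟨z, hz, h4, h5⟩ := S.exists_cen_mod hbc h1 h2 h3
  have hv := h1 hz
  have za : z • a ≠ a := fun e => h4 (S.mem_Q_of_fix hbc hv fun w hw => by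
    by_cases e1 : w = c
    · exact e1 ▸ V_fix' hv
    obtain ⟨v, hv', rfl⟩ := S.trans1 hbc (Γ.symm hab) hw ne e1
    have := Q_fix_nbr (h5 v hv') hw
    rwa [commutatorElement_def, mul_smul, inv_smul_smul, mul_smul, inv_smul_eq_iff.2 e.symm, mul_smul] at this)
  obtain ⟨P₀, hP₀, rfl, rfl, rfl⟩ := exists_W3 hab hbc ne 0
  obtain ⟨P, hP, e1, rfl⟩ := ext_left hP₀ hu (by simpa using n1)
  have H : ∀ w, Γ.adj (P₀ (0 - 1)) w → w ≠ P₀ 0 → ∃ B W, Γ.Apt B ∧ Γ.W W ∧ (∀ j : ℤ, 1 - n ≤ j → j ≤ 0 → B j = z • P j) ∧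
      B 1 = P₀ (0 - 1) ∧ B 2 = w ∧ (∀ j, j ≤ 0 → W j = B j) ∧ W (0 + 1) = P₀ (0 + 1) := fun w hw n3 => by
    obtain ⟨R, hR, e2, rfl⟩ := ext_left hP₀ hw (by simpa using n3)
    obtain ⟨B, hB, e3⟩ := exists_apt ((S.W_smul hP z).glue (rev hR 0) (i := 0)
      (by simpa [e1, e2] using V_fix hv) (by simpa [e1, e2] using za)) (1 - n)
    have e4 : ∀ j : ℤ, 1 - n ≤ j → j ≤ 0 → B j = z • P j := fun j _ h => by rw [e3 j ‹_› (by omega), if_pos h]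
    obtain ⟨W, hW, e5, e6⟩ := ext_right hB.1 (i := 0) (u := P₀ (0 + 1))
      (by rwa [e4 0 (by omega) le_rfl, e1 0 (by omega), V_fix hv])
      (by rw [e4 _ (by omega) (by omega), e1 _ le_rfl]
          exact fun e => ne (smul_left_cancel z (e.symm.trans (V_fix' hv).symm)))
    exact ⟨B, W, hB, hW, e4, by simpa [e2] using e3 1 (by omega) (by omega),
      by simpa using e3 2 (by omega) (by omega), e5, e6⟩
  obtain ⟨B, W, hB, hW, b1, b2, b3, w1, w2⟩ := H _ hu n1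
  obtain ⟨B', W', hB', hW', b1', b2', rfl, w1', w2'⟩ := H _ hu' n2
  have e0 : W 0 = P₀ 0 := by rw [w1 0 le_rfl, b1 0 (by omega) le_rfl, e1 0 (by omega), V_fix hv]
  obtain ⟨v, hv', f⟩ := S.trans hW hW' (i := 0) (k := -n) (by omega) (by omega)
    (by rw [w1 0 le_rfl, w1' 0 le_rfl, b1 0 (by omega) le_rfl, b1' 0 (by omega) le_rfl]) (w2.trans w2'.symm)
  rw [e0, w2] at hv'
  have f1 : ∀ j : ℤ, -n ≤ j → j ≤ 0 → v • B j = B' j := fun j _ h => by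
    rw [← w1 j h, ← w1' j h, f j ‹_› (by omega)]
  have f2 : ∀ j : ℤ, 1 - n ≤ j → j ≤ 0 → (z⁻¹ * v * z)⁻¹ • P j = P j := fun j h h' => by
    rw [inv_smul_eq_iff, mul_smul, mul_smul, ← b1 j h h', f1 j (by omega) h', b1' j h h', inv_smul_smul]
  have hg : z⁻¹ * v * z ∈ V G (P₀ 0) (P₀ (0 + 1)) := mul_mem (mul_mem (inv_mem hv) hv') hv
  have e2 : ⁅z, z⁻¹ * v * z⁆ = v * (z⁻¹ * v * z)⁻¹ := by rw [commutatorElement_def]; group
  have f3 := Q_fix_nbr (h5 _ hg) (Γ.symm hab)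
  rw [e2, mul_smul, ← e1 _ le_rfl, f2 _ (by omega) (by omega), e1 _ le_rfl] at f3
  have e3 := Apt.ext (P := fun j => v • B j) ⟨S.W_smul hB.1 v, fun j => congrArg _ (hB.2 j)⟩ hB' (i := -n) fun j h h' => by
    rcases (show j ≤ 0 ∨ j = 1 by omega) with e | rfl
    exacts [f1 j h e, by rw [b2, b2', f3]]
  refine ⟨_, ?_, h5 _ hg, by rw [e2, mul_smul, f2 _ (by omega) (by omega), ← b3]; exact congrFun e3 2⟩
  simpa only [commutatorElement_def, mul_assoc] using mul_mem hz (h2 _ hg _ (inv_mem hz))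

theorem T1 (hab : Γ.adj a b) (hu : Γ.adj a u) (hu' : Γ.adj a u') (n1 : u ≠ b) (n2 : u' ≠ b) :
    ∃ g ∈ Γ.Q G b, g • u = u' := by
  obtain ⟨c, hc, ne, -⟩ := Γ.thick b a a
  obtain ⟨w, hw, n3, n4⟩ := Γ.thick b a c
  obtain ⟨v, hv, rfl⟩ := S.trans1 hc (Γ.symm hab) hw ne.symm n4
  obtain ⟨g, -, h⟩ := S.T hab hc ne.symm le_rfl (fun _ h _ h' => mul_mem (mul_mem h h') (inv_mem h))
    (fun e => n3 (Q_fix_nbr (e hv) (Γ.symm hab))) hu hu' n1 n2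
  exact ⟨g, h⟩

theorem T2 (hab : Γ.adj a b) (hbc : Γ.adj b c) (ne : a ≠ c) (hu : Γ.adj a u) (hu' : Γ.adj a u') (n1 : u ≠ b)
    (n2 : u' ≠ b) : ∃ g ∈ Γ.Q G b, g ∈ Γ.Q G c ∧ g • u = u' := by
  obtain ⟨w, hw, n3, n4⟩ := Γ.thick b a c
  obtain ⟨v, hv, rfl⟩ := S.T1 hbc (Γ.symm hab) hw ne n4
  obtain ⟨g, h1, h2, h3⟩ := S.T hab hbc ne (fun _ h => Q_le_V' h hbc) (fun _ h _ h' => S.Q_conj' h' (V_fix' h))
    (fun e => n3 (Q_fix_nbr (e hv) (Γ.symm hab))) hu hu' n1 n2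
  exact ⟨g, h2, h1, h3⟩

/-- an element that commutes with `Q b`: from one neighbour of `a` to all neighbours other than `b` -/
theorem K_all {k : ℕ} (hab : Γ.adj a b) (hc : ∀ q ∈ Γ.Q G b, Commute g q) (hu : Γ.adj a u) (n1 : u ≠ b)
    (hg : g ∈ Γ.K G k u) (hu' : Γ.adj a u') (n2 : u' ≠ b) : g ∈ Γ.K G k u' :=
  (S.T1 hab hu hu' n1 n2).elim fun q h => S.K_of_comm hg (hc q h.1) h.2

/-- Lemma AB2 -/
theorem AB2 {v w j : _} (h : Γ.adj v w) (hj : j ∈ V G v w) (hf : ∀ u, Γ.adj v u → j • u = u → u = w)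
    (hy : Γ.adj v y) (ne : y ≠ w) (e : j • j • y = y) (hg : g ∈ V G v w) (f : g • y = y) : g • j • y = j • y := by
  have := Fact.mk S.prime
  have hy' : Γ.adj v (j • y) := V_fix hj ▸ S.smul j hy
  have sw : ∀ {s t : X} {d : G}, Γ.adj v s → Γ.adj v t → d ∈ V G v s → d • t = t → d ∈ V G v t :=
    fun hs ht hd => S.mem_V_shift (Γ.symm hs) ht ((V_symm _ _).le hd)
  obtain ⟨w', hw, f1⟩ := S.exists_fix_nbr (x := v) (((S.pg v y hy).to_inf_left (K := stabilizer G (j • y))).to_sup_of_normal_left'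
    ((S.pg v w h).to_le (Subgroup.zpowers_le.2 hj)) (Subgroup.zpowers_le.2 (Core.mem_normalizer_of_forall_conj_mem
      fun d hd => ⟨sw hy' hy (by simpa [V_fix hj] using V_conj hd.1 j)
        (by rw [← e, mul_smul, inv_smul_smul, mul_smul, show d • j • y = j • y from hd.2]),
        by simpa [mul_smul] using V_fix' hd.1⟩)))
    (sup_le (b := Subgroup.zpowers j) (c := stabilizer G v) (fun _ hd => V_fix hd.1) (Subgroup.zpowers_le.2 (V_fix hj)))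
  obtain rfl := hf w' hw (f1 j (Subgroup.mem_sup_right (Subgroup.mem_zpowers j)))
  obtain ⟨r, hr, e1⟩ := S.trans1 hy h hy' ne.symm fun e1 => ne (hf y hy e1)
  have h2 := Core.eq_of_le_of_card_le (H := V G v y ⊓ stabilizer G (j • y)) (K := V G v y ⊓ stabilizer G w')
    (fun d hd => ⟨hd.1, f1 d (Subgroup.mem_sup_left hd)⟩) (by
      rw [← Core.card_map_conj _ r]
      refine Subgroup.card_le_of_le ?_
      rintro _ ⟨d, hd, rfl⟩
      exact ⟨(V G v y).mul_mem (mul_mem hr hd.1) (inv_mem hr), by simpa [← e1, mul_smul] using hd.2⟩)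
  exact (h2.ge ⟨sw h hy hg f, V_fix' hg⟩).2

theorem reg_of_fix (h : ∀ P, Γ.W P → P 0 = x → ∀ g ∈ V G (P 0) (P 1), (∀ j, -1 ≤ j → j ≤ 3 → g • P j = P j) →
    g ∈ Γ.Q G (P 0)) : Γ.Reg G x := fun y y' hy hy' ne g hg f => by
  obtain ⟨P, hP, rfl, rfl, rfl⟩ := exists_W3 (Γ.symm hy') hy ne.symm 0
  have H : ∀ (g : G) (i : ℤ), g • P i = P i → g • P (i + 1) = P (i + 1) →
      Γ.adj (P (i + 1)) (g • P (i + 2)) ∧ g • P (i + 2) ≠ P i := fun g i f1 f2 =>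
    ⟨f2 ▸ S.smul g (hP.adj (by omega)), fun e => hP.2 i (smul_left_cancel g (f1.trans e.symm))⟩
  obtain ⟨h1, h2⟩ := H g 0 (V_fix hg) (V_fix' hg)
  obtain ⟨q, hq, f1⟩ := S.T1 (adj' hP rfl) h1 (hP.adj (j := 0 + 2) rfl) h2 (hP.2 0).symm
  have hg1 := mul_mem (Q_le_V hq hy) hg
  obtain ⟨h3, h4⟩ := H (q * g) (0 + 1) (V_fix' hg1) ((mul_smul _ _ _).trans f1)
  obtain ⟨r, hr, hr', f2⟩ := S.T2 (adj' hP rfl) (Γ.symm hy) (hP.2 0).symm h3 (hP.adj (j := 0 + 1 + 2) rfl) h4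
    (hP.2 _).symm
  have hg2 := mul_mem (Q_le_V hr' hy) hg1
  refine (mul_mem_cancel_left hq).1 ((mul_mem_cancel_left hr').1 (h P hP rfl _ hg2 fun j h5 h6 => ?_))
  rcases (show j = 0 - 1 ∨ j = 0 ∨ j = 0 + 1 ∨ j = 0 + 2 ∨ j = 0 + 1 + 2 by omega) with rfl | rfl | rfl | rfl | rfl
  · rw [mul_smul, mul_smul, f, Q_fix_nbr hq hy', Q_fix_nbr hr' hy']
  · exact V_fix hg2
  · exact V_fix' hg2
  · rw [mul_smul, mul_smul, f1, Q_fix_W hP hr (by omega) (by omega)]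
  · rw [mul_smul, f2]

end Pol.SP

end CfsgLib.FS
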