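import Mathlib
import Cfsg.Prelude.Def_OddOrderLocal

/-!
# Split groups of automorphisms of generalized polygons: definitions (project FS, see `plans/FS.md`)
-/

set_option autoImplicit false

namespace CfsgLib.FS
open Cfsg MulAction

/-- infinite paths without backtracking -/
def Wk {X : Type*} (r : X → X → Prop) (P : ℤ → X) : Prop := (∀ i, r (P i) (P (i + 1))) ∧ ∀ i, P i ≠ P (i + 2)

/-- a thick generalized `n`-gon -/
structure Pol (n : ℕ) (X : Type*) where
  adj : X → X → Prop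
  symm : ∀ {x y}, adj x y → adj y x
  three : 3 ≤ n
  thick : ∀ x y z, ∃ u, adj x u ∧ u ≠ y ∧ u ≠ z
  girth : ∀ P, Wk adj P → ∀ i j : ℤ, i < j → j < i + 2 * n → P i ≠ P j
  close : ∀ P, Wk adj P → ∀ i : ℤ, ∃ Q, Wk adj Q ∧ (∀ j, Q (j + 2 * n) = Q j) ∧ ∀ j, i ≤ j → j ≤ i + n + 1 → Q j = P j
  conn : ∀ x y, Relation.ReflTransGen adj x y

/-- the Fitting subgroup of the stabilizer of `x` and `y` -/
def V {X : Type*} (G : Type*) [Group G] [MulAction G X] (x y : X) : Subgroup G :=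
  fittingOf (stabilizer G x ⊓ stabilizer G y)

/-- its centre -/
def Z {X : Type*} (G : Type*) [Group G] [MulAction G X] (x y : X) : Subgroup G :=
  V G x y ⊓ Subgroup.centralizer (V G x y : Set G)

namespace Pol
variable {n : ℕ} {X : Type*} (Γ : Pol n X) (G : Type*) [Group G] [MulAction G X]

/-- walks -/
abbrev W (P : ℤ → X) : Prop := Wk Γ.adj P

/-- apartments -/
def Apt (P : ℤ → X) : Prop := Γ.W P ∧ ∀ j, P (j + 2 * n) = P j

/-- the valency minus one -/
noncomputable def val (x : X) : ℕ := Nat.card {u // Γ.adj x u} - 1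

/-- the elements of the groups `V` that fix all neighbours of `x` -/
def Q (x : X) : Subgroup G := ⨅ y, ⨅ _ : Γ.adj x y, V G x y

/-- the elements that fix the ball of radius `k` -/
def K (k : ℕ) (x : X) : Subgroup G := ⨅ P, ⨅ _ : Γ.W P ∧ P 0 = x, ⨅ j : ℤ, ⨅ _ : 0 ≤ j ∧ j < k, Γ.Q G (P j)

/-- the root group of the root from `P i` to `P (i + n)` -/
def U (P : ℤ → X) (i : ℤ) : Subgroup G := ⨅ j, ⨅ _ : i < j ∧ j < i + n, Γ.Q G (P j)

/-- the elements of `V` that fix the walk -/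
def D (_Γ : Pol n X) (G : Type*) [Group G] [MulAction G X] (P : ℤ → X) : Subgroup G :=
  V G (P 0) (P 1) ⊓ ⨅ j, stabilizer G (P j)

/-- the groups `V` act regularly on the neighbours of `x` -/
def Reg (x : X) : Prop := ∀ y y', Γ.adj x y → Γ.adj x y' → y ≠ y' → ∀ g ∈ V G x y, g • y' = y' → g ∈ Γ.Q G x

/-- the root group acts transitively -/
def Tr (P : ℤ → X) (i : ℤ) : Prop := ∀ u, Γ.adj (P i) u → u ≠ P (i + 1) → ∃ g ∈ Γ.U G P i, g • P (i - 1) = u

/-- the Moufang property -/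
def Mou : Prop := ∀ P, Γ.W P → ∀ i, Γ.Tr G P i

/-- `m = μ(u)` -/
def Mu (P : ℤ → X) (i : ℤ) (u m : G) : Prop :=
  ∃ p ∈ Γ.U G P (i + n), ∃ q ∈ Γ.U G P (i + n), m = p * u * q ∧ ∀ j, m • P j = P (2 * i - j)

/-- involutions without further fixed points are central in the action on the neighbours of `x` -/
def CI (x : X) : Prop := ∀ y, Γ.adj x y → ∀ j ∈ V G x y, j * j ∈ Γ.Q G x → (∀ u, Γ.adj x u → j • u = u → u = y) →
  ∀ g ∈ V G x y, j * g * j⁻¹ * g⁻¹ ∈ Γ.Q G x

/-- there is only one such involution -/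
def UI (x : X) : Prop := ∀ y, Γ.adj x y → ∀ j ∈ V G x y, ∀ j' ∈ V G x y, j * j ∈ Γ.Q G x → j' * j' ∈ Γ.Q G x →
  (∀ u, Γ.adj x u → j • u = u → u = y) → (∀ u, Γ.adj x u → j' • u = u → u = y) → j⁻¹ * j' ∈ Γ.Q G x

/-- a faithful group of automorphisms -/
structure Au : Prop where
  smul : ∀ (g : G) {x y}, Γ.adj x y → Γ.adj (g • x) (g • y)
  faith : ∀ g : G, (∀ x : X, g • x = x) → g = 1

/-- the Fitting subgroup of the stabilizer of a flag is transitive on the opposite flags -/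
structure Spl : Prop extends Γ.Au G where
  trans0 : ∀ P R, Γ.W P → Γ.W R → P 0 = R 0 → P 1 = R 1 →
    ∃ v ∈ V G (P 0) (P 1), v • P n = R n ∧ v • P (n + 1) = R (n + 1)

/-- and it is a `p`-group -/
structure SP (p : ℕ) : Prop extends Γ.Spl G where
  prime : p.Prime
  pg : ∀ x y, Γ.adj x y → IsPGroup p (V G x y)

end Pol

end CfsgLib.FS
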