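import Cfsg.Agent.Lib.FH.Main

/-!
# The Feit-Higman condition for octagons (see `plans/FS.md`)
-/

set_option autoImplicit false

namespace CfsgLib.FS
open Cfsg CfsgLib.BN CfsgLib.FH Matrix Real

theorem fh8 {G : Type*} [Group G] {P : BNPair G} [Fintype (G ⧸ P.B)] {s t : P.S}
    (hn : orderOf (sW P t * sW P s) = 8) : IsSquare (2 * qq s * qq t) := by
  classical
  have hn' : orderOf (sW P s * sW P t) = 8 := by
    rw [← orderOf_inv, _root_.mul_inv_rev, sW_inv, sW_inv, hn]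
  set S := Tm (sW P s)
  set T := Tm (sW P t)
  let g : P.S → Matrix (G ⧸ P.B) (G ⧸ P.B) ℝ := fun s => Tm (sW P s)
  have tr : ∀ (p q : P.S) (k : ℕ), 0 < k → k ≤ orderOf (sW P p * sW P q) →
      ((alt p q k).map g).prod.trace = 0 := by
    intro p q k hk0 hk
    have h1 := red_alt (exch P) k p q hk
    rw [prod_Tm h1]
    refine trace_Tm fun h2 => ?_
    rw [ExchSys.Red, h2, ExchSys.len_one, length_alt] at h1
    omega
  have br : ((alt t s 8).map g).prod = ((alt s t 8).map g).prod := by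
    rw [prod_Tm (red_alt (exch P) 8 t s hn.ge), prod_Tm (red_alt (exch P) 8 s t hn'.ge)]
    congr 1
    exact (alt_prod_eq_iff _ t s (sW_sq t) (sW_sq s) 8).2 (hn ▸ pow_orderOf_eq_one _)
  have e1 : ∀ i, ((alt t s (2 * i)).map g).prod = (T * S) ^ i := prod_map_alt_two_mul g t s
  have e2 : ∀ i, ((alt t s (2 * i + 1)).map g).prod = (T * S) ^ i * T := by
    intro i
    rw [alt_succ_right, if_pos (even_two_mul i), List.map_append, List.prod_append, e1]
    simp [g, T]
  have hS0 : S.trace = 0 := trace_Tm (sW_ne_one s)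
  have h1 : ∀ i, i ≤ 3 → ((T * S) ^ (i + 1)).trace = 0 := fun i hi => by
    rw [← e1]; exact tr t s _ (by omega) (by omega)
  have h2 : ∀ i, i ≤ 3 → ((T * S) ^ i * T).trace = 0 := fun i hi => by
    rw [← e2]; exact tr t s _ (by omega) (by omega)
  have ha : (1 : ℝ) < qq s := by exact_mod_cast one_lt_qq s
  have hb : (1 : ℝ) < qq t := by exact_mod_cast one_lt_qq t
  rw [show 8 = 2 * (3 + 1) from rfl, e1, show 2 * (3 + 1) = 2 * 3 + 1 + 1 from rfl, alt_succ, List.map_cons,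
    List.prod_cons, e2, ← mul_assoc] at br
  obtain ⟨r, hr⟩ := even_aux (Tm_sq s) (Tm_sq t) rfl rfl ha hb (m := 3) (by norm_num) br hS0 h1 h2 (j := 1) one_pos
    (by norm_num)
  have e : π * ((1 : ℕ) : ℝ) / ((3 : ℕ) + 1) = π / 4 := by push_cast; ring
  rw [e, cos_pi_div_four, sin_pi_div_four, div_pow, sq_sqrt (by norm_num)] at hr
  by_contra h
  refine (irrational_sqrt_natCast_iff.2 h) ⟨(r / 2 - (qq s * (qq t - 1) ^ 2 + qq t * (qq s - 1) ^ 2)) /
    ((qq s - 1) * (qq t - 1)), ?_⟩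
  have a1 : (qq s : ℝ) - 1 ≠ 0 := by linarith
  have b1 : (qq t : ℝ) - 1 ≠ 0 := by linarith
  push_cast
  rw [mul_assoc, sqrt_mul (by norm_num), div_eq_iff (mul_ne_zero a1 b1)]
  linarith

end CfsgLib.FS
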