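import Cfsg.Agent.Lib.FS.Defs
import Cfsg.Agent.Lib.Tits.Bld

/-!
# Package GEO: the generalized polygon of a rank two residue (see `plans/FS.md`)
-/

set_option autoImplicit false

namespace CfsgLib.FS
open CfsgLib.Tits CfsgLib.BN

variable {B W : Type*} [Group W] {E : ExchSys B W} {C : Type*} (D : Bld E C) (i j : B) (c : C)

/-- the panels in the residue of type `{i, j}` of `c` -/
def Vx : Type _ := {p : B × Set C // (p.1 = i ∨ p.1 = j) ∧ ∃ z ∈ D.R {i, j} c, p.2 = D.R {p.1} z}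

variable {D i j c}

/-- panels of different types with a common chamber -/
def vadj (p q : Vx D i j c) : Prop := p.1.1 ≠ q.1.1 ∧ ∃ z, z ∈ p.1.2 ∧ z ∈ q.1.2

theorem vadj_symm {p q : Vx D i j c} (h : vadj p q) : vadj q p :=
  ⟨h.1.symm, let ⟨z, a, b⟩ := h.2; ⟨z, b, a⟩⟩

namespace GeoP

variable {p q r : Vx D i j c} {x y : C}

/-- the panel of type `k` of `z` -/
def mk (k : B) (hk : k = i ∨ k = j) (z : C) (hz : z ∈ D.R {i, j} c) : Vx D i j c :=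
  ⟨(k, D.R {k} z), hk, z, hz, rfl⟩

theorem pan_eq (hx : x ∈ p.1.2) : p.1.2 = D.R {p.1.1} x := by
  obtain ⟨z, -, e⟩ := p.2.2
  rw [e] at hx ⊢
  exact (D.R_eq hx).symm

theorem ne_pan (p : Vx D i j c) : ∃ x, x ∈ p.1.2 := by
  obtain ⟨z, -, e⟩ := p.2.2
  exact ⟨z, e ▸ D.self_mem_R _ z⟩

theorem mem_big (hx : x ∈ p.1.2) : x ∈ D.R {i, j} c := by
  obtain ⟨z, hz, e⟩ := p.2.2
  rw [e] at hx
  exact D.R_trans hz (D.R_mono (Set.singleton_subset_iff.2 p.2.1) z hx)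

theorem eq_of (ht : p.1.1 = q.1.1) (h1 : x ∈ p.1.2) (h2 : x ∈ q.1.2) : p = q :=
  Subtype.ext (Prod.ext ht (by rw [pan_eq h1, pan_eq h2, ht]))

theorem uniq (ht : p.1.1 ≠ q.1.1) (h1 : x ∈ p.1.2) (h2 : x ∈ q.1.2) (h3 : y ∈ p.1.2)
    (h4 : y ∈ q.1.2) : x = y := by
  rw [pan_eq h1, D.mem_R_singleton] at h3
  rw [pan_eq h2, D.mem_R_singleton] at h4
  rcases h3 with h3 | h3
  · exact h3.symm
  rcases h4 with h4 | h4
  · exact h4.symm
  exact absurd (E.inj (h3.symm.trans h4)) ht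

theorem type3 (h1 : p.1.1 ≠ q.1.1) (h2 : q.1.1 ≠ r.1.1) : r.1.1 = p.1.1 := by
  rcases p.2.1 with a | a <;> rcases q.2.1 with b | b <;> rcases r.2.1 with d | d <;> simp_all

theorem pair_eq (h : p.1.1 ≠ q.1.1) : ({p.1.1, q.1.1} : Set B) = {i, j} ∧
    E.mat p.1.1 q.1.1 = E.mat i j := by
  rcases p.2.1 with a | a <;> rcases q.2.1 with b | b
  · exact absurd (a.trans b.symm) h
  · rw [a, b]; exact ⟨rfl, rfl⟩
  · rw [a, b]; exact ⟨Set.pair_comm _ _, mat_comm E _ _⟩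
  · exact absurd (a.trans b.symm) h

theorem rtg (h1 : x ∈ p.1.2) (h2 : x ∈ q.1.2) : Relation.ReflTransGen vadj p q := by
  by_cases ht : p.1.1 = q.1.1
  · rw [eq_of ht h1 h2]
  · exact .single ⟨ht, x, h1, h2⟩

variable {P : ℤ → Vx D i j c} {z : ℤ → C}

theorem type2 (hP : Wk vadj P) (l : ℤ) : (P (l + 2)).1.1 = (P l).1.1 :=
  type3 (hP.1 l).1 (by have := (hP.1 (l + 1)).1; rwa [add_assoc] at this)

theorem per {α : Type*} {σ : ℤ → α} (h2 : ∀ l, σ (l + 2) = σ l) (l a : ℤ) : σ (l + 2 * a) = σ l := by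
  induction a using Int.induction_on with
  | zero => simp
  | succ a ih => rw [mul_add, ← add_assoc, mul_one, h2, ih]
  | pred a ih => rw [← h2, ← ih]; congr 1; ring

theorem step (hP : Wk vadj P) (h1 : ∀ l, z l ∈ (P l).1.2) (h2 : ∀ l, z l ∈ (P (l + 1)).1.2) (l : ℤ) :
    D.δ (z l) (z (l + 1)) = E.s (P (l + 1)).1.1 := by
  have := h1 (l + 1)
  rw [pan_eq (h2 l), D.mem_R_singleton] at this
  refine this.resolve_left fun e => hP.2 l (eq_of (type2 hP l).symm (h1 l) ?_)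
  have := h2 (l + 1)
  rwa [e, add_assoc] at this

theorem dist (hP : Wk vadj P) (h1 : ∀ l, z l ∈ (P l).1.2) (h2 : ∀ l, z l ∈ (P (l + 1)).1.2) (m : ℕ)
    (hm : m ≤ E.mat i j) (k : ℤ) :
    D.δ (z k) (z (k + m)) = E.wp (alt (P (k + 1)).1.1 (P k).1.1 m) ∧
      E.len (D.δ (z k) (z (k + m))) = m := by
  have red : ∀ m ≤ E.mat i j, ∀ k, E.Red (alt (P (k + 1)).1.1 (P k).1.1 m) := fun m hm k =>
    FH.red_alt E m _ _ (by rw [← E.mat_apply, (pair_eq (hP.1 k).1.symm).2]; exact hm)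
  suffices h : D.δ (z k) (z (k + m)) = E.wp (alt (P (k + 1)).1.1 (P k).1.1 m) by
    refine ⟨h, ?_⟩
    rw [h, red m hm k, length_alt]
  induction m generalizing k with
  | zero => simp [D.δ_self]
  | succ m ih =>
    have h3 := ih (by omega) (k + 1)
    rw [add_assoc k 1 1, one_add_one_eq_two, type2 hP] at h3
    have h4 := (red (m + 1) hm k).P_cons
    rw [alt_succ, E.wp_cons, ← h3, Nat.cast_succ, add_comm (m : ℤ), ← add_assoc]
    exact D.δ_P _ _ _ _ (step hP h1 h2 k) (h3 ▸ h4)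

theorem exists_w (σ : ℤ → W) (h2 : ∀ l, σ (l + 2) = σ l) (k : ℤ) (n : ℕ)
    (hn : (σ (k + 1) * σ k) ^ n = 1) : ∃ w : ℤ → W, w k = 1 ∧ (∀ l, w (l + 1) = w l * σ (l + 1)) ∧
      (∀ l, w (l + 2 * n) = w l) ∧ ∀ K : Subgroup W, (∀ l, σ l ∈ K) → ∀ l, w l ∈ K := by
  refine ⟨fun l => (σ (k + 1) * σ k) ^ ((l - k) / 2) * σ (k + 1) ^ ((l - k) % 2), by simp,
    fun l => ?_, fun l => ?_, fun K hK l => mul_mem (zpow_mem (mul_mem (hK _) (hK _)) _)
      (zpow_mem (hK _) _)⟩ <;> beta_reduce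
  · obtain ⟨a, rfl | rfl⟩ : ∃ a, l = k + 2 * a ∨ l = k + 2 * a + 1 := ⟨(l - k) / 2, by omega⟩
    · rw [show (k + 2 * a + 1 - k) / 2 = a by omega, show (k + 2 * a + 1 - k) % 2 = 1 by omega,
        show (k + 2 * a - k) / 2 = a by omega, show (k + 2 * a - k) % 2 = 0 by omega,
        add_right_comm, per h2, zpow_one, zpow_zero, mul_one]
    · rw [show (k + 2 * a + 1 + 1 - k) / 2 = a + 1 by omega,
        show (k + 2 * a + 1 + 1 - k) % 2 = 0 by omega, show (k + 2 * a + 1 - k) / 2 = a by omega,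
        show (k + 2 * a + 1 - k) % 2 = 1 by omega, show k + 2 * a + 1 + 1 = k + 2 * (a + 1) by ring,
        per h2, zpow_one, zpow_zero, mul_one, zpow_add_one, mul_assoc]
  · rw [show (l + 2 * n - k) / 2 = (l - k) / 2 + n by omega,
      show (l + 2 * n - k) % 2 = (l - k) % 2 by omega, zpow_add, zpow_natCast, hn, mul_one]

end GeoP

open GeoP

theorem vadj_thick (h : i ≠ j) (x y z : Vx D i j c) : ∃ u, vadj x u ∧ u ≠ y ∧ u ≠ z := by
  obtain ⟨x0, h0⟩ := ne_pan x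
  have key : ∀ y : Vx D i j c, ∃ y0, ∀ u ∈ x.1.2, x.1.1 ≠ y.1.1 → u ∈ y.1.2 → u = y0 := fun y => by
    by_cases k : ∃ u ∈ x.1.2, u ∈ y.1.2
    · obtain ⟨y0, a, b⟩ := k
      exact ⟨y0, fun u a' ht b' => uniq ht a' b' a b⟩
    · exact ⟨x0, fun u a _ b => absurd ⟨u, a, b⟩ k⟩
  obtain ⟨y0, hy⟩ := key y
  obtain ⟨z0, hz⟩ := key z
  obtain ⟨u, h1, h2, h3⟩ := D.thick x.1.1 x0 y0 z0
  have hu : u ∈ x.1.2 := by rw [pan_eq h0]; exact h1
  obtain ⟨b, hb, hb'⟩ : ∃ b, (b = i ∨ b = j) ∧ x.1.1 ≠ b := by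
    rcases x.2.1 with a | a
    exacts [⟨j, Or.inr rfl, a.trans_ne h⟩, ⟨i, Or.inl rfl, a.trans_ne h.symm⟩]
  have m : u ∈ (mk b hb u (mem_big hu)).1.2 := D.self_mem_R _ u
  exact ⟨mk b hb u (mem_big hu), ⟨hb', u, hu, m⟩, fun e => h2 (hy u hu (e ▸ hb') (e ▸ m)),
    fun e => h3 (hz u hu (e ▸ hb') (e ▸ m))⟩

theorem vadj_conn (h : i ≠ j) (x y : Vx D i j c) : Relation.ReflTransGen vadj x y := by
  have _ := h
  obtain ⟨x0, h0⟩ := ne_pan x
  obtain ⟨y0, h1⟩ := ne_pan y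
  refine D.R_induction (J := {i, j}) (x := x0)
    (p := fun u => ∀ q : Vx D i j c, u ∈ q.1.2 → Relation.ReflTransGen vadj x q)
    (fun q hq => rtg h0 hq) (fun u hu k hk v e _ ih q hq => ?_) y0
    (D.δ_mem_par (mem_big h0) (mem_big h1)) y h1
  exact (ih (mk k hk u (D.R_trans (mem_big h0) hu)) (D.self_mem_R _ u)).trans
    (rtg (D.mem_R_singleton.2 (Or.inr e)) hq)

variable [Finite W]

theorem vadj_girth (h : i ≠ j) (P : ℤ → Vx D i j c) (hP : Wk vadj P) (k l : ℤ) (h1 : k < l)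
    (h2 : l < k + 2 * (E.mat i j : ℕ)) : P k ≠ P l := by
  have _ := h
  intro e
  choose z z1 z2 using fun l => (hP.1 l).2
  obtain ⟨m, rfl⟩ : ∃ m : ℕ, l = k + m + 1 := ⟨(l - k - 1).toNat, by omega⟩
  have h3 : E.len (D.δ (z k) (z (k + m))) ≤ 1 := by
    have := z2 (k + m)
    rw [← e, pan_eq (z1 k), D.mem_R_singleton] at this
    rcases this with a | a
    · rw [a, D.δ_self, E.len_one]; omega
    · rw [a, E.len_s]
  by_cases hm : m ≤ E.mat i j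
  · rw [(dist hP z1 z2 m hm k).2] at h3
    interval_cases m
    · exact (hP.1 k).1 (by rw [e]; simp)
    · exact hP.2 k (by rw [e]; congr 1; push_cast; ring)
  · obtain ⟨d, rfl⟩ : ∃ d, m = E.mat i j + d := ⟨m - E.mat i j, by omega⟩
    have h4 := D.len_δ_le (z k) (z (k + (E.mat i j + d : ℕ))) (z (k + (E.mat i j : ℕ)))
    have h5 := (dist hP z1 z2 d (by omega) (k + (E.mat i j : ℕ))).2
    rw [(dist hP z1 z2 _ le_rfl k).2, D.len_δ_symm (z (k + (E.mat i j + d : ℕ))), Nat.cast_add,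
      ← add_assoc, h5] at h4
    rw [Nat.cast_add, ← add_assoc] at h3
    omega

theorem vadj_close (h : i ≠ j) (P : ℤ → Vx D i j c) (hP : Wk vadj P) (k : ℤ) : ∃ Q, Wk vadj Q ∧
    (∀ l, Q (l + 2 * (E.mat i j : ℕ)) = Q l) ∧ ∀ l, k ≤ l → l ≤ k + (E.mat i j : ℕ) + 1 → Q l = P l := by
  have _ := h
  choose z z1 z2 using fun l => (hP.1 l).2
  obtain ⟨a, ha, a1, a2⟩ := D.apt (z k) (z (k + (E.mat i j : ℕ)))
  obtain ⟨w, w0, w1, w2, w3⟩ := exists_w (fun l => E.s (P l).1.1) (fun l => by rw [type2 hP]) k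
    (E.mat i j) (by rw [← (pair_eq (hP.1 k).1.symm).2, E.mat_apply, pow_orderOf_eq_one])
  have big : ∀ l, a (w l) ∈ D.R {i, j} c := fun l => D.R_trans (mem_big (z1 k)) (by
    rw [Bld.mem_R, ← a1, ha, inv_one, one_mul]
    exact w3 _ (fun l => E.s_mem_par (P l).2.1) l)
  have st : ∀ l, D.δ (a (w l)) (a (w (l + 1))) = E.s (P (l + 1)).1.1 := fun l => by
    rw [ha, w1, inv_mul_cancel_left]
  let Q : ℤ → Vx D i j c := fun l => mk (P l).1.1 (P l).2.1 (a (w l)) (big l)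
  have q1 : ∀ l, a (w l) ∈ (Q l).1.2 := fun l => D.self_mem_R _ _
  have q2 : ∀ l, a (w l) ∈ (Q (l + 1)).1.2 := fun l =>
    D.mem_R_singleton.2 (Or.inr (D.δ_s_symm (st l)))
  have wd : ∀ m : ℕ, m ≤ E.mat i j → w (k + m) = D.δ (z k) (z (k + m)) := fun m hm => by
    induction m with
    | zero => simp [w0, D.δ_self]
    | succ m ih =>
      have h3 := (dist hP z1 z2 (m + 1) hm k).2
      rw [Nat.cast_succ, ← add_assoc] at h3 ⊢
      rw [w1, ih (by omega), ← step hP z1 z2]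
      exact (D.δ_mul_of_len (by
        rw [h3, (dist hP z1 z2 m (by omega) k).2, step hP z1 z2, E.len_s])).symm
  have az : ∀ m : ℕ, m ≤ E.mat i j → a (w (k + m)) = z (k + m) := fun m hm => by
    obtain ⟨d, hd⟩ := Nat.exists_eq_add_of_le hm
    have h3 := (dist hP z1 z2 d (by omega) (k + m)).2
    rw [add_assoc, ← Nat.cast_add, ← hd] at h3
    have h4 : E.len (D.δ (z k) (z (k + (E.mat i j : ℕ)))) = E.len (D.δ (z k) (z (k + m))) +
        E.len (D.δ (z (k + m)) (z (k + (E.mat i j : ℕ)))) := by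
      rw [h3, (dist hP z1 z2 _ le_rfl k).2, (dist hP z1 z2 m hm k).2, ← hd]
    have h5 := D.δ_mul_of_len h4
    refine D.mid_unique (h5 ▸ h4) ?_ ?_ rfl rfl
    · rw [← wd m hm, ← a1, ha, inv_one, one_mul]
    · nth_rw 1 [← a2]
      rw [ha, wd m hm, h5, inv_mul_cancel_left]
  refine ⟨Q, ⟨fun l => ⟨(hP.1 l).1, _, q1 l, q2 l⟩, fun l e => ?_⟩, fun l => ?_, fun l h1 h2 => ?_⟩
  · have h3 := q2 (l + 1)
    rw [add_assoc, one_add_one_eq_two, ← e] at h3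
    have h4 := st l
    rw [uniq (p := Q l) (q := Q (l + 1)) (hP.1 l).1 (q1 l) (q2 l) h3 (q1 (l + 1)), D.δ_self] at h4
    exact E.s_ne_one _ h4.symm
  · exact eq_of (per (σ := fun l => (P l).1.1) (type2 hP) l _) (q1 _) (w2 l ▸ q1 l)
  · obtain ⟨m, rfl⟩ : ∃ m : ℕ, l = k + m := ⟨(l - k).toNat, by omega⟩
    rcases m with _ | m
    · exact eq_of rfl (q1 _) (az 0 (by omega) ▸ z1 _)
    · rw [Nat.cast_succ, ← add_assoc]
      exact eq_of rfl (q2 _) (az m (by omega) ▸ z2 _)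

/-- opposite flags are opposite chambers -/
theorem vadj_opp (h : i ≠ j) (P : ℤ → Vx D i j c) (hP : Wk vadj P) {x y : C} (h1 : x ∈ (P 0).1.2) (h2 : x ∈ (P 1).1.2)
    (h3 : y ∈ (P (E.mat i j : ℕ)).1.2) (h4 : y ∈ (P ((E.mat i j : ℕ) + 1)).1.2) : D.δ x y = lng E {i, j} := by
  have _ := h
  choose z z1 z2 using fun l => (hP.1 l).2
  obtain ⟨e1, e2⟩ := pair_eq (hP.1 0).1.symm
  have h5 := (dist hP z1 z2 _ le_rfl 0).1
  rw [uniq (hP.1 0).1 h1 h2 (z1 0) (z2 0), uniq (hP.1 _).1 h3 h4 (z1 _) (z2 _), ← e1,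
    lng_pair E (hP.1 0).1.symm, e2, ← h5, zero_add]

variable (D c) in
/-- the polygon -/
def pol (h : i ≠ j) (h3 : 3 ≤ E.mat i j) : Pol (E.mat i j) (Vx D i j c) where
  adj := vadj
  symm := vadj_symm
  three := h3
  thick := vadj_thick h
  girth := vadj_girth h
  close := vadj_close h
  conn := vadj_conn h

end CfsgLib.FS
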