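import Cfsg.Agent.Lib.FS.Base3

/-!
# Package H1: hexagons, central elations (see `plans/FS.md`)
-/

set_option autoImplicit false

namespace CfsgLib.FS
open Cfsg MulAction
open scoped commutatorElement

namespace Pol.SP
variable {n : ℕ} {X : Type*} {Γ : Pol n X} {P : ℤ → X} {G : Type*} [Group G] [MulAction G X]
  {p : ℕ} (S : Γ.SP G p) [Finite G] {x y a b c u u' : X} {e e' g z t : G} {i j k l : ℤ}
include S

/-- an element of `F_b ∩ F_u` that commutes with `Q_b` is a central elation -/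
theorem h1_mem_C {k : ℕ} (hab : Γ.adj a b) (hu : Γ.adj a u) (n1 : u ≠ b) (hc : ∀ q ∈ Γ.Q G b, Commute g q)
    (h1 : g ∈ Γ.K G (k + 2) b) (h2 : g ∈ Γ.K G (k + 2) u) : g ∈ Γ.K G (k + 3) a := by
  refine mem_K_succ.2 ⟨K_le_Q (K_nbr h1 (Γ.symm hab)) (by omega), fun y hy => ?_⟩
  by_cases e : y = b
  · exact e ▸ h1
  · exact S.K_all hab hc hu n1 h2 hy e

omit S [Finite G] in
theorem h1_Vs (h : g ∈ V G x y) : g ∈ V G y x := V_symm (G := G) x y ▸ h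

omit S [Finite G] in
theorem h1_Zs (h : g ∈ Z G x y) : g ∈ Z G y x := Z_symm (G := G) x y ▸ h

omit S [Finite G] in
/-- a commutator with a central element commutes with `Q` -/
theorem h1_comm (A : Γ.Au G) (h : Γ.adj x y) (hz : z ∈ Z G x y) (f : g • x = x) :
    ∀ q ∈ Γ.Q G x, Commute ⁅g, z⁆ q := fun q hq => by
  have h1 := Z_conj hz g
  have h2 := A.smul g h
  rw [f] at h1 h2
  exact (Z_comm_Q h1 h2 hq).mul_left (Z_comm_Q hz h hq).inv_left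

theorem h_cen_or (hn : n = 6) (h : Γ.adj x y) : Γ.K G 3 x ≠ ⊥ ∨ Γ.K G 3 y ≠ ⊥ := by
  by_contra hcon
  rw [not_or, not_not, not_not] at hcon
  obtain ⟨P, hP, rfl, rfl⟩ := exists_W2 h 0
  have hC : ∀ i : ℤ, ∀ g ∈ Γ.K G 3 (P i), g = 1 := fun i g hg => by
    by_contra ne
    have h1 : Γ.K G 3 (P i) ≠ ⊥ := fun e => ne (Subgroup.mem_bot.1 (e ▸ hg))
    rcases Int.emod_two_eq_zero_or_one i with e | e
    · exact S.K_ne_two hP h1 (j := 0) (by omega) hcon.1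
    · exact S.K_ne_two hP h1 (j := 0 + 1) (by omega) hcon.2
  have a34 : Γ.adj (P 3) (P 4) := hP.adj rfl
  have a10 : Γ.adj (P 1) (P 0) := adj' hP rfl
  obtain ⟨z, hz, nz, -⟩ := S.exists_Z_pow a34
  obtain ⟨y, hy, ny, -⟩ := S.exists_Z_pow a10
  have hz3 : z ∈ Γ.K G 2 (P 3) := S.Z_le_K a34 hz (by omega)
  have hy1 : y ∈ Γ.K G 2 (P 1) := S.Z_le_K a10 hy (by omega)
  have hy0 : y ∈ Γ.K G 2 (P 0) := S.Z_le_K' a10 hy (by omega)
  have f1 : z • P 1 = P 1 := K_fix hP hz3 (by omega) (by omega) (by omega)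
  have hr : ⁅z, y⁆ = 1 := hC 2 _ (S.h1_mem_C (k := 0) (adj' hP rfl : Γ.adj (P 2) (P 1)) (hP.adj rfl : Γ.adj (P 2) (P 3))
    (W_ne hP (by omega) (by omega) (by omega)) (h1_comm S.toAu a10 hy f1) (S.comm_K' hy1 f1)
    (S.comm_K hz3 (K_fix hP hy1 (by omega) (by omega) (by omega))))
  have n0 : z • P 0 ≠ P 0 := fun e => nz (hC 3 _ (S.ZK hP (j := 4) (m := 0) (by omega) hz (by omega) e))
  have h1 := Z_conj hy z
  rw [f1, (commutatorElement_eq_one_iff_commute.1 hr).mul_inv_cancel] at h1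
  obtain ⟨R, hR, e1, e2⟩ := ext_right hP (i := 1) (u := z • P 0) (f1 ▸ S.smul z a10) n0
  have h2 := S.ZK hR (i := 1) (j := 1 + 1) (m := -2) (k := 3) (z := y) (by omega)
    (by rw [e2, e1 1 le_rfl]; exact h1) (by omega)
    (by rw [e1 _ (by omega)]; exact K_fix hP hy0 (by omega) (by omega) (by omega))
  rw [e1 1 le_rfl] at h2
  exact ny (hC 1 _ h2)

theorem h1_e1 (hn : n = 6) (hP : Γ.W P) (hc : t ∈ Γ.K G 3 (P 5)) (hz : z ∈ Γ.K G 3 (P 9))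
    (hz' : z ∈ Z G (P 8) (P 9)) : ⁅t, z⁆ ∈ Γ.K G 3 (P 7) ∧ ⁅t, z⁆ ∈ Z G (P 7) (P 8) := by
  have a89 : Γ.adj (P 8) (P 9) := hP.adj rfl
  have a87 : Γ.adj (P 8) (P 7) := adj' hP rfl
  have f8 : t • P 8 = P 8 := K_fix hP hc (by omega) (by omega) (by omega)
  have hr : ⁅t, z⁆ ∈ Γ.K G 3 (P 7) := S.h1_mem_C (k := 0) (Γ.symm a87) (adj' hP rfl : Γ.adj (P 7) (P 6))
    (W_ne hP (by omega) (by omega) (by omega)) (h1_comm S.toAu a89 hz' f8)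
    (S.comm_K' (K_nbr hz (Γ.symm a89)) f8)
    (S.comm_K (K_nbr hc (hP.adj rfl)) (K_fix hP hz (by omega) (by omega) (by omega)))
  refine ⟨hr, ?_⟩
  by_cases h1 : t = 1
  · rw [h1, commutatorElement_one_left]; exact one_mem _
  have n9 : t • P 9 ≠ P 9 := fun e => h1 (S.K_eq_one hP (k := 3) hn hc (j := 9) (by omega) e)
  obtain ⟨g, hg9, hg, e⟩ := S.T2 a89 (hP.adj rfl : Γ.adj (P 9) (P 10)) (W_ne hP (by omega) (by omega) (by omega)) a87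
    (f8 ▸ S.smul t a89) (W_ne hP (by omega) (by omega) (by omega)) n9
  have hy : g⁻¹ * (t * z * t⁻¹) * g ∈ Γ.K G 3 (P 7) := S.K_conj_inv (S.K_conj hz t) e
  have hy' : g⁻¹ * (t * z * t⁻¹) * g ∈ Z G (P 7) (P 8) := by
    have := Z_conj (Z_conj hz' t) g⁻¹
    rwa [inv_inv, f8, ← e, inv_smul_smul, inv_smul_eq_iff.2 (Q_fix_nbr hg9 (Γ.symm a89)).symm, Z_symm] at this
  generalize hyd : g⁻¹ * (t * z * t⁻¹) * g = y at hy hy'
  have f10 : y • P 10 = P 10 := K_fix hP hy (by omega) (by omega) (by omega)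
  have h2 : ⁅t, z⁆ * y⁻¹ = ⁅g, y⁆ * (y * z⁻¹ * y⁻¹) := by
    rw [← hyd]; simp only [commutatorElement_def]; group
  have h3 : ⁅t, z⁆ * y⁻¹ ∈ Γ.Q G (P 10) := h2 ▸ mul_mem (S.comm_Q hg f10)
    (S.Q_conj' (inv_mem (K_Q hP hz (by omega) (by omega))) f10)
  rwa [mul_inv_eq_one.1 (S.K_eq_one hP (k := 3) hn (mul_mem hr (inv_mem hy)) (j := 11) (by omega)
    (Q_fix_W hP h3 (by omega) (by omega)))]

theorem h1_inj (hn : n = 6) (hP : Γ.W P) (hc : t ∈ Γ.K G 3 (P 5)) (hc' : e ∈ Γ.K G 3 (P 5))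
    (hz : z ∈ Γ.K G 3 (P 9)) (ne : z ≠ 1) (h : ⁅t, z⁆ = ⁅e, z⁆) : t = e := by
  have h1 : e⁻¹ * t ∈ Γ.K G 3 (P 5) := mul_mem (inv_mem hc') hc
  have h2 : Commute z (e⁻¹ * t) := by
    simp only [commutatorElement_def, mul_left_inj] at h
    rw [Commute, SemiconjBy]
    calc _ = e⁻¹ * (e * z * e⁻¹) * t := by group
      _ = _ := by rw [← h]; group
  have a89 : Γ.adj (P 8) (P 9) := hP.adj rfl
  have f8 : (e⁻¹ * t) • P 8 = P 8 := K_fix hP h1 (by omega) (by omega) (by omega)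
  refine (inv_mul_eq_one.1 (S.K_eq_one hP (k := 3) hn h1 (j := 9) (by omega) (by_contra fun n9 => ne ?_))).symm
  exact S.K_inf (k := 3) hn (f8 ▸ S.smul _ a89) a89 n9 (S.K_of_comm hz h2 rfl) hz

theorem h1_e2 (hn : n = 6) (hP : Γ.W P) (hz : z ∈ Γ.K G 3 (P 9)) (hz' : z ∈ Z G (P 8) (P 9)) (ne : z ≠ 1)
    (he : e ∈ Γ.K G 3 (P 7)) : ∃ t ∈ Γ.K G 3 (P 5), ⁅t, z⁆ = e := by
  let φ : Γ.K G 3 (P 5) → Γ.K G 3 (P 7) := fun t => ⟨⁅t.1, z⁆, (S.h1_e1 hn hP t.2 hz hz').1⟩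
  have h1 : Function.Injective φ := fun t t' h =>
    Subtype.ext (S.h1_inj hn hP t.2 t'.2 hz ne (congrArg Subtype.val h))
  obtain ⟨t, ht⟩ := (h1.bijective_of_nat_card_le (S.card_K_two hP (by omega) 3).le).2 ⟨e, he⟩
  exact ⟨t, t.2, congrArg Subtype.val ht⟩

theorem h_C_le_Z (hn : n = 6) (h : Γ.adj x y) (hz : z ∈ Γ.K G 3 x) : z ∈ Z G x y := by
  by_cases ne : z = 1
  · exact ne ▸ one_mem _
  obtain ⟨P, hP, rfl, rfl⟩ := exists_W2 h 7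
  obtain ⟨y, h1, h2, h3⟩ := S.exists_ZK (adj' hP rfl : Γ.adj (P 9) (P 8)) (by omega : 0 < 3)
    (S.K_ne_two hP (i := 7) (fun e => ne (Subgroup.mem_bot.1 (e ▸ hz))) (by omega))
  rw [Z_symm] at h2
  obtain ⟨t, ht, rfl⟩ := S.h1_e2 hn hP h1 h2 h3 hz
  exact (S.h1_e1 hn hP ht h1 h2).2

theorem h1_C_comm (hn : n = 6) (h : Γ.adj x y) (hz : z ∈ Γ.K G 3 x) (hg : g ∈ V G x y) : Commute z g :=
  (mem_Z.1 (S.h_C_le_Z hn h hz)).2 g hg

/-- an element of `C_3` that agrees with `z⁻¹ μ` -/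
theorem h1_mu (hn : n = 6) (hP : Γ.Apt P) (hz : z ∈ Γ.K G 3 (P 9)) (ne : z ≠ 1) :
    ∃ c ∈ Γ.K G 3 (P 3), z • c • P 7 = P 5 ∧ z • c • P 8 = P 4 := by
  have hW := hP.1
  obtain ⟨⟨a, ha⟩, na⟩ := Subgroup.ne_bot_iff_exists_ne_one.1
    (S.K_ne_two hW (i := 9) (j := 5) (fun e => ne (Subgroup.mem_bot.1 (e ▸ hz))) (by omega))
  replace na : a ≠ 1 := fun e => na (Subtype.ext e)
  have hb := (S.h1_e1 hn hW (inv_mem ha) (inv_mem hz)
    (h1_Zs (S.h_C_le_Z hn (adj' hW rfl : Γ.adj (P 9) (P 8)) (inv_mem hz)))).1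
  have nb : ⁅a⁻¹, z⁻¹⁆ ≠ 1 := fun e => na (inv_eq_one.1
    (S.h1_inj hn hW (inv_mem ha) (one_mem _) (inv_mem hz) (inv_ne_one.2 ne) (by rw [e, commutatorElement_one_left])))
  have h0 := S.h1_e2 (P := fun j => P (j + -2)) (z := ⁅a⁻¹, z⁻¹⁆) (e := a) hn (hW.shift (-2))
  simp only [Int.reduceNeg, Int.reduceAdd] at h0
  obtain ⟨c, hc, e⟩ := h0 hb (h1_Zs (S.h_C_le_Z hn (adj' hW rfl : Γ.adj (P 7) (P 6)) hb)) nb ha
  have e1 : c * ⁅a⁻¹, z⁻¹⁆ * c⁻¹ = z⁻¹ * a * z⁻¹⁻¹ := by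
    rw [commutatorElement_def c, mul_inv_eq_iff_eq_mul] at e
    rw [e, commutatorElement_def]; group
  have f6 : c • P 6 = P 6 := K_fix hW hc (by omega) (by omega) (by omega)
  have f6' : z⁻¹ • P 6 = P 6 := K_fix hW (inv_mem hz) (by omega) (by omega) (by omega)
  have h7 : c • P 7 = z⁻¹ • P 5 := by
    by_contra h
    have := S.K_inf (k := 3) hn (f6 ▸ S.smul c (hW.adj rfl : Γ.adj (P 6) (P 7)))
      (f6' ▸ S.smul z⁻¹ (adj' hW rfl : Γ.adj (P 6) (P 5))) h (S.K_conj hb c) (by rw [e1]; exact S.K_conj ha z⁻¹)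
    exact nb (by simpa [mul_inv_eq_one] using this)
  have h7' : z • c • P 7 = P 5 := by rw [h7, smul_inv_smul]
  refine ⟨c, hc, h7', ?_⟩
  have e12 : P 12 = P 0 := hP.eq (by subst hn; decide)
  have h12 : z • c • P 12 = P 0 := by
    rw [e12, K_fix hW hc (by omega) (by omega) (by omega), ← e12]
    exact K_fix hW hz (by omega) (by omega) (by omega)
  exact uniq (P := fun j => z • c • P j) (R := fun j => P (12 - j)) (S.W_smul (S.W_smul hW c) z) (rev hW 12) (i := 7)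
    (k := 12) (j := 8) (by omega) h7' h12 (by omega) (by omega)

theorem h1_fix (hn : n = 6) (hP : Γ.Apt P) (hg : g ∈ V G (P 7) (P 8)) (hz : z ∈ Γ.K G 3 (P 9)) :
    ⁅g, z⁆ • P 4 = P 4 ∧ ⁅g, z⁆ • P 5 = P 5 := by
  have hW := hP.1
  by_cases ne : z = 1
  · simp [ne]
  have a89 : Γ.adj (P 8) (P 9) := hW.adj rfl
  obtain ⟨R, hR, e1, e2⟩ := ext_right hW (i := 8) (u := g • P 9) (V_fix' hg ▸ S.smul g a89) fun e =>
    W_ne hW (by omega) (by omega) (by omega) ((smul_left_cancel_iff g).1 (e.trans (V_fix hg).symm) : P 9 = P 7)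
  obtain ⟨g', hg', e3⟩ := S.trans hW hR (i := 7) (k := 2) (by omega) (by omega) (e1 _ (by omega)).symm
    (e1 _ (by omega)).symm
  have f : ∀ j, 2 ≤ j → j ≤ 8 → g' • P j = P j := fun j h1 h2 => (e3 j h1 (by omega)).trans (e1 j h2)
  have e4 : g' • P 9 = g • P 9 := (e3 9 (by omega) (by omega)).trans e2
  have h1 : Commute z (g'⁻¹ * g) := S.h1_C_comm hn (Γ.symm a89) hz (h1_Vs (S.mem_V_shift
    (hW.adj rfl : Γ.adj (P 7) (P 8)) a89 (mul_mem (inv_mem hg') hg) (by rw [mul_smul, ← e4, inv_smul_smul])))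
  have h2 : ⁅g, z⁆ = ⁅g', z⁆ := by
    simp only [commutatorElement_def, mul_left_inj]
    calc _ = g' * (g'⁻¹ * g * z) * g⁻¹ := by group
      _ = _ := by rw [← h1.eq]; group
  obtain ⟨c, hc, e5, e6⟩ := S.h1_mu hn hP hz ne
  have h3 : Commute c g' := S.h1_C_comm hn (hW.adj rfl : Γ.adj (P 3) (P 4)) hc
    (S.mem_V_walk hW (i := 7) (j := 3) hg' f (by omega) (by omega) (by omega) (by omega))
  have key : ∀ i j, z • c • P i = P j → g' • P i = P i → g' • P j = P j → ⁅g', z⁆ • P j = P j := fun i j e f1 f2 => by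
    rw [commutatorElement_def, mul_smul, mul_smul, mul_smul, inv_smul_eq_iff.2 e.symm, ← mul_smul g'⁻¹,
      ← h3.inv_right.eq, mul_smul, inv_smul_eq_iff.2 f1.symm, e, f2]
  rw [h2]
  exact ⟨key 8 4 e6 (f _ (by omega) (by omega)) (f _ (by omega) (by omega)),
    key 7 5 e5 (f _ (by omega) (by omega)) (f _ (by omega) (by omega))⟩

/-- `[V(a, b), C_c] ≤ C_a` -/
theorem h_comm_V (hn : n = 6) (hab : Γ.adj a b) (hbc : Γ.adj b c) (ne : a ≠ c) (hg : g ∈ V G a b)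
    (hz : z ∈ Γ.K G 3 c) : ⁅g, z⁆ ∈ Γ.K G 3 a := by
  have hr : ⁅g, z⁆ ∈ Γ.K G 2 b := S.comm_K' (K_nbr hz (Γ.symm hbc)) (V_fix' hg)
  refine S.mem_K_of_fix hab (Q_le_V' (K_le_Q hr (by omega)) hab) fun R hR e j h1 h2 => ?_
  by_cases e1 : R 1 = b
  · exact K_fix hR (i := 1) (e1 ▸ hr) (by omega) (by omega) (by omega)
  obtain ⟨R₁, hR₁, e2, e3⟩ := ext_right (rev hR 7) (i := 7) (u := b) (e ▸ hab) (Ne.symm e1)
  obtain ⟨R₂, hR₂, e4, e5⟩ := ext_right hR₁ (i := 8) (u := c) (e3 ▸ hbc)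
    (by rw [e2 _ (by omega)]; exact e ▸ ne.symm)
  obtain ⟨P, hP, e6⟩ := exists_apt hR₂ 2
  have e7 : ∀ j, 2 ≤ j → j ≤ 7 → P j = R (7 - j) := fun j h1 h2 =>
    (e6 j h1 (by omega)).trans ((e4 j (by omega)).trans (e2 j h2))
  have e8 : P 8 = b := (e6 8 (by omega) (by omega)).trans ((e4 8 le_rfl).trans e3)
  have e9 : P 9 = c := (e6 9 (by omega) (by omega)).trans e5
  have e10 : P 7 = a := (e7 7 (by omega) le_rfl).trans e
  obtain ⟨f4, f5⟩ := S.h1_fix hn hP (e8 ▸ e10 ▸ hg) (e9 ▸ hz)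
  have e11 : R j = P (7 - j) := by rw [e7 _ (by omega) (by omega), sub_sub_cancel]
  rw [e11]
  exact S.fix_between hP.1 (i := 4) (k := 8) (by omega) f4 (K_fix hP.1 (i := 8) (e8 ▸ hr) (by omega) (by omega)
    (by omega)) (by omega) (by omega)

theorem h1_trans (hn : n = 6) (hP : Γ.W P) (hC : Γ.K G 3 (P 7) ≠ ⊥) (hu : Γ.adj (P 4) u) (hu' : Γ.adj (P 4) u')
    (n1 : u ≠ P 5) (n2 : u' ≠ P 5) : ∃ c ∈ Γ.K G 3 (P 7), c • u = u' := by
  obtain ⟨⟨z, hz⟩, nz⟩ := Subgroup.ne_bot_iff_exists_ne_one.1 (S.K_ne_two hP (j := 9) hC (by omega))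
  replace nz : z ≠ 1 := fun e => nz (Subtype.ext e)
  have a87 : Γ.adj (P 8) (P 7) := adj' hP rfl
  have a89 : Γ.adj (P 8) (P 9) := hP.adj rfl
  have n97 : P 9 ≠ P 7 := W_ne hP (by omega) (by omega) (by omega)
  choose g hg e using fun x : {x // Γ.adj (P 8) x ∧ x ≠ P 7} => S.trans1 a87 a89 x.2.1 n97 x.2.2
  let φ : {x // Γ.adj (P 8) x ∧ x ≠ P 7} → Γ.K G 3 (P 7) := fun x =>
    ⟨⁅g x, z⁆, S.h_comm_V hn (Γ.symm a87) a89 n97.symm (h1_Vs (hg x)) hz⟩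
  have h1 : Function.Injective φ := fun x x' h => Subtype.ext (by_contra fun ne => nz (by
    have h2 : g x * z * (g x)⁻¹ = g x' * z * (g x')⁻¹ := mul_right_cancel (congrArg Subtype.val h)
    have := S.K_inf (k := 3) hn x.2.1 x'.2.1 ne (S.K_conj' hz (e x)) (h2 ▸ S.K_conj' hz (e x'))
    simpa [mul_inv_eq_one] using this))
  have f : ∀ c ∈ Γ.K G 3 (P 7), ∀ j, 4 ≤ j → j ≤ 5 → c • P j = P j := fun c hc j h1 h2 =>
    K_fix hP hc (by omega) (by omega) (by omega)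
  let ψ : Γ.K G 3 (P 7) → {x // Γ.adj (P 4) x ∧ x ≠ P 5} := fun c => ⟨c.1 • u,
    f c c.2 4 le_rfl (by omega) ▸ S.smul c.1 hu,
    fun e => n1 ((smul_left_cancel_iff c.1).1 (e.trans (f c c.2 5 (by omega) le_rfl).symm))⟩
  obtain ⟨R, hR, e1, e2⟩ := ext_left hP (i := 4) hu n1
  have h2 : Function.Injective ψ := fun c c' h => Subtype.ext (inv_mul_eq_one.1 (S.K_eq_one hR (k := 3) hn (i := 7)
    (j := 4 - 1) (by rw [e1 7 (by omega)]; exact mul_mem (inv_mem c.2) c'.2) (by omega) (by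
      rw [e2, mul_smul, inv_smul_eq_iff]; exact (congrArg Subtype.val h).symm)))
  have := S.finite_nbr (P 4)
  have : Finite {x // Γ.adj (P 4) x ∧ x ≠ P 5} := Finite.of_injective
    (fun x => (⟨x.1, x.2.1⟩ : {u // Γ.adj (P 4) u})) fun x y h => Subtype.ext (Subtype.mk.inj h)
  obtain ⟨c, hc⟩ := (h2.bijective_of_nat_card_le (by
    rw [S.card_nbr (hP.adj rfl : Γ.adj (P 4) (P 5)), S.val_two hP (j := 8) (by omega), ← S.card_nbr a87]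
    exact Nat.card_le_card_of_injective _ h1)).2 ⟨u', hu', n2⟩
  exact ⟨c, c.2, congrArg Subtype.val hc⟩

theorem h_trans (hn : n = 6) (hP : Γ.W P) (e : j = i + 1 ∧ k = i + 3 ∨ j = i - 1 ∧ k = i - 3)
    (hC : Γ.K G 3 (P k) ≠ ⊥) (hu : Γ.adj (P i) u) (hu' : Γ.adj (P i) u') (n1 : u ≠ P j) (n2 : u' ≠ P j) :
    ∃ c ∈ Γ.K G 3 (P k), c • u = u' := by
  obtain ⟨c, ε, hε, e1, e2, e3⟩ : ∃ c ε : ℤ, (ε = 1 ∨ ε = -1) ∧ i = c + ε * 4 ∧ j = c + ε * 5 ∧ k = c + ε * 7 := by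
    rcases e with e | e
    exacts [⟨i - 4, 1, by omega⟩, ⟨i + 4, -1, by omega⟩]
  subst e1 e2 e3
  exact S.h1_trans (P := fun j => P (c + ε * j)) hn (line hP c hε) hC hu hu' n1 n2

theorem h_reg_even (hn : n = 6) (h : Γ.adj x y) (hC : Γ.K G 3 y ≠ ⊥) : Γ.Reg G x := by
  refine S.reg_of_fix fun P hP e g hg f => ?_
  have a01 : Γ.adj (P 0) (P 1) := hP.adj rfl
  have h3 : Γ.K G 3 (P 3) ≠ ⊥ := S.K_ne_two hP (S.K_ne_nbr hC h (e ▸ a01)) (by omega)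
  have hg' : g ∈ V G (P 3) (P 2) :=
    h1_Vs (S.mem_V_walk hP (i := 0) (j := 2) hg f (by omega) (by omega) (by omega) (by omega))
  refine S.mem_Q_of_trans a01 hg (f (-1) le_rfl (by omega)) fun u' hu' ne => ?_
  obtain ⟨c, hc, e'⟩ := S.h_trans hn hP (i := 0) (j := 1) (k := 3) (by omega) h3 (adj' hP rfl : Γ.adj _ (P (-1))) hu'
    (W_ne hP (by omega) (by omega) (by omega)) ne
  exact ⟨c, (S.h1_C_comm hn (adj' hP rfl : Γ.adj (P 3) (P 2)) hc hg').symm, e'⟩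

end Pol.SP

end CfsgLib.FS
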