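import Cfsg.Agent.Lib.FS.H1

/-!
# Package H2: hexagons, the groups `Q a ⊓ Q b / K 2 b` (see `plans/FS.md`)
-/

set_option autoImplicit false

namespace CfsgLib.FS
open Cfsg MulAction
open scoped commutatorElement

theorem h2_count {G : Type*} [Group G] [Finite G] {A B F : Subgroup G} (hA : F ≤ A) (hB : F ≤ B)
    (hc : Nat.card A = Nat.card B) (φ : G → G) (h1 : ∀ a ∈ A, φ a ∈ B)
    (h2 : ∀ a ∈ A, ∀ a' ∈ A, (φ a)⁻¹ * φ a' ∈ F → a⁻¹ * a' ∈ F) {b : G} (hb : b ∈ B) :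
    ∃ a ∈ A, (φ a)⁻¹ * b ∈ F := by
  let θ : A ⧸ F.subgroupOf A → B ⧸ F.subgroupOf B := fun q => QuotientGroup.mk ⟨φ q.out, h1 _ q.out.2⟩
  have h3 : Function.Injective θ := fun q q' e => by
    rw [← QuotientGroup.out_eq' q, ← QuotientGroup.out_eq' q']
    exact QuotientGroup.eq.2 (h2 _ q.out.2 _ q'.out.2 (QuotientGroup.eq (s := F.subgroupOf B).1 e))
  have h4 := (F.subgroupOf A).card_eq_card_quotient_mul_card_subgroup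
  have h5 := (F.subgroupOf B).card_eq_card_quotient_mul_card_subgroup
  rw [Nat.card_congr (Subgroup.subgroupOfEquivOfLe hA).toEquiv] at h4
  rw [Nat.card_congr (Subgroup.subgroupOfEquivOfLe hB).toEquiv, ← hc, h4] at h5
  obtain ⟨q, e⟩ := (h3.bijective_of_nat_card_le (Nat.eq_of_mul_eq_mul_right Nat.card_pos h5).ge).2
    (QuotientGroup.mk ⟨b, hb⟩)
  exact ⟨q.out, q.out.2, QuotientGroup.eq (s := F.subgroupOf B).1 e⟩

/-- the quotient of the stabilizer of `x` by `K k x` -/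
theorem Pol.Au.h2_hom.{v} {n : ℕ} {X : Type*} {Γ : Pol n X} {G : Type v} [Group G] [MulAction G X] (S : Γ.Au G)
    (k : ℕ) (x : X) (hk : 0 < k) :
    ∃ (H : Type v) (_ : Group H) (π : stabilizer G x →* H), ∀ g, π g = 1 ↔ g.1 ∈ Γ.K G k x := by
  have : ((Γ.K G k x).subgroupOf (stabilizer G x)).Normal := ⟨fun a ha g => S.K_conj' ha g.2⟩
  exact ⟨_, _, QuotientGroup.mk' ((Γ.K G k x).subgroupOf (stabilizer G x)), fun g => QuotientGroup.eq_one_iff g⟩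

namespace Pol.SP
variable {n : ℕ} {X : Type*} {Γ : Pol n X} {P : ℤ → X} {G : Type*} [Group G] [MulAction G X]
  {p : ℕ} (S : Γ.SP G p) [Finite G] {x y a b c u u' : X} {e e' g z t : G} {i j k l : ℤ}
include S

theorem h_QQQ (hn : n = 6) (hab : Γ.adj a b) (hbc : Γ.adj b c) (ne : a ≠ c) (hC : Γ.K G 3 a ≠ ⊥) (h1 : g ∈ Γ.Q G a)
    (h2 : g ∈ Γ.Q G b) (h3 : g ∈ Γ.Q G c) : g ∈ Γ.K G 2 b := by
  obtain ⟨P, hP, e1, rfl, e2⟩ := exists_W3 hab hbc ne 6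
  obtain rfl : P 5 = a := e1
  obtain rfl : P 7 = c := e2
  refine mem_K_succ.2 ⟨h2, fun y hy => K_one (Γ := Γ) (G := G) ▸ ?_⟩
  by_cases e : y = P 5
  · exact e ▸ h1
  obtain ⟨t, ht, rfl⟩ := S.h_trans hn hP (i := 6) (j := 5) (k := 3) (by omega) (S.K_ne_two hP hC (by omega)) hbc hy
    ne.symm e
  have h4 := S.h_comm_V hn (adj' hP rfl : Γ.adj (P 5) (P 4)) (adj' hP rfl : Γ.adj (P 4) (P 3))
    (W_ne hP (by omega) (by omega) (by omega)) (inv_mem (Q_le_V h1 (adj' hP rfl : Γ.adj (P 5) (P 4)))) (inv_mem ht)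
  have h5 := S.Q_conj (mul_mem h3 (K_Q hP h4 (j := 7) (by omega) (by omega))) t
  simpa [commutatorElement_def, mul_assoc] using h5

theorem h_ab2 (hn : n = 6) (hab : Γ.adj a b) (hbc : Γ.adj b c) (ne : a ≠ c) (hC : Γ.K G 3 a ≠ ⊥) (h1 : e ∈ Γ.Q G a)
    (h2 : e ∈ Γ.Q G b) (h3 : e' ∈ Γ.Q G b) (h4 : e' ∈ Γ.Q G c) : ⁅e, e'⁆ ∈ Γ.K G 2 b := S.h_QQQ hn hab hbc ne hC (S.comm_Q h1 (Q_fix_nbr h3 (Γ.symm hab))) (S.comm_Q h2 (Q_fix h3))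
    (S.comm_Q' h4 (Q_fix_nbr h2 hbc))

theorem h_inj (hn : n = 6) (hP : Γ.W P) (h : i = j - 1 ∧ k = j + 3 ∨ i = j + 1 ∧ k = j - 3) (hz : z ∈ Γ.K G 3 (P k))
    (ne : z ≠ 1) (h1 : e ∈ Γ.Q G (P i)) (h2 : e ∈ Γ.Q G (P j)) (h3 : ⁅z, e⁆ ∈ Γ.K G 2 (P j)) :
    e ∈ Γ.K G 2 (P j) := by
  have aj : Γ.adj (P j) (P i) := by
    rcases h with h | h
    exacts [adj' hP (by omega), hP.adj (by omega)]
  have f : z • P j = P j := K_fix hP hz (by omega) (by omega) (by omega)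
  have aj' : Γ.adj (P j) (z • P i) := f ▸ S.smul z aj
  refine S.h_QQQ hn (Γ.symm aj) aj' (fun e => ne (S.K_eq_one hP (k := 3) hn hz (j := i) (by omega) e.symm))
    (S.K_ne_two hP (i := k) (fun e => ne (Subgroup.mem_bot.1 (e ▸ hz))) (by omega)) h1 h2 ?_
  have := mul_mem (inv_mem (K_le_Q (K_nbr h3 aj') one_pos)) (S.Q_conj h1 z)
  simpa [commutatorElement_def, mul_assoc] using this

theorem h_surj (hn : n = 6) (hP : Γ.W P)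
    (h : i = j - 1 ∧ l = j + 1 ∧ k = j + 3 ∨ i = j + 1 ∧ l = j - 1 ∧ k = j - 3) (hz : z ∈ Γ.K G 3 (P k))
    (ne : z ≠ 1) (h1 : e' ∈ Γ.Q G (P j)) (h2 : e' ∈ Γ.Q G (P l)) :
    ∃ e ∈ Γ.Q G (P i), e ∈ Γ.Q G (P j) ∧ ⁅z, e⁆⁻¹ * e' ∈ Γ.K G 2 (P j) := by
  have ai : Γ.adj (P j) (P i) := by
    rcases h with h | h
    exacts [adj' hP (by omega), hP.adj (by omega)]
  have al : Γ.adj (P j) (P l) := by
    rcases h with h | h
    exacts [hP.adj (by omega), adj' hP (by omega)]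
  have f : z • P j = P j := K_fix hP hz (by omega) (by omega) (by omega)
  obtain ⟨t, t1, t2⟩ := S.exists_nbr ai al
  have hc : Nat.card (Γ.Q G (P i) ⊓ Γ.Q G (P j) : Subgroup G) = Nat.card (Γ.Q G (P j) ⊓ Γ.Q G (P l) : Subgroup G) :=
    Nat.card_congr ⟨fun a => ⟨t * a.1 * t⁻¹, S.Q_conj' a.2.2 t1, S.Q_conj' a.2.1 t2⟩,
      fun a => ⟨t⁻¹ * a.1 * t, S.Q_conj_inv a.2.2 t2, S.Q_conj_inv a.2.1 t1⟩,
      fun a => Subtype.ext (by simp [mul_assoc]), fun a => Subtype.ext (by simp [mul_assoc])⟩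
  obtain ⟨a, ha, e⟩ := h2_count (F := Γ.K G 2 (P j)) (A := Γ.Q G (P i) ⊓ Γ.Q G (P j)) (B := Γ.Q G (P j) ⊓ Γ.Q G (P l))
    (fun a ha => ⟨K_le_Q (K_nbr ha ai) one_pos, K_le_Q ha two_pos⟩)
    (fun a ha => ⟨K_le_Q ha two_pos, K_le_Q (K_nbr ha al) one_pos⟩) hc (fun a => ⁅z, a⁆)
    (fun a ha => ⟨S.comm_Q' ha.2 f, S.comm_Q (K_Q hP hz (by omega) (by omega)) (Q_fix_nbr ha.2 al)⟩)
    (fun a ha a' ha' e => by
      have hd := mul_mem (inv_mem ha) ha'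
      refine S.h_inj hn hP (i := i) (k := k) (by omega) hz ne hd.1 hd.2 ?_
      have := S.K_conj_inv e (Q_fix ha.2)
      simpa [commutatorElement_def, mul_assoc] using this) (b := e') ⟨h1, h2⟩
  exact ⟨a, ha.1, ha.2, e⟩

/-- the data used for `h_ab` and `h_exp` -/
theorem h2_data (hn : n = 6) (hab : Γ.adj a b) (hC : Γ.K G 3 a ≠ ⊥) (h1 : e ∈ Γ.Q G a) (h2 : e ∈ Γ.Q G b) :
    ∃ z g : G, z • b = b ∧ g • b = b ∧ z ^ p = 1 ∧ ⁅z, g⁆⁻¹ * e ∈ Γ.K G 2 b ∧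
      ∀ e' ∈ Γ.Q G a, e' ∈ Γ.Q G b → ⁅z, e'⁆ ∈ Γ.K G 2 b ∧ ⁅g, e'⁆ ∈ Γ.K G 2 b := by
  obtain ⟨P, hP, rfl, e2⟩ := exists_W2 (Γ.symm hab) 6
  obtain rfl : P 7 = a := e2
  obtain ⟨⟨y, hy⟩, ny⟩ := Subgroup.ne_bot_iff_exists_ne_one.1 (S.K_ne_two hP (j := 9) hC (by omega))
  have := Fact.mk S.prime
  obtain ⟨m, hm⟩ := IsPGroup.iff_orderOf.1 (S.pg_Q (P 9)) ⟨y, K_le_Q hy (by omega)⟩
  rw [← Subgroup.orderOf_coe] at hm
  obtain ⟨m, rfl⟩ : ∃ m', m = m' + 1 := Nat.exists_eq_succ_of_ne_zero fun e =>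
    ny (Subtype.ext (orderOf_eq_one_iff.1 (hm.trans (by rw [e, pow_zero]))))
  have hz : y ^ p ^ m ∈ Γ.K G 3 (P 9) := pow_mem hy _
  have nz : y ^ p ^ m ≠ 1 := fun e => by
    have h3 := orderOf_dvd_of_pow_eq_one e
    rw [hm, Nat.pow_dvd_pow_iff_le_right S.prime.one_lt] at h3
    omega
  obtain ⟨g, g1, g2, e⟩ := S.h_surj hn hP (i := 5) (j := 6) (l := 7) (k := 9) (by omega) hz nz h2 h1
  refine ⟨_, g, K_fix hP hz (by omega) (by omega) (by omega), Q_fix g2,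
    by rw [← pow_mul, ← pow_succ, ← hm, pow_orderOf_eq_one], e, fun e' h3 h4 => ⟨?_, ?_⟩⟩
  · have a78 : Γ.adj (P 7) (P 8) := hP.adj rfl
    rw [← commutatorElement_inv]
    exact inv_mem (K_nbr (S.h_comm_V hn a78 (hP.adj rfl : Γ.adj (P 8) (P 9))
      (W_ne hP (by omega) (by omega) (by omega)) (Q_le_V h3 a78) hz) hab)
  · exact S.h_ab2 hn (hP.adj rfl : Γ.adj (P 5) (P 6)) (Γ.symm hab) (W_ne hP (by omega) (by omega) (by omega))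
      (S.K_ne_two hP hC (by omega)) g1 g2 h4 h3

theorem h_ab (hn : n = 6) (hab : Γ.adj a b) (hC : Γ.K G 3 a ≠ ⊥) (h1 : e ∈ Γ.Q G a) (h2 : e ∈ Γ.Q G b)
    (h3 : e' ∈ Γ.Q G a) (h4 : e' ∈ Γ.Q G b) : ⁅e, e'⁆ ∈ Γ.K G 2 b := by
  obtain ⟨z, g, f1, f2, -, e1, e2⟩ := S.h2_data hn hab hC h1 h2
  obtain ⟨H, _, π, hπ⟩ := S.h2_hom 2 b two_pos
  let Z : stabilizer G b := ⟨z, f1⟩
  let Y : stabilizer G b := ⟨g, f2⟩
  let E : stabilizer G b := ⟨e, Q_fix h2⟩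
  let E' : stabilizer G b := ⟨e', Q_fix h4⟩
  have k1 := (hπ (⁅Z, Y⁆⁻¹ * E)).2 e1
  have k2 := (hπ ⁅Z, E'⁆).2 (e2 e' h3 h4).1
  have k3 := (hπ ⁅Y, E'⁆).2 (e2 e' h3 h4).2
  refine (hπ ⁅E, E'⁆).1 ?_
  rw [map_commutatorElement, commutatorElement_eq_one_iff_commute] at k2 k3 ⊢
  rw [map_mul, map_inv, inv_mul_eq_one, map_commutatorElement] at k1
  rw [← k1, commutatorElement_def]
  exact ((k2.mul_left k3).mul_left k2.inv_left).mul_left k3.inv_left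

theorem h_exp (hn : n = 6) (hab : Γ.adj a b) (hC : Γ.K G 3 a ≠ ⊥) (h1 : e ∈ Γ.Q G a) (h2 : e ∈ Γ.Q G b) :
    e ^ p ∈ Γ.K G 2 b := by
  obtain ⟨z, g, f1, f2, e0, e1, e2⟩ := S.h2_data hn hab hC h1 h2
  obtain ⟨H, _, π, hπ⟩ := S.h2_hom 2 b two_pos
  let Z : stabilizer G b := ⟨z, f1⟩
  let Y : stabilizer G b := ⟨g, f2⟩
  let E : stabilizer G b := ⟨e, Q_fix h2⟩
  have k1 := (hπ (⁅Z, Y⁆⁻¹ * E)).2 e1
  have k2 := (hπ ⁅Z, E⁆).2 (e2 e h1 h2).1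
  refine (hπ (E ^ p)).1 ?_
  rw [map_commutatorElement, commutatorElement_eq_one_iff_commute] at k2
  rw [map_mul, map_inv, inv_mul_eq_one, map_commutatorElement, commutatorElement_def, mul_inv_eq_iff_eq_mul,
    mul_inv_eq_iff_eq_mul] at k1
  have k3 : ∀ m : ℕ, π Z ^ m * π Y = π E ^ m * π Y * π Z ^ m := fun m => by
    induction m with
    | zero => simp
    | succ m ih =>
      rw [pow_succ' (π Z), mul_assoc, ih, ← mul_assoc, ← mul_assoc, (k2.pow_right m).eq, mul_assoc _ (π Z), k1,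
        pow_succ (π E)]
      group
  have k4 : π Z ^ p = 1 := by rw [← map_pow, show Z ^ p = 1 from Subtype.ext e0, map_one]
  simpa [k4] using (k3 p).symm

theorem h_regE (hn : n = 6) (hab : Γ.adj a b) (hbc : Γ.adj b c) (ne : a ≠ c) (hC : Γ.K G 3 a ≠ ⊥) (h1 : e ∈ Γ.Q G a)
    (h2 : e ∈ Γ.Q G b) (hu : Γ.adj c u) (n1 : u ≠ b) (f : e • u = u) : e ∈ Γ.K G 2 b := by
  refine S.h_QQQ hn hab hbc ne hC h1 h2 (S.mem_Q_of_fix (Γ.symm hbc) (Q_le_V' h2 (Γ.symm hbc)) fun u' hu' => ?_)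
  by_cases n2 : u' = b
  · exact n2 ▸ Q_fix h2
  obtain ⟨g, g1, g2, rfl⟩ := S.T2 (Γ.symm hbc) (Γ.symm hab) ne.symm hu hu' n1 n2
  have := Q_fix_nbr (K_le_Q (K_nbr (S.h_ab hn hab hC h1 h2 g2 g1) hbc) one_pos) hu'
  rwa [commutatorElement_def, mul_smul, mul_smul, mul_smul, inv_smul_smul, inv_smul_eq_iff.2 f.symm] at this

theorem h_reg_two (hn : n = 6) (hp : p = 2) (hC : Γ.K G 3 x ≠ ⊥) : Γ.Reg G x := by
  intro y y' h h' ne g hg f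
  refine S.mem_Q_of_fix h hg fun u hu => ?_
  by_cases n1 : u = y
  · exact n1 ▸ V_fix' hg
  by_cases n2 : u = y'
  · exact n2 ▸ f
  obtain ⟨c, hc, n3, -⟩ := Γ.thick y x x
  have hC' := S.K_ne_nbr hC (Γ.symm h) hc
  obtain ⟨j, j1, j2, rfl⟩ := S.T2 h hc n3.symm h' hu ne.symm n1
  have h3 := Q_fix_nbr (K_le_Q (K_nbr (S.h_exp hn (Γ.symm hc) hC' j2 j1) (Γ.symm h)) one_pos) h'
  rw [hp, sq, mul_smul] at h3
  exact S.AB2 h (Q_le_V' j1 h) (fun v hv e => by_contra fun n4 => n2 (Q_fix_nbr (K_le_Q (K_nbr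
    (S.h_regE hn (Γ.symm hc) (Γ.symm h) n3 hC' j2 j1 hv n4 e) (Γ.symm h)) one_pos) h')) h' ne.symm h3 hg f

end Pol.SP

end CfsgLib.FS
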