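import Cfsg.Agent.Lib.FS.Base3

/-!
# Package MOU: root groups (see `plans/FS.md`)
-/

set_option autoImplicit false
set_option linter.unusedSectionVars false

namespace CfsgLib.FS
open Cfsg MulAction
open scoped commutatorElement

/-- the last non-trivial commutator in a nilpotent group -/
theorem mou_last {G : Type*} [Group G] {H U D : Subgroup G} (hH : Group.IsNilpotent H) (hU : U ≤ H) (hD : D ≤ H)
    (n : ∀ d ∈ D, ∀ u ∈ U, d * u * d⁻¹ ∈ U) (h : ¬∀ d ∈ D, ∀ u ∈ U, Commute d u) :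
    ∃ y ∈ U, ∃ z ∈ U, ∃ d ∈ D, z ≠ 1 ∧ (∀ d' ∈ D, Commute d' z) ∧ d * y * d⁻¹ = z * y := by
  have key : ∀ k, ∀ y : H, y ∈ Subgroup.upperCentralSeries H k → (y : G) ∈ U → (¬∀ d ∈ D, Commute d y) →
      ∃ y ∈ U, ∃ z ∈ U, ∃ d ∈ D, z ≠ 1 ∧ (∀ d' ∈ D, Commute d' z) ∧ d * y * d⁻¹ = z * y := by
    intro k
    induction k with
    | zero =>
      intro y hy _ q
      rw [Subgroup.upperCentralSeries_zero, Subgroup.mem_bot] at hy
      exact (q fun d _ => by rw [hy]; exact Commute.one_right d).elim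
    | succ k ih =>
      intro y hy yU q
      push Not at q
      obtain ⟨d, hd, q⟩ := q
      have zU : d * y * d⁻¹ * (y : G)⁻¹ ∈ U := mul_mem (n d hd y yU) (inv_mem yU)
      by_cases c : ∀ d' ∈ D, Commute d' (d * y * d⁻¹ * (y : G)⁻¹)
      · exact ⟨y, yU, _, zU, d, hd, fun e => q (commutatorElement_eq_one_iff_commute.1 e), c, by group⟩
      · have := inv_mem (Subgroup.mem_upperCentralSeries_succ_iff.1 hy ⟨d, hD hd⟩)
        rw [commutatorElement_inv] at this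
        exact ih _ this zU c
  obtain ⟨k, hk⟩ := hH.nilpotent
  push Not at h
  obtain ⟨d, hd, u, hu, q⟩ := h
  exact key k ⟨u, hU hu⟩ (by rw [hk]; trivial) hu fun c => q (c d hd)

namespace Pol
variable {n : ℕ} {X : Type*} {Γ : Pol n X} {P : ℤ → X} {G : Type*} [Group G] [MulAction G X]
  {i j k c : ℤ} {g u v m d : G} {w w' : X}

theorem U_Q (hu : u ∈ Γ.U G P i) (h1 : i < j) (h2 : j < i + n) : u ∈ Γ.Q G (P j) := mem_U.1 hu j h1 h2

theorem U_fix (hP : Γ.W P) (hu : u ∈ Γ.U G P i) (h1 : i ≤ j) (h2 : j ≤ i + n) : u • P j = P j := by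
  have := Γ.three
  by_cases e : j ≤ i + 1
  · exact Q_fix_W hP (U_Q hu (j := i + 1) (by omega) (by omega)) (by omega) (by omega)
  · exact Q_fix_W hP (U_Q hu (j := j - 1) (by omega) (by omega)) (by omega) (by omega)

theorem U_shift (c i : ℤ) : Γ.U G (fun j => P (j + c)) i = Γ.U G P (i + c) := by
  ext g
  rw [mem_U, mem_U]
  exact ⟨fun h j a b => by simpa using h (j - c) (by omega) (by omega), fun h j a b => h (j + c) (by omega) (by omega)⟩

theorem U_rev (c i : ℤ) : Γ.U G (fun j => P (c - j)) i = Γ.U G P (c - i - n) := by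
  ext g
  rw [mem_U, mem_U]
  exact ⟨fun h j a b => by simpa using h (c - j) (by omega) (by omega), fun h j a b => h (c - j) (by omega) (by omega)⟩

theorem Apt.U_eq (hP : Γ.Apt P) (e : (2 * n : ℤ) ∣ i - k) : Γ.U G P i = Γ.U G P k := by
  rw [show i = k + (i - k) by ring, ← U_shift]
  congr 1
  funext j
  exact hP.eq (by rwa [add_sub_cancel_left])

theorem Tr_shift (h : Γ.Tr G (fun j => P (j + c)) i) : Γ.Tr G P (i + c) := by
  intro u hu ne
  have := h u hu (by simpa only [add_right_comm] using ne)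
  simpa only [U_shift, sub_add_eq_add_sub] using this

theorem Mou.left (hM : Γ.Mou G) (hP : Γ.W P) (e : j = i + 1) (h : Γ.adj (P i) w) (h' : Γ.adj (P i) w') (ne : w ≠ P j)
    (ne' : w' ≠ P j) : ∃ u ∈ Γ.U G P i, u • w = w' := by
  subst e
  obtain ⟨a, ha, e1⟩ := hM P hP i w h ne
  obtain ⟨b, hb, e2⟩ := hM P hP i w' h' ne'
  exact ⟨b * a⁻¹, mul_mem hb (inv_mem ha), by rw [← e1, mul_smul, inv_smul_smul, e2]⟩

theorem Mou.right (hM : Γ.Mou G) (hP : Γ.W P) (e : k = i + n ∧ j = i + n - 1) (h : Γ.adj (P k) w) (h' : Γ.adj (P k) w')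
    (ne : w ≠ P j) (ne' : w' ≠ P j) : ∃ u ∈ Γ.U G P i, u • w = w' := by
  obtain ⟨rfl, rfl⟩ := e
  have := hM.left (rev hP (i + n)) (i := 0) (j := 1) (by norm_num) (by simpa using h) (by simpa using h') ne ne'
  rwa [U_rev, sub_zero, add_sub_cancel_right] at this

theorem Mou.U_ne_bot (hM : Γ.Mou G) (hP : Γ.W P) (i : ℤ) : Γ.U G P i ≠ ⊥ := fun e => by
  obtain ⟨u, hu, n1, n2⟩ := Γ.thick (P i) (P (i + 1)) (P (i - 1))
  obtain ⟨g, hg, e1⟩ := hM P hP i u hu n1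
  rw [e, Subgroup.mem_bot] at hg
  rw [hg, one_smul] at e1
  exact n2 e1.symm

namespace Au
variable (S : Γ.Au G)
include S

theorem U_left (hP : Γ.W P) (hu : u ∈ Γ.U G P i) (e : j = i + 1) (h : Γ.adj (P i) w) (ne : w ≠ P j) (f : u • w = w) :
    u = 1 := by
  subst e
  have := Γ.three
  obtain ⟨R, hR, e1, e2⟩ := ext_left hP h ne
  refine S.eq_one hR (i := i - 1) (j := i + 1) (fun k a b => ?_) (by omega) (by omega) ?_ ?_
  · rcases a.eq_or_lt with rfl | a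
    · rw [e2, f]
    · rw [e1 k (by omega)]
      exact U_fix hP hu (by omega) (by omega)
  · rw [e1 _ (by omega)]
    exact U_Q hu (by omega) (by omega)
  · rw [e1 _ (by omega)]
    exact U_Q hu (by omega) (by omega)

theorem U_right (hP : Γ.W P) (hu : u ∈ Γ.U G P i) (e : k = i + n ∧ j = i + n - 1) (h : Γ.adj (P k) w) (ne : w ≠ P j)
    (f : u • w = w) : u = 1 := by
  obtain ⟨rfl, rfl⟩ := e
  exact S.U_left (rev hP (i + n)) (i := 0) (j := 1) (by rwa [U_rev, sub_zero, add_sub_cancel_right]) (by norm_num)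
    (by simpa using h) ne f

theorem U_eq_one (hP : Γ.W P) (hu : u ∈ Γ.U G P i) (e : j = i - 1 ∨ j = i + n + 1) (f : u • P j = P j) : u = 1 := by
  have := Γ.three
  rcases e with rfl | rfl
  · exact S.U_left hP hu rfl (adj' hP (by ring)) (W_ne hP (by omega) (by omega) (by omega)) f
  · exact S.U_right hP hu ⟨rfl, rfl⟩ (hP.adj rfl) (W_ne hP (by omega) (by omega) (by omega)) f

theorem U_comm (hP : Γ.W P) (hu : u ∈ Γ.U G P i) (hv : v ∈ Γ.U G P k) (e : k = i + 1) : Commute u v := by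
  subst e
  have := Γ.three
  refine commutatorElement_eq_one_iff_commute.1 (S.U_eq_one hP (i := i) (mem_U.2 fun j a b => ?_) (Or.inr rfl) ?_)
  · exact S.comm_Q (U_Q hu a b) (U_fix hP hv (by omega) (by omega))
  · exact Q_fix_W hP (S.comm_Q' (U_Q hv (j := i + n) (by omega) (by omega)) (U_fix hP hu (by omega) (by omega)))
      (by omega) (by omega)

/-- `[U_i, U_k] ≤ U_(i+1) ⋯ U_(k-1)` in the form that is used -/
theorem comm_U_Q (hP : Γ.W P) (hu : u ∈ Γ.U G P i) (hv : v ∈ Γ.U G P k) (h0 : i < k) (h1 : k ≤ j) (h2 : j ≤ i + n)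
    (h3 : k < i + n) : ⁅u, v⁆ ∈ Γ.Q G (P j) := by
  rcases h2.eq_or_lt with rfl | h2
  · exact S.comm_Q' (U_Q hv (by omega) (by omega)) (U_fix hP hu (by omega) (by omega))
  · exact S.comm_Q (U_Q hu (by omega) h2) (U_fix hP hv h1 (by omega))

theorem U_conj_fix (f : ∀ j, g • P j = P j) (hu : u ∈ Γ.U G P i) : g * u * g⁻¹ ∈ Γ.U G P i :=
  mem_U.2 fun j a b => S.Q_conj' (U_Q hu a b) (f j)

theorem U_conj_refl (f : ∀ j, g • P j = P (c - j)) (hu : u ∈ Γ.U G P i) (e : k = c - i - n) :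
    g * u * g⁻¹ ∈ Γ.U G P k ∧ g⁻¹ * u * g ∈ Γ.U G P k :=
  ⟨mem_U.2 fun j a b => S.Q_conj' (U_Q hu (j := c - j) (by omega) (by omega)) (by rw [f, sub_sub_cancel]),
    mem_U.2 fun j a b => S.Q_conj_inv (U_Q hu (j := c - j) (by omega) (by omega)) (f j)⟩

theorem exists_Mu (hM : Γ.Mou G) (hP : Γ.Apt P) (hu : u ∈ Γ.U G P i) (ne : u ≠ 1) : ∃ m, Γ.Mu G P i u m := by
  have := Γ.three
  have e0 : P (i + n + n) = P i := hP.eq ⟨1, by ring⟩
  have e1 : P (i + n + n - 1) = P (i - 1) := hP.eq ⟨1, by ring⟩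
  have a1 : Γ.adj (P i) (P (i - 1)) := adj' hP.1 (by ring)
  have a2 : Γ.adj (P i) (P (i + 1)) := hP.1.adj rfl
  have n2 : P (i + 1) ≠ P (i - 1) := W_ne hP.1 (by omega) (by omega) (by omega)
  have mv : ∀ u ∈ Γ.U G P i, u ≠ 1 → Γ.adj (P i) (u • P (i - 1)) ∧ u • P (i - 1) ≠ P (i - 1) := fun u hu ne =>
    ⟨by simpa only [U_fix hP.1 hu le_rfl (by omega)] using S.smul u a1, fun f => ne (S.U_eq_one hP.1 hu (Or.inl rfl) f)⟩
  obtain ⟨b1, b2⟩ := mv u hu ne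
  obtain ⟨c1, c2⟩ := mv u⁻¹ (inv_mem hu) (inv_ne_one.2 ne)
  obtain ⟨p, hp, f1⟩ := hM.right hP.1 (i := i + n) (w := u • P (i - 1)) (w' := P (i + 1)) ⟨rfl, rfl⟩ (by rwa [e0])
    (by rwa [e0]) (by rwa [e1]) (by rwa [e1])
  obtain ⟨q, hq, f2⟩ := hM.right hP.1 (i := i + n) (w := P (i + 1)) (w' := u⁻¹ • P (i - 1)) ⟨rfl, rfl⟩ (by rwa [e0])
    (by rwa [e0]) (by rwa [e1]) (by rwa [e1])
  have fx : ∀ a ∈ Γ.U G P (i + n), a • P (i - 1) = P (i - 1) ∧ a • P i = P i ∧ a • P (i + n) = P (i + n) :=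
    fun a ha => ⟨by rw [← e1]; exact U_fix hP.1 ha (by omega) (by omega),
      by rw [← e0]; exact U_fix hP.1 ha (by omega) (by omega), U_fix hP.1 ha le_rfl (by omega)⟩
  refine ⟨_, p, hp, q, hq, rfl, fun j => ?_⟩
  have A : Γ.Apt fun j => (p * u * q) • P j := ⟨S.W_smul hP.1 _, fun j => by simp only [hP.2]⟩
  refine congrFun (A.ext (hP.rev (2 * i)) (i := i - 1) fun j a b => ?_) j
  by_cases h1 : j = i - 1
  · rw [h1, mul_smul, mul_smul, (fx q hq).1, f1]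
    congr 1
    ring
  by_cases h2 : j = i
  · rw [h2, mul_smul, mul_smul, (fx q hq).2.1, U_fix hP.1 hu le_rfl (by omega), (fx p hp).2.1]
    congr 1
    ring
  refine uniq A.1 (hP.rev (2 * i)).1 (i := i + 1) (k := i + n) (by omega) ?_ ?_ (by omega) (by omega)
  · rw [mul_smul, mul_smul, f2, smul_inv_smul, (fx p hp).1]
    congr 1
    ring
  · rw [mul_smul, mul_smul, (fx q hq).2.2, U_fix hP.1 hu (by omega) le_rfl, (fx p hp).2.2]
    exact hP.eq ⟨1, by ring⟩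

theorem mu_aux {x : X} {p q : G} (hp : p ∈ Γ.Q G x) (hv : v ∈ Γ.Q G x) (c : Commute q v)
    (f : (p * u * q * v * (p * u * q)⁻¹) • x = x) :
    ⁅u, v⁆ • x = x ∧ ∀ w, Γ.adj x w → ⁅u, v⁆ • w = (p * u * q * v * (p * u * q)⁻¹) • w := by
  have e : p * u * q * v * (p * u * q)⁻¹ = p * (u * v * u⁻¹) * p⁻¹ := by
    calc _ = p * u * (q * v) * q⁻¹ * u⁻¹ * p⁻¹ := by group
      _ = _ := by rw [c.eq]; group
  rw [e] at f ⊢
  rw [mul_smul, mul_smul, Q_fix (inv_mem hp), smul_eq_iff_eq_inv_smul, Q_fix (inv_mem hp)] at f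
  refine ⟨by rw [commutatorElement_def, mul_smul, Q_fix (inv_mem hv), f], fun w hw => ?_⟩
  rw [commutatorElement_def, mul_smul, Q_fix_nbr (inv_mem hv) hw, mul_smul _ p⁻¹, Q_fix_nbr (inv_mem hp) hw, mul_smul p,
    Q_fix_nbr hp (by simpa only [f] using S.smul (u * v * u⁻¹) hw)]

/-- Tits-Weiss 6.4 -/
theorem mu_left (hP : Γ.Apt P) (hu : u ∈ Γ.U G P i) (hm : Γ.Mu G P i u m) (hv : v ∈ Γ.U G P k)
    (e : k = i + n - 1 ∧ j = i + n + 1) :
    ⁅u, v⁆ • P j = P j ∧ ∀ w, Γ.adj (P j) w → ⁅u, v⁆ • w = (m * v * m⁻¹) • w := by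
  have := Γ.three
  obtain ⟨p, hp, q, hq, rfl, f⟩ := hm
  have h1 := (S.U_conj_refl f hv rfl).1
  rw [hP.U_eq (k := i + 1) ⟨-1, by rw [e.1]; ring⟩] at h1
  exact S.mu_aux (U_Q hp (by omega) (by omega)) (U_Q hv (by omega) (by omega))
    (S.U_comm hP.1 hv hq (by omega)).symm (U_fix hP.1 h1 (by omega) (by omega))

theorem mu_right (hP : Γ.Apt P) (hu : u ∈ Γ.U G P i) (hm : Γ.Mu G P i u m) (hv : v ∈ Γ.U G P k)
    (e : k = i - n + 1 ∧ j = i - 1) :
    ⁅u, v⁆ • P j = P j ∧ ∀ w, Γ.adj (P j) w → ⁅u, v⁆ • w = (m * v * m⁻¹) • w := by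
  have := Γ.three
  obtain ⟨p, hp, q, hq, rfl, f⟩ := hm
  have h1 := (S.U_conj_refl f hv rfl).1
  rw [hP.U_eq (k := i - n) ⟨1, by ring⟩] at hp hq
  exact S.mu_aux (U_Q hp (by omega) (by omega)) (U_Q hv (by omega) (by omega))
    (S.U_comm hP.1 hq hv (by omega)) (U_fix hP.1 h1 (by omega) (by omega))

end Au

namespace SP
variable {p : ℕ} (S : Γ.SP G p) [Finite G]
include S

theorem D_shift (hP : Γ.W P) (c : ℤ) : Γ.D G (fun j => P (j + c)) = Γ.D G P := by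
  ext g
  refine ⟨fun h => mem_D.2 ⟨?_, fun j => by simpa using (mem_D.1 h).2 (j - c)⟩,
    fun h => mem_D.2 ⟨S.D_le_V hP h (Or.inl (by ring)), fun j => (mem_D.1 h).2 _⟩⟩
  simpa using S.D_le_V (hP.shift c) h (i := -c) (j := 1 - c) (Or.inl (by ring))

theorem D_rev (hP : Γ.W P) (c : ℤ) : Γ.D G (fun j => P (c - j)) = Γ.D G P := by
  ext g
  refine ⟨fun h => mem_D.2 ⟨?_, fun j => by simpa using (mem_D.1 h).2 (c - j)⟩,
    fun h => mem_D.2 ⟨S.D_le_V hP h (Or.inr (by ring)), fun j => (mem_D.1 h).2 _⟩⟩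
  simpa using S.D_le_V (rev hP c) h (i := c) (j := c - 1) (Or.inr rfl)

theorem D_conj_fix (f : ∀ j, g • P j = P j) (hd : d ∈ Γ.D G P) : g * d * g⁻¹ ∈ Γ.D G P :=
  mem_D.2 ⟨V_conj' (mem_D.1 hd).1 (f 0) (f 1), fun j => by
    rw [mul_smul, mul_smul, inv_smul_eq_iff.2 (f j).symm, (mem_D.1 hd).2, f]⟩

theorem D_conj_refl (hP : Γ.W P) (f : ∀ j, g • P j = P (c - j)) (hd : d ∈ Γ.D G P) :
    g * d * g⁻¹ ∈ Γ.D G P ∧ g⁻¹ * d * g ∈ Γ.D G P := by
  have key : ∀ g : G, (∀ j, g • P j = P (c - j)) → g * d * g⁻¹ ∈ Γ.D G P := fun g f => by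
    have f' : ∀ j, g • P (c - j) = P j := fun j => by rw [f, sub_sub_cancel]
    refine mem_D.2 ⟨?_, fun j => by rw [mul_smul, mul_smul, inv_smul_eq_iff.2 (f' j).symm, (mem_D.1 hd).2, f']⟩
    rw [← f' 0, ← f' 1]
    exact V_conj (S.D_le_V hP hd (Or.inr (by ring))) g
  refine ⟨key g f, ?_⟩
  simpa using key g⁻¹ fun j => by rw [inv_smul_eq_iff, f, sub_sub_cancel]

/-- a coset of the centralizer of `D` in the root group that is fixed by an element of `D` -/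
theorem exists_coset (hP : Γ.W P) (h : ¬ ∀ d ∈ Γ.D G P, ∀ u ∈ Γ.U G P i, Commute d u) :
    ∃ y ∈ Γ.U G P i, ∃ z ∈ Γ.U G P i, ∃ d ∈ Γ.D G P, z ≠ 1 ∧ (∀ d' ∈ Γ.D G P, Commute d' z) ∧
      d * y * d⁻¹ = z * y := by
  have := Γ.three
  exact mou_last (V_nil (P (i + 1)) (P (i + 1 + 1)))
    (fun u hu => Q_le_V (U_Q hu (by omega) (by omega)) (hP.adj rfl)) (fun d hd => S.D_le_V hP hd (Or.inl rfl))
    (fun d hd u hu => S.U_conj_fix (mem_D.1 hd).2 hu) h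

/-- a non-trivial element of the root group centralized by `D` -/
theorem exists_cen_D (hM : Γ.Mou G) (hP : Γ.W P) (i : ℤ) :
    ∃ u ∈ Γ.U G P i, u ≠ 1 ∧ ∀ d ∈ Γ.D G P, Commute d u := by
  by_cases h : ∀ d ∈ Γ.D G P, ∀ u ∈ Γ.U G P i, Commute d u
  · obtain ⟨u, hu, u1⟩ := (Subgroup.bot_or_exists_ne_one _).resolve_left (hM.U_ne_bot hP i)
    exact ⟨u, hu, u1, fun d hd => h d hd u hu⟩
  · obtain ⟨-, -, z, hz, -, -, z1, c, -⟩ := S.exists_coset hP h
    exact ⟨z, hz, z1, c⟩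

theorem reg_of_mou (hM : Γ.Mou G) {x : X}
    (h : ∀ P, Γ.Apt P → P 0 = x → ∀ d ∈ Γ.D G P, ∀ u ∈ Γ.U G P 0, Commute d u) : Γ.Reg G x := by
  intro y y' hy hy' ne g hg f
  have := Γ.three
  obtain ⟨R, hR, r1, r2, r3⟩ := exists_W3 (Γ.symm hy') hy ne.symm 0
  obtain ⟨P, hP, e⟩ := exists_apt hR (-1)
  have p0 : P 0 = x := (e 0 (by omega) (by omega)).trans r2
  have p1 : P 1 = y := (e 1 (by omega) (by omega)).trans r3
  have p2 : P (-1) = y' := (e (-1) (by omega) (by omega)).trans r1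
  subst p0 p1 p2
  have key : ∀ k : ℕ, 1 ≤ k → k ≤ n → ∃ a ∈ Γ.Q G (P 0), ∀ j : ℤ, -1 ≤ j → j ≤ k → (a * g) • P j = P j := by
    intro k h1
    induction k, h1 using Nat.le_induction with
    | base =>
      refine fun _ => ⟨1, one_mem _, fun j a b => ?_⟩
      rw [one_mul]
      obtain rfl | rfl | rfl : j = -1 ∨ j = 0 ∨ j = 1 := by omega
      exacts [f, V_fix hg, V_fix' hg]
    | succ k hk ih =>
      intro h2
      obtain ⟨a, ha, fa⟩ := ih (by omega)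
      have n1 : P (k + 1) ≠ P (k - 1) := W_ne hP.1 (by omega) (by omega) (by omega)
      obtain ⟨u, hu, fu⟩ := hM.right hP.1 (i := k - n) (k := k) (j := k - 1) (w := (a * g) • P (k + 1)) (w' := P (k + 1))
        ⟨by ring, by ring⟩ (by simpa only [fa k (by omega) le_rfl] using S.smul (a * g) (hP.1.adj (i := k) rfl))
        (hP.1.adj rfl) (fun q => n1 (by rwa [← fa (k - 1) (by omega) (by omega), smul_left_cancel_iff] at q)) n1
      refine ⟨u * a, mul_mem (U_Q hu (by omega) (by omega)) ha, fun j b c => ?_⟩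
      rw [mul_assoc, mul_smul]
      rcases c.eq_or_lt with rfl | c
      · exact fu
      · rw [fa j b (by omega)]
        exact U_fix hP.1 hu (by omega) (by omega)
  obtain ⟨a, ha, fa⟩ := key n (by omega) le_rfl
  have hV := mul_mem (Q_le_V ha hy) hg
  have hD : a * g ∈ Γ.D G P := mem_D.2 ⟨hV, S.fix_apt hP (i := -1) fun j b c => fa j b (by omega)⟩
  refine ((Γ.Q G (P 0)).mul_mem_cancel_left ha).1 (S.mem_Q_of_trans hy hV (fa (-1) le_rfl (by omega)) fun u hu ne => ?_)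
  obtain ⟨b, hb, e1⟩ := hM P hP.1 0 u hu ne
  exact ⟨b, h P hP rfl _ hD b hb, e1⟩

end SP

end Pol

end CfsgLib.FS
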