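import Cfsg.Agent.Lib.FS.H2
import Cfsg.Agent.Lib.FS.Mou

/-!
# Package H3: hexagons in odd characteristic are Moufang (see `plans/FS.md`)
-/

set_option autoImplicit false

namespace CfsgLib.FS

open Cfsg MulAction
open scoped commutatorElement

/-- the square of an element `c z c'` that swaps `A` and `B` inverts both -/
theorem h3_swap_inv {H : Type*} [Group H] {A B : Subgroup H} {z c c' m : H}
    (hAB : ∀ a ∈ A, ∀ b ∈ B, Commute a b) (hinf : ∀ a ∈ A, a ∈ B → a = 1)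
    (hz : ∀ b ∈ B, Commute z b) (hc : ∀ a ∈ A, Commute c a) (hc' : ∀ a ∈ A, Commute c' a)
    (hφ : ∀ a ∈ A, ⁅z, a⁆ ∈ B) (hψ : ∀ b ∈ B, ⁅c, b⁆ ∈ A) (hψ' : ∀ b ∈ B, ⁅c', b⁆ ∈ A)
    (hm : m = c * z * c') (h1 : ∀ a ∈ A, m * a * m⁻¹ ∈ B) (h2 : ∀ b ∈ B, m * b * m⁻¹ ∈ A) :
    (∀ a ∈ A, m * m * a * (m * m)⁻¹ = a⁻¹) ∧ ∀ b ∈ B, m * m * b * (m * m)⁻¹ = b⁻¹ := by
  have cj : ∀ {u v : H}, Commute u v → u * v * u⁻¹ = v := fun h => by rw [h.eq, mul_inv_cancel_right]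
  have e1 : ∀ a ∈ A, m * a * m⁻¹ = ⁅z, a⁆ := by
    intro a ha
    have hb := hφ a ha
    have e : m * a * m⁻¹ = ⁅z, a⁆ * (⁅c, ⁅z, a⁆⁆ * a) := by
      calc m * a * m⁻¹ = c * (z * (c' * a * c'⁻¹) * z⁻¹) * c⁻¹ := by rw [hm]; group
        _ = ⁅c, ⁅z, a⁆⁆ * ⁅z, a⁆ * (c * a * c⁻¹) := by
          rw [cj (hc' a ha)]; simp only [commutatorElement_def]; group
        _ = _ := by rw [cj (hc a ha), (hAB _ (hψ _ hb) _ hb).eq, mul_assoc]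
    have h3 := hinf _ (mul_mem (hψ _ hb) ha) (by
      have := mul_mem (inv_mem hb) (e ▸ h1 a ha)
      rwa [inv_mul_cancel_left] at this)
    rw [e, h3, mul_one]
  have e2 : ∀ b ∈ B, m * m * b * (m * m)⁻¹ = b⁻¹ := by
    intro b hb
    have ha := hψ' b hb
    have hβ : ⁅z, ⁅c', b⁆⁆ * b ∈ B := mul_mem (hφ _ ha) hb
    have e : m * b * m⁻¹ = ⁅c', b⁆ * ⁅c, ⁅z, ⁅c', b⁆⁆ * b⁆ * (⁅z, ⁅c', b⁆⁆ * b) := by
      calc m * b * m⁻¹ = c * (⁅z, ⁅c', b⁆⁆ * ⁅c', b⁆ * (z * b * z⁻¹)) * c⁻¹ := by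
            rw [hm]; simp only [commutatorElement_def]; group
        _ = (c * ⁅c', b⁆ * c⁻¹) * (c * (⁅z, ⁅c', b⁆⁆ * b) * c⁻¹) := by
            rw [cj (hz b hb), ← (hAB _ ha _ (hφ _ ha)).eq]; group
        _ = _ := by rw [cj (hc _ ha), commutatorElement_def c]; group
    have h3 := hinf _ (by
      have := mul_mem (inv_mem (mul_mem ha (hψ _ hβ))) (e ▸ h2 b hb)
      rwa [inv_mul_cancel_left] at this) hβ
    rw [h3, commutatorElement_one_right, mul_one, mul_one] at e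
    calc m * m * b * (m * m)⁻¹ = m * (m * b * m⁻¹) * m⁻¹ := by group
      _ = b⁻¹ := by rw [e, e1 _ ha, eq_inv_of_mul_eq_one_left h3]
  refine ⟨fun a ha => ?_, e2⟩
  calc m * m * a * (m * m)⁻¹ = m⁻¹ * (m * m * (m * a * m⁻¹) * (m * m)⁻¹) * m := by group
    _ = a⁻¹ := by rw [e2 _ (h1 a ha)]; group

theorem h3_tau {H : Type*} [Group H] {h τ a : H} (h1 : h * a * h⁻¹ = a⁻¹)
    (h2 : h * ⁅τ, a⁆ * h⁻¹ = ⁅τ, a⁆⁻¹) (h3 : Commute a ⁅τ, a⁆) : ⁅τ⁻¹ * (h * τ * h⁻¹), a⁆ = 1 := by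
  have e1 : h⁻¹ * a * h = a⁻¹ := by
    have : h⁻¹ * a⁻¹ * h = a := by rw [← h1]; group
    calc h⁻¹ * a * h = (h⁻¹ * a⁻¹ * h)⁻¹ := by group
      _ = a⁻¹ := by rw [this]
  calc ⁅τ⁻¹ * (h * τ * h⁻¹), a⁆ = τ⁻¹ * (h * (τ * (h⁻¹ * a * h) * τ⁻¹) * h⁻¹) * τ * a⁻¹ := by
        rw [commutatorElement_def]; group
    _ = τ⁻¹ * ((h * ⁅τ, a⁆ * h⁻¹) * (h * a * h⁻¹))⁻¹ * τ * a⁻¹ := by
        rw [e1, commutatorElement_def]; group
    _ = τ⁻¹ * (⁅τ, a⁆ * a) * τ * a⁻¹ := by rw [h1, h2, ← h3.eq]; group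
    _ = 1 := by rw [commutatorElement_def]; group

namespace Pol.SP

variable {n : ℕ} {X : Type*} {Γ : Pol n X} {P : ℤ → X} {G : Type*} [Group G] [MulAction G X]
  {p : ℕ} (S : Γ.SP G p) [Finite G] {x y a b c u u' : X} {e e' g z t : G} {i j k l : ℤ}
include S

/-- the element `h₆ = μ(τ)²` -/
theorem exists_h (hn : n = 6) (hP : Γ.Apt P) (hC : Γ.K G 3 (P 3) ≠ ⊥) : ∃ h : G, (∀ j, h • P j = P j) ∧
    (∀ g ∈ V G (P 3) (P 4), (∀ j, 3 ≤ j → j ≤ 9 → g • P j = P j) → Commute h g) ∧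
    (∀ e ∈ Γ.Q G (P 5), e ∈ Γ.Q G (P 6) → h * e * h⁻¹ * e ∈ Γ.K G 2 (P 6)) ∧
    ∀ z ∈ Γ.K G 3 (P 9), Commute h z := by
  have hW := hP.1
  have a34 : Γ.adj (P 3) (P 4) := hW.adj rfl
  have a43 := Γ.symm a34
  have a54 : Γ.adj (P 5) (P 4) := adj' hW rfl
  have a56 : Γ.adj (P 5) (P 6) := hW.adj rfl
  have a65 := Γ.symm a56
  have a67 : Γ.adj (P 6) (P 7) := hW.adj rfl
  have a76 := Γ.symm a67
  have a78 : Γ.adj (P 7) (P 8) := hW.adj rfl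
  have a89 : Γ.adj (P 8) (P 9) := hW.adj rfl
  have n57 : P 5 ≠ P 7 := hW.ne rfl
  have hC5 : Γ.K G 3 (P 5) ≠ ⊥ := S.K_ne_two hW hC (by norm_num)
  obtain ⟨⟨z, hz⟩, hz1⟩ := (Subgroup.ne_bot_iff_exists_ne_one).1 (S.K_ne_two hW hC (j := 9) (by norm_num))
  replace hz1 : z ≠ 1 := fun e => hz1 (Subtype.ext e)
  have fz : ∀ {w : G}, w ∈ Γ.K G 3 (P 9) → ∀ j, 6 ≤ j → j ≤ 12 → w • P j = P j := fun hw j h1 h2 =>
    K_fix hW hw (by norm_num) (by omega) (by omega)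
  have fc : ∀ {w : G}, w ∈ Γ.K G 3 (P 3) → ∀ j, 0 ≤ j → j ≤ 6 → w • P j = P j := fun hw j h1 h2 =>
    K_fix hW hw (by norm_num) (by omega) (by omega)
  have ad : ∀ {w : G}, w ∈ Γ.K G 3 (P 9) → Γ.adj (P 6) (w • P 5) := fun {w} hw => by
    have := S.smul w a65
    rwa [fz hw 6 (by omega) (by omega)] at this
  obtain ⟨c, hc, ec⟩ := S.h_trans hn hW (i := 6) (j := 5) (k := 3) (by omega) hC (ad hz) a67
    (fun e => hz1 (S.K_eq_one hW (k := 3) hn hz (by omega) e)) n57.symm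
  obtain ⟨c', hc', ec'⟩ := S.h_trans hn hW (i := 6) (j := 5) (k := 3) (by omega) hC a67 (ad (inv_mem hz))
    n57.symm (fun e => hz1 (inv_eq_one.1 (S.K_eq_one hW (k := 3) hn (inv_mem hz) (by omega) e)))
  obtain ⟨m, hm⟩ : ∃ m, m = c * z * c' := ⟨_, rfl⟩
  have e0 : P 12 = P 0 := hP.eq' (by omega)
  have m0 : m • P 0 = P 12 := by
    rw [hm, mul_smul, mul_smul, fc hc' 0 (by omega) (by omega), ← e0, fz hz 12 (by omega) (by omega), e0,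
      fc hc 0 (by omega) (by omega)]
  have m5 : m • P 5 = P 7 := by rw [hm, mul_smul, mul_smul, fc hc' 5 (by omega) (by omega), ec]
  have m6 : m • P 6 = P 6 := by
    rw [hm, mul_smul, mul_smul, fc hc' 6 (by omega) (by omega), fz hz 6 (by omega) (by omega),
      fc hc 6 (by omega) (by omega)]
  have m7 : m • P 7 = P 5 := by
    rw [hm, mul_smul, mul_smul, ec', smul_inv_smul, fc hc 5 (by omega) (by omega)]
  have mj : ∀ j, m • P j = P (12 - j) := by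
    refine congrFun ((S.Apt_smul hP m).ext (hP.rev 12) (i := 0) fun j h1 h2 => ?_)
    by_cases h5 : j ≤ 5
    · exact uniq (S.W_smul hW m) (rev hW 12) (i := 0) (k := 5) (by omega) m0 m5 h1 h5
    · obtain rfl | rfl : j = 6 ∨ j = 7 := by omega
      · exact m6
      · exact m7
  have hj : ∀ j, (m * m) • P j = P j := fun j => by rw [mul_smul, mj, mj, sub_sub_cancel]
  let St := stabilizer G (P 6)
  let N : Subgroup St := (Γ.K G 2 (P 6)).subgroupOf St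
  have : N.Normal := ⟨fun k hk g => S.K_conj' hk g.2⟩
  let π := QuotientGroup.mk' N
  have hπ : ∀ g : St, π g = 1 ↔ (g : G) ∈ Γ.K G 2 (P 6) := fun g => QuotientGroup.eq_one_iff g
  have hcm : ∀ g g' : St, ⁅(g : G), (g' : G)⁆ ∈ Γ.K G 2 (P 6) → Commute (π g) (π g') := fun g g' h => by
    rw [← commutatorElement_eq_one_iff_commute, ← map_commutatorElement]
    exact (hπ _).2 h
  let A : Subgroup St := (Γ.Q G (P 5) ⊓ Γ.Q G (P 6)).subgroupOf St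
  let B : Subgroup St := (Γ.Q G (P 6) ⊓ Γ.Q G (P 7)).subgroupOf St
  have hAB : ∀ a ∈ A, ∀ b ∈ B, Commute (π a) (π b) := fun a ha b hb =>
    hcm _ _ (S.h_ab2 hn a56 a67 n57 hC5 ha.1 ha.2 hb.1 hb.2)
  have hφ : ∀ w : St, (w : G) ∈ Γ.K G 3 (P 9) → ∀ a ∈ A, ⁅w, a⁆ ∈ B := fun w hw a ha =>
    ⟨S.comm_Q' ha.2 w.2, S.comm_Q (K_Q hW hw (by omega) (by omega)) (Q_fix_nbr ha.2 a67)⟩
  have hψ : ∀ w : St, (w : G) ∈ Γ.K G 3 (P 3) → ∀ b ∈ B.map π, ⁅π w, b⁆ ∈ A.map π := by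
    rintro w hw _ ⟨b, hb, rfl⟩
    exact ⟨⁅w, b⁆, ⟨S.comm_Q (K_Q hW hw (by omega) (by omega)) (Q_fix_nbr hb.1 a65), S.comm_Q' hb.1 w.2⟩,
      map_commutatorElement _ _ _⟩
  have hcA : ∀ w : St, (w : G) ∈ Γ.K G 3 (P 3) → ∀ a ∈ A.map π, Commute (π w) a := by
    rintro w hw _ ⟨a, ha, rfl⟩
    exact (hcm _ _ (K_nbr (S.h_comm_V hn a54 a43 (hW.ne (i := 3) rfl).symm (Q_le_V ha.1 a54) hw) a56)).symm
  obtain ⟨i1, i2⟩ := h3_swap_inv (A := A.map π) (B := B.map π) (z := π ⟨z, fz hz 6 (by omega) (by omega)⟩)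
    (c := π ⟨c, fc hc 6 (by omega) (by omega)⟩) (c' := π ⟨c', fc hc' 6 (by omega) (by omega)⟩)
    (m := π ⟨m, m6⟩)
    (by rintro _ ⟨a, ha, rfl⟩ _ ⟨b, hb, rfl⟩; exact hAB a ha b hb)
    (by
      rintro _ ⟨a, ha, rfl⟩ ⟨b, hb, e⟩
      have h1 : ((b * a⁻¹ : St) : G) ∈ Γ.K G 2 (P 6) := (hπ _).1 (by rw [map_mul, map_inv, e, mul_inv_cancel])
      have h2 := mul_mem (K_Q hW h1 (j := 5) (by omega) (by omega)) ha.1
      rw [← e]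
      exact (hπ b).2 (S.h_QQQ hn a56 a67 n57 hC5 (by simpa using h2) hb.1 hb.2))
    (by
      rintro _ ⟨b, hb, rfl⟩
      exact (hcm _ _ (K_nbr (S.h_comm_V hn a78 a89 (hW.ne rfl) (Q_le_V hb.2 a78) hz) a76)).symm)
    (hcA _ hc) (hcA _ hc')
    (by rintro _ ⟨a, ha, rfl⟩; exact ⟨_, hφ _ hz a ha, map_commutatorElement _ _ _⟩)
    (hψ _ hc) (hψ _ hc') (by rw [← map_mul, ← map_mul]; exact congrArg π (Subtype.ext hm))
    (by
      rintro _ ⟨a, ha, rfl⟩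
      exact ⟨⟨m, m6⟩ * a * ⟨m, m6⟩⁻¹, ⟨S.Q_conj' ha.2 m6, S.Q_conj' ha.1 m5⟩, by simp⟩)
    (by
      rintro _ ⟨b, hb, rfl⟩
      exact ⟨⟨m, m6⟩ * b * ⟨m, m6⟩⁻¹, ⟨S.Q_conj' hb.2 m7, S.Q_conj' hb.1 m6⟩, by simp⟩)
  refine ⟨m * m, hj, fun g hg f => ?_, fun e h5 h6 => ?_, fun τ hτ => ?_⟩
  · have h1 : g ∈ V G (P 8) (P (8 + 1)) :=
      S.mem_V_walk hW (i := 3) hg f (by omega) (by omega) (by omega) (by omega)
    have h2 : Commute m g := hm ▸ (((mem_Z.1 (S.h_C_le_Z hn a34 hc)).2 g hg).mul_left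
      ((mem_Z.1 (S.h_C_le_Z hn (Γ.symm a89) hz)).2 g (V_symm (G := G) (P 8) (P 9) ▸ h1))).mul_left
      ((mem_Z.1 (S.h_C_le_Z hn a34 hc')).2 g hg)
    exact h2.mul_left h2
  · have := i1 _ ⟨⟨e, Q_fix h6⟩, ⟨h5, h6⟩, rfl⟩
    exact (hπ (⟨m, m6⟩ * ⟨m, m6⟩ * ⟨e, Q_fix h6⟩ * (⟨m, m6⟩ * ⟨m, m6⟩)⁻¹ * ⟨e, Q_fix h6⟩)).1 (by
      simp only [map_mul, map_inv, this, inv_mul_cancel])
  · have hw : τ⁻¹ * (m * m * τ * (m * m)⁻¹) ∈ Γ.K G 3 (P 9) := mul_mem (inv_mem hτ) (S.K_conj' hτ (hj 9))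
    by_contra hne
    obtain ⟨u, hu, u1, u2⟩ := Γ.thick (P 7) (P 6) (P 8)
    obtain ⟨g, g6, g5, eg⟩ := S.T2 a76 a65 n57.symm a78 hu (hW.ne (i := 6) rfl).symm u1
    let g' : St := ⟨g, Q_fix g6⟩
    let τ' : St := ⟨τ, fz hτ 6 (by omega) (by omega)⟩
    have hb := hφ τ' hτ g' ⟨g5, g6⟩
    have h1 := h3_tau (τ := π τ') (i1 _ ⟨g', ⟨g5, g6⟩, rfl⟩)
      (by rw [← map_commutatorElement]; exact i2 _ ⟨_, hb, rfl⟩)
      (by rw [← map_commutatorElement]; exact hAB _ ⟨g5, g6⟩ _ hb)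
    have h2 := (hπ ⁅τ'⁻¹ * (⟨m, m6⟩ * ⟨m, m6⟩ * τ' * (⟨m, m6⟩ * ⟨m, m6⟩)⁻¹), g'⁆).1 (by
      simp only [map_commutatorElement, map_mul, map_inv, h1])
    have h3 := S.h_inj hn hW (i := 5) (j := 6) (k := 9) (by omega) hw
      (fun e => hne (mul_inv_eq_iff_eq_mul.1 (inv_mul_eq_one.1 e).symm)) g5 g6 h2
    exact u2 (eg.symm.trans (K_fix hW h3 (by norm_num) (by omega) (by omega)))

omit [Finite G] in
/-- elements of `V` are squares in odd characteristic -/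
theorem h3_sqrt (hp : p ≠ 2) (h : Γ.adj x y) (hg : g ∈ V G x y) : ∃ k : ℕ, g ^ k * g ^ k = g := by
  obtain ⟨e, he⟩ := S.pg x y h ⟨g, hg⟩
  obtain ⟨k, hk⟩ := (S.prime.odd_of_ne_two hp).pow (n := e)
  refine ⟨k + 1, ?_⟩
  have h1 : g ^ (2 * k + 1) = 1 := hk ▸ congrArg Subtype.val he
  rw [← pow_add, show k + 1 + (k + 1) = 2 * k + 1 + 1 by ring, pow_succ, h1, one_mul]

theorem h3_tr (hn : n = 6) (hp : p ≠ 2) (hP : Γ.Apt P) : Γ.Tr G P 3 := by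
  intro u hu ne
  have hW := hP.1
  have a32 : Γ.adj (P 3) (P 2) := adj' hW rfl
  have a34 : Γ.adj (P 3) (P 4) := hW.adj rfl
  have a45 : Γ.adj (P 4) (P 5) := hW.adj rfl
  have a56 : Γ.adj (P 5) (P 6) := hW.adj rfl
  have a67 : Γ.adj (P 6) (P 7) := hW.adj rfl
  have a78 : Γ.adj (P 7) (P 8) := hW.adj rfl
  have a89 : Γ.adj (P 8) (P 9) := hW.adj rfl
  have n24 : P 2 ≠ P 4 := hW.ne rfl
  have n57 : P 5 ≠ P 7 := hW.ne rfl
  have n79 : P 7 ≠ P 9 := hW.ne rfl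
  rcases S.h_cen_or hn a67 with hC | hC
  · obtain ⟨c, hc, e⟩ := S.h_trans hn hW (i := 3) (j := 4) (k := 6) (by omega) hC a32 hu n24 ne
    exact ⟨c, mem_U.2 fun j h1 h2 => K_Q hW hc (by omega) (by omega), e⟩
  have hC3 : Γ.K G 3 (P 3) ≠ ⊥ := S.K_ne_two hW hC (by norm_num)
  obtain ⟨h, hj, h1, h2, -⟩ := S.exists_h hn hP hC3
  have hfix : ∀ w, Γ.adj (P 3) w → h • w = w := by
    intro w hw
    by_cases e : w = P 4
    · rw [e, hj]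
    obtain ⟨R, hR, e1, e2⟩ := ext_left hW hw e
    obtain ⟨v, hv, f⟩ := S.trans hW hR (i := 3) (k := 2) (by omega) (by omega) (e1 3 le_rfl).symm
      (e1 4 (by omega)).symm
    have h3 := h1 v hv fun j a b => (f j (by omega) (by omega)).trans (e1 j a)
    have h4 : v • P 2 = w := (f 2 le_rfl (by omega)).trans e2
    rw [← h4, ← mul_smul, h3.eq, mul_smul, hj]
  obtain ⟨e, e4, e5, ee⟩ := S.T2 a34 a45 (hW.ne rfl) a32 hu n24 ne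
  obtain ⟨c, hc, ec⟩ := S.h_trans hn hW (i := 6) (j := 5) (k := 3) (by omega) hC3 (u := e • P 7)
    (Q_fix_nbr e5 a56 ▸ S.smul e a67) a67
    (fun h => n57 (smul_left_cancel e ((Q_fix e5).trans h.symm))) n57.symm
  have t4 : c * e ∈ Γ.Q G (P 4) := mul_mem (K_Q hW hc (by omega) (by omega)) e4
  have t5 : c * e ∈ Γ.Q G (P 5) := mul_mem (K_Q hW hc (by omega) (by omega)) e5
  have t6 : c * e ∈ Γ.Q G (P 6) := S.h_reg_even hn a67 hC _ _ (Γ.symm a56) a67 n57 _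
    (Q_le_V' t5 (Γ.symm a56)) (by rw [mul_smul, ec])
  have t2 : (c * e) • P 2 = u := by rw [mul_smul, ee, Q_fix_nbr (K_le_Q hc (by norm_num)) hu]
  obtain ⟨k, hk⟩ := S.h3_sqrt hp a45 (Q_le_V t4 a45)
  set t := (c * e) ^ k
  have s4 : t ∈ Γ.Q G (P 4) := pow_mem t4 k
  have f6 := h2 t (pow_mem t5 k) (pow_mem t6 k)
  have f4 : h * t * h⁻¹ * t ∈ Γ.Q G (P 4) := mul_mem (S.Q_conj' s4 (hj 4)) s4
  have f2 : (h * t * h⁻¹ * t) • P 2 = u := by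
    have a1 : Γ.adj (P 3) (t • P 2) := Q_fix_nbr s4 (Γ.symm a34) ▸ S.smul t a32
    rw [mul_smul, mul_smul, mul_smul, inv_smul_eq_iff.2 (hfix _ a1).symm, ← mul_smul t, hk, t2, hfix u hu]
  set f := h * t * h⁻¹ * t
  have f7 : f ∈ Γ.Q G (P 7) := K_Q hW f6 (by omega) (by omega)
  obtain ⟨c', hc', ec'⟩ := S.h_trans hn hW (i := 8) (j := 7) (k := 5) (by omega)
    (S.K_ne_two hW hC (by norm_num)) (u := f • P 9) (Q_fix_nbr f7 a78 ▸ S.smul f a89) a89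
    (fun h => n79 (smul_left_cancel f ((Q_fix f7).trans h.symm))) n79.symm
  have g7 : c' * f ∈ Γ.Q G (P 7) := mul_mem (K_Q hW hc' (by omega) (by omega)) f7
  refine ⟨c' * f, mem_U.2 fun j j1 j2 => ?_, ?_⟩
  · obtain rfl | rfl | j3 : j = 4 ∨ j = 8 ∨ (4 < j ∧ j < 8) := by omega
    · exact mul_mem (K_Q hW hc' (by omega) (by omega)) f4
    · exact S.h_reg_even hn (Γ.symm a78) hC _ _ (Γ.symm a78) a89 n79 _ (Q_le_V' g7 (Γ.symm a78))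
        (by rw [mul_smul, ec'])
    · exact mul_mem (K_Q hW hc' (by omega) (by omega)) (K_Q hW f6 (by omega) (by omega))
  · change (c' * f) • P 2 = u
    rw [mul_smul, f2, Q_fix_nbr (K_Q hW hc' (j := 3) (by omega) (by omega)) hu]

set_option linter.unusedVariables false in
theorem h_mou (hn : n = 6) (hp : p ≠ 2) (hC : Γ.K G 3 x ≠ ⊥) : Γ.Mou G := by
  intro P hP i u hu ne
  obtain ⟨R, hR, e⟩ := exists_apt hP (i - 1)
  have h1 := Tr_shift (S.h3_tr hn hp (hR.shift (i - 3)))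
  rw [show 3 + (i - 3) = i by ring] at h1
  obtain ⟨g, hg, eg⟩ := h1 u (by rwa [e i (by omega) (by omega)]) (by rwa [e _ (by omega) (by omega)])
  refine ⟨g, mem_U.2 fun j j1 j2 => ?_, by rwa [← e _ le_rfl (by omega)]⟩
  rw [← e j (by omega) (by omega)]
  exact U_Q hg j1 j2

end Pol.SP

end CfsgLib.FS
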