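import Cfsg.Agent.Lib.FS.H3

/-!
# Package H4: Moufang hexagons in odd characteristic (see `plans/FS.md`)
-/

set_option autoImplicit false

namespace CfsgLib.FS

open Cfsg MulAction
open scoped commutatorElement

/-- the abelian quotient of `Q` by a subgroup that contains the commutators -/
theorem h4_quot.{u} {G : Type u} [Group G] (Q L : Subgroup G) (h : ∀ g ∈ Q, ∀ g' ∈ Q, ⁅g, g'⁆ ∈ L) :
    ∃ (H : Type u) (_ : CommGroup H) (π : Q →* H), ∀ g : Q, π g = 1 ↔ (g : G) ∈ L := by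
  have hN : (L.subgroupOf Q).Normal := ⟨fun k hk g => by
    have := mul_mem (h g g.2 k k.2) (show (k : G) ∈ L from hk)
    rw [commutatorElement_def, inv_mul_cancel_right] at this
    exact this⟩
  refine ⟨Q ⧸ L.subgroupOf Q, { (inferInstance : Group (Q ⧸ L.subgroupOf Q)) with mul_comm := ?_ },
    QuotientGroup.mk' _, fun g => QuotientGroup.eq_one_iff g⟩
  intro a b
  obtain ⟨a, rfl⟩ := QuotientGroup.mk'_surjective _ a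
  obtain ⟨b, rfl⟩ := QuotientGroup.mk'_surjective _ b
  refine commutatorElement_eq_one_iff_mul_comm.1 ?_
  rw [← map_commutatorElement]
  exact (QuotientGroup.eq_one_iff _).2 (h a a.2 b b.2)

/-- function form -/
theorem h4_quot'.{u} {G : Type u} [Group G] (Q L : Subgroup G) (h : ∀ g ∈ Q, ∀ g' ∈ Q, ⁅g, g'⁆ ∈ L) :
    ∃ (H : Type u) (_ : CommGroup H) (π : G → H), (∀ g ∈ Q, ∀ g' ∈ Q, π (g * g') = π g * π g') ∧
      ∀ g ∈ Q, π g = 1 ↔ g ∈ L := by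
  classical
  obtain ⟨H, _, π, e⟩ := h4_quot Q L h
  refine ⟨H, inferInstance, fun g => if hg : g ∈ Q then π ⟨g, hg⟩ else 1, fun g hg g' hg' => ?_,
    fun g hg => ?_⟩
  · simp only [dif_pos hg, dif_pos hg', dif_pos (mul_mem hg hg')]
    exact π.map_mul ⟨g, hg⟩ ⟨g', hg'⟩
  · simp only [dif_pos hg]
    exact e _

namespace Pol.SP

variable {n : ℕ} {X : Type*} {Γ : Pol n X} {P : ℤ → X} {G : Type*} [Group G] [MulAction G X]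
  {p : ℕ} (S : Γ.SP G p) [Finite G] {x y a b c u u' : X} {e e' g z t : G} {i j k l : ℤ}
include S

theorem h4_U_le_C (hn : n = 6) (hP : Γ.W P) (e : k = i + 3) (hC : Γ.K G 3 (P k) ≠ ⊥)
    (hg : g ∈ Γ.U G P i) : g ∈ Γ.K G 3 (P k) := by
  have a1 : Γ.adj (P i) (P (i - 1)) := adj' hP (by ring)
  have n1 : P (i - 1) ≠ P (i + 1) := hP.ne (by ring)
  obtain ⟨c, hc, ec⟩ := S.h_trans hn hP (i := i) (j := i + 1) (k := k) (by omega) hC (u' := g • P (i - 1)) a1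
    (U_fix hP hg (j := i) (by omega) (by omega) ▸ S.smul g a1) n1
    (fun h => n1 (smul_left_cancel g (h.trans (U_fix hP hg (by omega) (by omega)).symm)))
  have h1 : c⁻¹ * g ∈ Γ.U G P i :=
    mul_mem (inv_mem (mem_U.2 fun j j1 j2 => K_Q hP hc (by omega) (by omega))) hg
  rw [← inv_mul_eq_one.1 (S.U_eq_one hP h1 (Or.inl rfl) (by rw [mul_smul, ← ec, inv_smul_smul]))]
  exact hc

/-- `Q_7 = C_5 (Q_7 ∩ Q_8)` -/
theorem h4_Q7 (hn : n = 6) (hP : Γ.W P) (hC : Γ.K G 3 (P 7) ≠ ⊥) (hg : g ∈ Γ.Q G (P 7)) :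
    ∃ c ∈ Γ.K G 3 (P 5), c⁻¹ * g ∈ Γ.Q G (P 7) ∧ c⁻¹ * g ∈ Γ.Q G (P 8) := by
  have a78 : Γ.adj (P 7) (P 8) := hP.adj rfl
  have a89 : Γ.adj (P 8) (P 9) := hP.adj rfl
  have n79 : P 7 ≠ P 9 := hP.ne rfl
  obtain ⟨c, hc, ec⟩ := S.h_trans hn hP (i := 8) (j := 7) (k := 5) (by omega)
    (S.K_ne_two hP hC (by norm_num)) (u' := g • P 9) a89 (Q_fix_nbr hg a78 ▸ S.smul g a89) n79.symm
    (fun h => n79 (smul_left_cancel g ((Q_fix hg).trans h.symm)))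
  have g7 : c⁻¹ * g ∈ Γ.Q G (P 7) := mul_mem (inv_mem (K_Q hP hc (by omega) (by omega))) hg
  exact ⟨c, hc, g7, S.h_reg_even hn (Γ.symm a78) hC _ _ (Γ.symm a78) a89 n79 _
    (Q_le_V' g7 (Γ.symm a78)) (by rw [mul_smul, ← ec, inv_smul_smul])⟩

/-- `Q_7 / F_8` is abelian -/
theorem h4_ab (hn : n = 6) (hP : Γ.W P) (hC : Γ.K G 3 (P 7) ≠ ⊥) (hg : g ∈ Γ.Q G (P 7))
    (ht : t ∈ Γ.Q G (P 7)) : ⁅g, t⁆ ∈ Γ.K G 2 (P 8) := by
  have a78 : Γ.adj (P 7) (P 8) := hP.adj rfl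
  have a76 : Γ.adj (P 7) (P 6) := adj' hP rfl
  have h1 : ∀ {w c : G}, w ∈ Γ.Q G (P 7) → c ∈ Γ.K G 3 (P 5) → ⁅w, c⁆ ∈ Γ.K G 2 (P 8) := fun hw hc =>
    K_nbr (S.h_comm_V hn a76 (adj' hP rfl) (hP.ne (i := 5) rfl).symm (Q_le_V hw a76) hc) a78
  obtain ⟨c, hc, g7, g8⟩ := S.h4_Q7 hn hP hC hg
  obtain ⟨d, hd, t7, t8⟩ := S.h4_Q7 hn hP hC ht
  have f8 : ∀ {w : G}, w ∈ Γ.K G 3 (P 5) → w • P 8 = P 8 := fun hw =>
    K_fix hP hw (by norm_num) (by omega) (by omega)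
  have e : ⁅g, t⁆ = c * (⁅c⁻¹ * g, d⁆ * (d * ⁅c⁻¹ * g, d⁻¹ * t⁆ * d⁻¹)) * c⁻¹ * ⁅t, c⁆⁻¹ := by
    simp only [commutatorElement_def]; group
  rw [e]
  exact mul_mem (S.K_conj' (mul_mem (h1 g7 hd) (S.K_conj' (S.h_ab hn a78 hC g7 g8 t7 t8) (f8 hd))) (f8 hc))
    (inv_mem (h1 ht hc))

/-- (P3) -/
theorem h4_P3 (hn : n = 6) (hP : Γ.W P) (hC : Γ.K G 3 (P 7) ≠ ⊥) (hz : z ∈ Γ.U G P 1)
    (hg : g ∈ Γ.K G 2 (P 6)) : ∃ a ∈ Γ.K G 3 (P 7), Commute z a ∧ ⁅z, a⁻¹ * g⁆ ∈ Γ.K G 3 (P 5) := by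
  have a43 : Γ.adj (P 4) (P 3) := adj' hP rfl
  have a45 : Γ.adj (P 4) (P 5) := hP.adj rfl
  have a76 : Γ.adj (P 7) (P 6) := adj' hP rfl
  have n35 : P 3 ≠ P 5 := hP.ne rfl
  have hC5 : Γ.K G 3 (P 5) ≠ ⊥ := S.K_ne_two hP hC (by norm_num)
  have g5 : g ∈ Γ.Q G (P 5) := K_Q hP hg (by omega) (by omega)
  obtain ⟨a, ha, ea⟩ := S.h_trans hn hP (i := 4) (j := 5) (k := 7) (by omega) hC (u' := g • P 3) a43
    (Q_fix_nbr g5 (Γ.symm a45) ▸ S.smul g a43) n35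
    (fun h => n35 (smul_left_cancel g (h.trans (Q_fix g5).symm)))
  have w : ∀ j, 5 ≤ j → j ≤ 7 → a⁻¹ * g ∈ Γ.Q G (P j) := fun j j1 j2 =>
    mul_mem (inv_mem (K_Q hP ha (by omega) (by omega))) (K_Q hP hg (by omega) (by omega))
  have w3 : (a⁻¹ * g) • P 3 = P 3 := by rw [mul_smul, ← ea, inv_smul_smul]
  have w4 : a⁻¹ * g ∈ Γ.Q G (P 4) := S.h_reg_even hn a45 hC5 _ _ a45 a43 n35.symm _
    (Q_le_V' (w 5 (by omega) (by omega)) a45) w3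
  refine ⟨a, ha, (Z_comm_Q' (S.h_C_le_Z hn a76 ha) a76 (U_Q hz (by omega) (by omega))).symm,
    S.h4_U_le_C hn hP (i := 2) rfl hC5 (mem_U.2 fun j j1 j2 => ?_)⟩
  obtain rfl | rfl | j3 : j = 3 ∨ j = 4 ∨ (5 ≤ j ∧ j ≤ 7) := by omega
  · exact S.comm_Q (U_Q hz (by omega) (by omega)) w3
  · exact S.comm_Q (U_Q hz (by omega) (by omega)) (Q_fix w4)
  · exact S.comm_Q' (w j j3.1 j3.2) (U_fix hP hz (by omega) (by omega))

/-- (α) -/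
theorem h4_alpha (hn : n = 6) (hP : Γ.W P) (hz : z ∈ Γ.U G P 1) (hz1 : z ≠ 1) (ht : t ∈ Γ.K G 3 (P 9))
    (ht1 : t ≠ 1) {a : G} (ha : a ∈ Γ.K G 3 (P 5)) : a⁻¹ * ⁅z, t⁆ ∉ Γ.K G 2 (P 8) := by
  intro h
  have a76 : Γ.adj (P 7) (P 6) := adj' hP rfl
  have a65 : Γ.adj (P 6) (P 5) := adj' hP rfl
  have a78 : Γ.adj (P 7) (P 8) := hP.adj rfl
  have a89 : Γ.adj (P 8) (P 9) := hP.adj rfl
  have n79 : P 7 ≠ P 9 := hP.ne rfl
  have n68 : P 6 ≠ P 8 := hP.ne rfl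
  have z7 : z • P 7 = P 7 := U_fix hP hz (by omega) (by omega)
  have z6 : z • P 6 = P 6 := U_fix hP hz (by omega) (by omega)
  have z8 : z • P 8 ≠ P 8 := fun e => hz1 (S.U_eq_one hP hz (by omega) e)
  have hw : z * t * z⁻¹ ∈ Γ.K G 3 (z • P 9) := S.K_conj ht z
  have h1 : a⁻¹ * (z * t * z⁻¹) ∈ Γ.K G 2 (P 8) := by
    have := mul_mem h (K_nbr ht (Γ.symm a89))
    rwa [commutatorElement_def, mul_assoc, inv_mul_cancel_right] at this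
  have hR := (rev (S.W_smul hP z) 14).glue hP (i := 7) z7 z8
  have fx : ∀ {w : G}, w ∈ Γ.K G 3 (z • P 9) → w • P 9 = P 9 → w = 1 := fun hw e =>
    S.K_eq_one hR (k := 3) (i := 5) (j := 9) hn hw (by omega) e
  have ha1 : a ≠ 1 := by
    rintro rfl
    rw [inv_one, one_mul] at h1
    exact ht1 (by simpa using fx hw (K_fix hP h1 (by norm_num) (by omega) (by omega)))
  have a7 : Γ.adj (P 7) (z • P 8) := z7 ▸ S.smul z a78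
  obtain ⟨e, e8, e9, ee⟩ := S.T2 a78 a89 n79 a76 a7 n68 z8
  have e7 : e • P 7 = P 7 := Q_fix_nbr e8 (Γ.symm a78)
  have b1 : Γ.adj (z • P 8) (e • P 5) := ee ▸ S.smul e a65
  have b2 : e • P 5 ≠ P 7 := fun h => hP.ne (i := 5) rfl (smul_left_cancel e (h.trans e7.symm))
  obtain ⟨g, hg, eg⟩ := S.trans1 (Γ.symm a7) b1 (S.smul z a89) b2
    (fun h => n79 (smul_left_cancel z (z7.trans h.symm)))
  have ha' : e * a * e⁻¹ ∈ Γ.K G 3 (e • P 5) := S.K_conj ha e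
  have hk : ⁅g, e * a * e⁻¹⁆ ∈ Γ.K G 3 (P 7) :=
    S.h_comm_V hn a7 b1 b2.symm (V_symm (G := G) (z • P 8) (P 7) ▸ hg) ha'
  have a8 : a • P 8 = P 8 := K_fix hP ha (by norm_num) (by omega) (by omega)
  have hk8 : a⁻¹ * ⁅g, e * a * e⁻¹⁆⁻¹ * a ∈ Γ.K G 2 (P 8) := S.K_conj_inv (inv_mem (K_nbr hk a78)) a8
  have h2 : (g * (e * a * e⁻¹) * g⁻¹)⁻¹ * (z * t * z⁻¹) = 1 := by
    refine fx (mul_mem (inv_mem (S.K_conj' ha' eg)) hw) (Q_fix_nbr ?_ a89)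
    have : (g * (e * a * e⁻¹) * g⁻¹)⁻¹ * (z * t * z⁻¹) =
        ⁅a⁻¹, e⁆⁻¹ * (a⁻¹ * ⁅g, e * a * e⁻¹⁆⁻¹ * a) * (a⁻¹ * (z * t * z⁻¹)) := by
      simp only [commutatorElement_def]; group
    rw [this]
    exact mul_mem (mul_mem (inv_mem (S.comm_Q' e8 (inv_smul_eq_iff.2 a8.symm)))
      (K_le_Q hk8 (by norm_num))) (K_le_Q h1 (by norm_num))
  have h3 : ⁅a⁻¹, e⁆ ∈ Γ.K G 2 (P 8) := by
    have := mul_mem hk8 h1
    rw [← inv_mul_eq_one.1 h2] at this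
    convert this using 1
    simp only [commutatorElement_def]; group
  have h4 := S.h_inj hn hP (i := 9) (j := 8) (k := 5) (by omega) (inv_mem ha) (inv_ne_one.2 ha1) e9 e8 h3
  exact n68 (smul_left_cancel z (z6.trans ((K_fix hP h4 (by norm_num) (by omega) (by omega)).symm.trans ee)))

theorem h_D (hn : n = 6) (hp : p ≠ 2) (hP : Γ.Apt P) (hC : Γ.K G 3 (P 1) ≠ ⊥) :
    ∀ d ∈ Γ.D G P, ∀ v ∈ Γ.U G P 1, Commute d v := by
  by_contra hne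
  have hW := hP.1
  have hM := S.h_mou hn hp hC
  obtain ⟨y, hy, z, hz, d, hd, hz1, hzD, e0⟩ := S.exists_coset hW hne
  have a56 : Γ.adj (P 5) (P 6) := hW.adj rfl
  have a67 : Γ.adj (P 6) (P 7) := hW.adj rfl
  have a78 : Γ.adj (P 7) (P 8) := hW.adj rfl
  have a89 : Γ.adj (P 8) (P 9) := hW.adj rfl
  have n57 : P 5 ≠ P 7 := hW.ne rfl
  have n79 : P 7 ≠ P 9 := hW.ne rfl
  have hC5 : Γ.K G 3 (P 5) ≠ ⊥ := S.K_ne_two hW hC (by norm_num)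
  have hC7 : Γ.K G 3 (P 7) ≠ ⊥ := S.K_ne_two hW hC (by norm_num)
  have hC9 : Γ.K G 3 (P 9) ≠ ⊥ := S.K_ne_two hW hC (by norm_num)
  have f8 : ∀ {w : G}, w ∈ Γ.K G 3 (P 5) → w • P 8 = P 8 := fun hw =>
    K_fix hW hw (by norm_num) (by omega) (by omega)
  have c7 : ∀ {w : G}, w ∈ Γ.K G 3 (P 5) → w ∈ Γ.Q G (P 7) := fun hw => K_Q hW hw (by omega) (by omega)
  have F8 : ∀ {w : G}, w ∈ Γ.K G 2 (P 8) → w ∈ Γ.Q G (P 7) := fun hw => K_Q hW hw (by omega) (by omega)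
  have F6 : ∀ {w : G}, w ∈ Γ.K G 2 (P 6) → w ∈ Γ.Q G (P 7) := fun hw => K_Q hW hw (by omega) (by omega)
  have C9 : ∀ {w : G}, w ∈ Γ.K G 3 (P 9) → w ∈ Γ.K G 2 (P 8) := fun hw => K_nbr hw (Γ.symm a89)
  let L : Subgroup G :=
    { carrier := {w | ∃ a ∈ Γ.K G 3 (P 5), a⁻¹ * w ∈ Γ.K G 2 (P 8)}
      one_mem' := ⟨1, one_mem _, by simp⟩
      mul_mem' := by
        rintro w w' ⟨a, ha, h1⟩ ⟨a', ha', h2⟩
        refine ⟨a * a', mul_mem ha ha', ?_⟩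
        have := mul_mem (S.K_conj_inv h1 (f8 ha')) h2
        convert this using 1
        group
      inv_mem' := by
        rintro w ⟨a, ha, h1⟩
        refine ⟨a⁻¹, inv_mem ha, ?_⟩
        have := S.K_conj' (inv_mem h1) (f8 ha)
        convert this using 1
        group }
  have L8 : ∀ {w : G}, w ∈ Γ.K G 2 (P 8) → w ∈ L := fun hw => ⟨1, one_mem _, by simpa using hw⟩
  have L5 : ∀ {w : G}, w ∈ Γ.K G 3 (P 5) → w ∈ L := fun {w} hw => ⟨w, hw, by simp⟩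
  obtain ⟨H, _, π, hm, h1⟩ := h4_quot' (Γ.Q G (P 7)) L fun g hg g' hg' => L8 (S.h4_ab hn hW hC7 hg hg')
  have π1 : π 1 = 1 := (h1 1 (one_mem _)).2 (one_mem _)
  have πi : ∀ g ∈ Γ.Q G (P 7), π g⁻¹ = (π g)⁻¹ := fun g hg =>
    eq_inv_of_mul_eq_one_left (by rw [← hm _ (inv_mem hg) _ hg, inv_mul_cancel, π1])
  have π8 : ∀ {w : G}, w ∈ Γ.K G 2 (P 8) → π w = 1 := fun hw => (h1 _ (F8 hw)).2 (L8 hw)
  have π5 : ∀ {w : G}, w ∈ Γ.K G 3 (P 5) → π w = 1 := fun hw => (h1 _ (c7 hw)).2 (L5 hw)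
  have m7 : ∀ {w g : G}, w ∈ Γ.U G P 1 → g ∈ Γ.Q G (P 7) → ⁅w, g⁆ ∈ Γ.Q G (P 7) := fun hw hg =>
    S.comm_Q' hg (U_fix hW hw (by omega) (by omega))
  have m6 : ∀ {w g : G}, w ∈ Γ.U G P 1 → g ∈ Γ.Q G (P 7) → ⁅w, g⁆ ∈ Γ.Q G (P 6) := fun hw hg =>
    S.comm_Q (U_Q hw (by omega) (by omega)) (Q_fix_nbr hg (Γ.symm a67))
  have mF : ∀ {w g : G}, w ∈ Γ.U G P 1 → g ∈ Γ.Q G (P 6) → g ∈ Γ.Q G (P 7) → ⁅w, g⁆ ∈ Γ.K G 2 (P 6) :=
    fun hw g6 g7 => S.h_ab2 hn a56 a67 n57 hC5 (U_Q hw (by omega) (by omega))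
      (U_Q hw (by omega) (by omega)) g6 g7
  have P1 : ∀ {w g : G}, w ∈ Γ.U G P 1 → g ∈ Γ.Q G (P 7) →
      π ⁅z * w, g⁆ = π ⁅z, ⁅w, g⁆⁆ * π ⁅w, g⁆ * π ⁅z, g⁆ := fun {w g} hw hg => by
    rw [← hm _ (m7 hz (m7 hw hg)) _ (m7 hw hg), ← hm _ (mul_mem (m7 hz (m7 hw hg)) (m7 hw hg)) _ (m7 hz hg)]
    congr 1
    simp only [commutatorElement_def]; group
  have P2 : ∀ {g g' : G}, g ∈ Γ.Q G (P 7) → g' ∈ Γ.Q G (P 7) → π ⁅z, g * g'⁆ = π ⁅z, g⁆ * π ⁅z, g'⁆ :=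
    fun {g g'} hg hg' => by
      have : ⁅z, g * g'⁆ = ⁅z, g⁆ * g * ⁅z, g'⁆ * g⁻¹ := by simp only [commutatorElement_def]; group
      rw [this, hm _ (mul_mem (mul_mem (m7 hz hg) hg) (m7 hz hg')) _ (inv_mem hg),
        hm _ (mul_mem (m7 hz hg) hg) _ (m7 hz hg'), hm _ (m7 hz hg) _ hg, πi g hg, mul_right_comm _ (π g),
        mul_inv_cancel_right]
  have P2i : ∀ {g : G}, g ∈ Γ.Q G (P 7) → π ⁅z, g⁻¹⁆ = (π ⁅z, g⁆)⁻¹ := fun {g} hg =>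
    eq_inv_of_mul_eq_one_left (by rw [← P2 (inv_mem hg) hg, inv_mul_cancel, commutatorElement_one_right, π1])
  have P3 : ∀ {g : G}, g ∈ Γ.K G 2 (P 6) → π ⁅z, g⁆ = 1 := fun {g} hg => by
    obtain ⟨a, ha, e1, e2⟩ := S.h4_P3 hn hW hC7 hz hg
    have a7 := K_le_Q ha (by norm_num)
    rw [← mul_inv_cancel_left a g, P2 a7 (mul_mem (inv_mem a7) (F6 hg)), π5 e2,
      commutatorElement_eq_one_iff_commute.2 e1, π1, one_mul]
  obtain ⟨h, hj, hh1, hh2, hh3⟩ := S.exists_h hn hP (S.K_ne_two hW hC (by norm_num))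
  have hπh : ∀ g ∈ Γ.Q G (P 7), π (h * g * h⁻¹) = π g := by
    intro g hg
    obtain ⟨c, hc, g7, g8⟩ := S.h4_Q7 hn hW hC7 hg
    have a9 : Γ.adj (P 9) (P 10) := hW.adj rfl
    have n8 : P 10 ≠ P 8 := (hW.ne (i := 8) rfl).symm
    obtain ⟨u, hu, eu⟩ := hM.right hW (i := 3) (k := 9) (j := 8) (by omega) (w' := (c⁻¹ * g) • P 10) a9
      (Q_fix_nbr g8 a89 ▸ S.smul _ a9) n8 (fun h => n8 (smul_left_cancel _ (h.trans (Q_fix g8).symm)))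
    have u7 : u ∈ Γ.Q G (P 7) := U_Q hu (by omega) (by omega)
    have k8 : u⁻¹ * (c⁻¹ * g) ∈ Γ.K G 2 (P 8) := S.h_regE hn a78 a89 n79 hC7 (mul_mem (inv_mem u7) g7)
      (mul_mem (inv_mem (U_Q hu (by omega) (by omega))) g8) a9 n8 (by rw [mul_smul, ← eu, inv_smul_smul])
    have hc' := hh1 u (Q_le_V' (U_Q hu (by omega) (by omega)) (hW.adj rfl))
      fun j j1 j2 => U_fix hW hu j1 (by omega)
    have e1 : h * g * h⁻¹ = h * c * h⁻¹ * (u * (h * (u⁻¹ * (c⁻¹ * g)) * h⁻¹)) := by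
      rw [← mul_assoc u, ← mul_assoc u, ← hc'.eq]; group
    have e2 : g = c * (u * (u⁻¹ * (c⁻¹ * g))) := by group
    have k8' := S.K_conj' k8 (hj 8)
    have c' := S.K_conj' hc (hj 5)
    rw [e1, hm _ (c7 c') _ (mul_mem u7 (F8 k8')), hm _ u7 _ (F8 k8'), π5 c', π8 k8']
    conv_rhs => rw [e2, hm _ (c7 hc) _ (mul_mem u7 (F8 k8)), hm _ u7 _ (F8 k8), π5 hc, π8 k8]
  have hzi : h * z * h⁻¹ = z⁻¹ := eq_inv_of_mul_eq_one_left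
    (S.U_eq_one hW (mul_mem (S.U_conj_fix hj hz) hz) (j := 8) (by omega)
      (K_fix hW (hh2 z (U_Q hz (by omega) (by omega)) (U_Q hz (by omega) (by omega))) (by norm_num)
        (by omega) (by omega)))
  have hβ : ∀ τ ∈ Γ.K G 3 (P 9), π ⁅z, ⁅z, τ⁆⁆ = 1 → τ = 1 := by
    intro τ hτ e
    by_contra τ1
    have t7 := F8 (C9 hτ)
    have r7 := m7 hz t7
    have e1 : π ⁅z⁻¹, τ⁆ = π ⁅z, τ⁆ := by
      rw [← hπh _ r7, conjugate_commutatorElement, hzi, (hh3 τ hτ).eq, mul_inv_cancel_right]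
    have e2 : ⁅z⁻¹, τ⁆ = ⁅z⁻¹, ⁅z, τ⁆⁻¹⁆ * ⁅z, τ⁆⁻¹ := by simp only [commutatorElement_def]; group
    have k6 := mF (inv_mem hz) (inv_mem (m6 hz t7)) (inv_mem r7)
    have e3 := P1 (inv_mem hz) t7
    rw [mul_inv_cancel, commutatorElement_one_left, π1, e1, e2, P2 (F6 k6) (inv_mem r7), P3 k6, P2i r7, e,
      inv_one, one_mul, one_mul] at e3
    obtain ⟨k, hk⟩ := S.h3_sqrt hp a78 (Q_le_V r7 a78)
    have e4 : ∀ k : ℕ, π (⁅z, τ⁆ ^ k * ⁅z, τ⁆ ^ k) = 1 := by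
      intro k
      induction k with
      | zero => simpa using π1
      | succ k ih =>
        have : ∀ r : G, r ^ (k + 1) * r ^ (k + 1) = r ^ k * r ^ k * (r * r) := fun r => by
          rw [← pow_two r, ← pow_add, ← pow_add, ← pow_add]; congr 1; ring
        rw [this, hm _ (mul_mem (pow_mem r7 k) (pow_mem r7 k)) _ (mul_mem r7 r7), ih, hm _ r7 _ r7, ← e3,
          one_mul]
    obtain ⟨a, ha, h2⟩ := (h1 _ r7).1 (hk ▸ e4 k)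
    exact S.h4_alpha hn hW hz hz1 hτ τ1 ha h2
  have hDC : ∀ d' ∈ Γ.D G P, ∀ τ ∈ Γ.K G 3 (P 9), Commute d' τ := fun d' hd' τ hτ =>
    ((mem_Z.1 (S.h_C_le_Z hn (Γ.symm a89) hτ)).2 d' (S.D_le_V hW hd' (by omega))).symm
  have dj := (mem_D.1 hd).2
  obtain ⟨m, p', hp', q, hq, em, mj⟩ := S.exists_Mu hM hP hy (by
    rintro rfl
    exact hz1 (by simpa using e0.symm))
  have key : ∀ x ∈ Γ.U G P 5, (∀ d' ∈ Γ.D G P, Commute d' x) → π ⁅z, x⁆ = 1 := by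
    intro x hx hxD
    have x6 : x ∈ Γ.Q G (P 6) := U_Q hx (by omega) (by omega)
    have x7 : x ∈ Γ.Q G (P 7) := U_Q hx (by omega) (by omega)
    have hx' : m * x * m⁻¹ ∈ Γ.U G P 3 := by
      rw [hP.U_eq (k := -9) ⟨1, by omega⟩]
      exact (S.U_conj_refl mj hx (by omega)).1
    have x'7 : m * x * m⁻¹ ∈ Γ.Q G (P 7) := U_Q hx' (by omega) (by omega)
    have dx' : d * (m * x * m⁻¹) * d⁻¹ = m * x * m⁻¹ := by
      have := (hxD _ (S.D_conj_refl hW mj hd).2).eq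
      calc d * (m * x * m⁻¹) * d⁻¹ = m * (m⁻¹ * d * m * x) * m⁻¹ * d⁻¹ := by group
        _ = _ := by rw [this]; group
    have hb : ⁅x⁻¹, q⁆ ∈ Γ.K G 3 (P 9) := S.h4_U_le_C hn hW (i := 6) rfl hC9 (mem_U.2 fun j j1 j2 =>
      S.comm_U_Q hW (inv_mem hx) hq (by omega) (by omega) (by omega) (by omega))
    have b7 := F8 (C9 hb)
    have g8 : x * ⁅x⁻¹, q⁆ ∈ Γ.K G 2 (P 8) := mul_mem (S.h_QQQ hn a78 a89 n79 hC7 x7
      (U_Q hx (by omega) (by omega)) (U_Q hx (by omega) (by omega))) (C9 hb)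
    have g7 := F8 g8
    have dg : d * (x * ⁅x⁻¹, q⁆) * d⁻¹ = x * ⁅x⁻¹, q⁆ := by
      rw [((hxD d hd).mul_right (hDC d hd _ hb)).eq, mul_inv_cancel_right]
    have cq : ∀ j, 7 ≤ j → j ≤ 9 → ⁅(m * x * m⁻¹)⁻¹, p'⁻¹⁆ ∈ Γ.Q G (P j) := fun j j1 j2 =>
      S.comm_U_Q hW (inv_mem hx') (inv_mem hp') (by omega) (by omega) (by omega) (by omega)
    have k8 : (m * x * m⁻¹)⁻¹ * ⁅y, x * ⁅x⁻¹, q⁆⁆ ∈ Γ.K G 2 (P 8) := by
      have := mul_mem (S.h_QQQ hn a78 a89 n79 hC7 (cq 7 (by omega) (by omega)) (cq 8 (by omega) (by omega))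
        (cq 9 (by omega) (by omega))) (inv_mem g8)
      convert this using 1
      rw [em]
      simp only [commutatorElement_def]; group
    set g := x * ⁅x⁻¹, q⁆ with hg
    set x' := m * x * m⁻¹
    have step : ∀ {w : G}, x'⁻¹ * ⁅w, g⁆ ∈ Γ.K G 2 (P 8) → x'⁻¹ * ⁅d * w * d⁻¹, g⁆ ∈ Γ.K G 2 (P 8) := by
      intro w hw
      have := S.K_conj' hw (dj 8)
      rwa [show d * (x'⁻¹ * ⁅w, g⁆) * d⁻¹ = (d * x' * d⁻¹)⁻¹ * (d * ⁅w, g⁆ * d⁻¹) by group, dx',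
        conjugate_commutatorElement, dg] at this
    have val : ∀ {w : G}, x'⁻¹ * ⁅w, g⁆ ∈ Γ.K G 2 (P 8) → π ⁅w, g⁆ = π x' := fun {w} hw => by
      rw [← mul_inv_cancel_left x' ⁅w, g⁆, hm _ x'7 _ (F8 hw), π8 hw, mul_one]
    have k1 := step k8
    rw [e0] at k1
    have k2 := step k1
    rw [show d * (z * y) * d⁻¹ = (d * z * d⁻¹) * (d * y * d⁻¹) by group, e0, (hzD d hd).eq,
      mul_inv_cancel_right] at k2
    have q1 := P1 hy g7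
    have q2 := P1 (mul_mem hz hy) g7
    rw [val k1, val k8] at q1
    rw [val k2, val k1] at q2
    have q3 : π ⁅z, ⁅z * y, g⁆⁆ = π ⁅z, ⁅y, g⁆⁆ := mul_right_cancel (mul_right_cancel (q2.symm.trans q1))
    have e1 : ⁅z * y, g⁆ = ⁅z, ⁅y, g⁆⁆ * (⁅y, g⁆ * (⁅z, x⁆ * (x * (⁅z, ⁅x⁻¹, q⁆⁆ * x⁻¹)))) := by
      have : ⁅z, g⁆ = ⁅z, x⁆ * (x * (⁅z, ⁅x⁻¹, q⁆⁆ * x⁻¹)) := by
        rw [hg]; simp only [commutatorElement_def]; group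
      rw [← this]; simp only [commutatorElement_def]; group
    have s1 := mul_mem (m7 hz b7) (inv_mem x7)
    have s2 := mul_mem x7 s1
    have s3 := mul_mem (m7 hz x7) s2
    rw [e1, P2 (m7 hz (m7 hy g7)) (mul_mem (m7 hy g7) s3), P2 (m7 hy g7) s3, P2 (m7 hz x7) s2, P2 x7 s1,
      P2 (m7 hz b7) (inv_mem x7), P2i x7, P3 (mF hz (m6 hy g7) (m7 hy g7)), P3 (mF hz x6 x7), one_mul,
      one_mul, mul_eq_left, mul_comm, inv_mul_cancel_right] at q3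
    have e2 : g = x := by rw [hg, hβ _ hb q3, mul_one]
    rw [e2, P3 (mF hy x6 x7), one_mul, left_eq_mul] at q1
    exact q1
  obtain ⟨⟨τ, hτ⟩, τ1⟩ := Subgroup.ne_bot_iff_exists_ne_one.1 hC9
  have t7 := F8 (C9 hτ)
  have r7 := m7 hz t7
  have r6 := m6 hz t7
  have a54 : Γ.adj (P 5) (P 4) := adj' hW rfl
  have n46 : P 4 ≠ P 6 := hW.ne rfl
  obtain ⟨x, hx, ex⟩ := hM.left hW (i := 5) (j := 6) rfl (w' := ⁅z, τ⁆ • P 4) a54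
    (Q_fix_nbr r6 (Γ.symm a56) ▸ S.smul _ a54) n46
    (fun h => n46 (smul_left_cancel _ (h.trans (Q_fix r6).symm)))
  have x7 : x ∈ Γ.Q G (P 7) := U_Q hx (by omega) (by omega)
  have k6 : x⁻¹ * ⁅z, τ⁆ ∈ Γ.K G 2 (P 6) := S.h_regE hn (Γ.symm a67) (Γ.symm a56) n57.symm hC7
    (mul_mem (inv_mem x7) r7) (mul_mem (inv_mem (U_Q hx (by omega) (by omega))) r6) a54 n46
    (by rw [mul_smul, ← ex, inv_smul_smul])
  have hxD : ∀ d' ∈ Γ.D G P, Commute d' x := fun d' hd' => by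
    have dj' := (mem_D.1 hd').2
    have c1 := hzD d' hd'
    have c2 := hDC d' hd' τ hτ
    have c3 : Commute d' ⁅z, τ⁆ := ((c1.mul_right c2).mul_right c1.inv_right).mul_right c2.inv_right
    have := S.U_eq_one hW (mul_mem (inv_mem hx) (S.U_conj_fix dj' hx)) (j := 4) (by omega) (by
      rw [mul_smul, mul_smul, mul_smul, inv_smul_eq_iff.2 (dj' 4).symm, ex, ← mul_smul d', c3.eq, mul_smul,
        dj', ← ex, inv_smul_smul])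
    exact mul_inv_eq_iff_eq_mul.1 (inv_mul_eq_one.1 this).symm
  refine τ1 (Subtype.ext (hβ τ hτ ?_))
  rw [← mul_inv_cancel_left x ⁅z, τ⁆, P2 x7 (F6 k6), key x hx hxD, P3 k6, one_mul]

end Pol.SP

end CfsgLib.FS
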