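import Cfsg.Agent.Lib.FS.Base3

/-!
# Package N34: triangles and quadrangles (see `plans/FS.md`)
-/

set_option autoImplicit false
set_option linter.unusedSectionVars false

namespace CfsgLib.FS
open Cfsg MulAction
open scoped commutatorElement

namespace Pol
variable {n : ℕ} {X : Type*} {Γ : Pol n X} {G : Type*} [Group G] [MulAction G X] {x y : X} {g h : G}

/-- the centre of `Q x` -/
def Cq (Γ : Pol n X) (G : Type*) [Group G] [MulAction G X] (x : X) : Subgroup G :=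
  Γ.Q G x ⊓ Subgroup.centralizer (Γ.Q G x : Set G)

theorem mem_Cq : g ∈ Γ.Cq G x ↔ g ∈ Γ.Q G x ∧ ∀ q ∈ Γ.Q G x, Commute g q :=
  and_congr_right fun _ => ⟨fun h q hq => (h q hq).symm, fun h q hq => (h q hq).symm⟩

theorem Au.Cq_conj (S : Γ.Au G) (hg : g ∈ Γ.Cq G x) (e : h • x = y) : h * g * h⁻¹ ∈ Γ.Cq G y := by
  rw [mem_Cq] at hg ⊢
  refine ⟨S.Q_conj' hg.1 e, fun q hq => ?_⟩
  have := (hg.2 _ (S.Q_conj_inv hq e)).eq
  calc h * g * h⁻¹ * q = h * (g * (h⁻¹ * q * h)) * h⁻¹ := by group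
    _ = q * (h * g * h⁻¹) := by rw [this]; group

end Pol

namespace Pol.SP
variable {n : ℕ} {X : Type*} {Γ : Pol n X} {P : ℤ → X} {G : Type*} [Group G] [MulAction G X]
  {p : ℕ} (S : Γ.SP G p) [Finite G]
include S

section aux

variable {a b c w : X} {z : G}

theorem Z_le_Q (h : Γ.adj a b) (hz : z ∈ Z G a b) : z ∈ Γ.Q G a := by
  rw [← K_one]
  exact S.Z_le_K h hz (by have := Γ.three; omega)

theorem Z_le_Q' (h : Γ.adj a b) (hz : z ∈ Z G a b) : z ∈ Γ.Q G b := S.Z_le_Q (Γ.symm h) (by rwa [Z_symm])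

theorem Z_le_Cq (h : Γ.adj a b) (hz : z ∈ Z G a b) : z ∈ Γ.Cq G a :=
  mem_Cq.2 ⟨S.Z_le_Q h hz, fun _ hq => Z_comm_Q hz h hq⟩

theorem Z_le_Cq' (h : Γ.adj a b) (hz : z ∈ Z G a b) : z ∈ Γ.Cq G b := S.Z_le_Cq (Γ.symm h) (by rwa [Z_symm])

theorem surj_nbr {α : Type*} (h : Γ.adj a b) (f : α → X) (hf : Function.Injective f) (h1 : ∀ t, Γ.adj a (f t) ∧ f t ≠ b)
    (hc : Γ.val a ≤ Nat.card α) (hw : Γ.adj a w) (ne : w ≠ b) : ∃ t, f t = w := by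
  have e := S.card_nbr h
  haveI : Finite {u // Γ.adj a u ∧ u ≠ b} := Nat.finite_of_card_ne_zero (by have := S.two_le_val a; omega)
  obtain ⟨t, ht⟩ := (Function.Injective.bijective_of_nat_card_le (f := fun t => (⟨f t, h1 t⟩ : {u // Γ.adj a u ∧ u ≠ b}))
    (fun s t q => hf (congrArg Subtype.val q)) (by rwa [e])).2 ⟨w, hw, ne⟩
  exact ⟨t, congrArg Subtype.val ht⟩

variable (H : ∀ a b c, Γ.adj a b → Γ.adj b c → a ≠ c → ∀ g ∈ Γ.Q G a, g ∈ Γ.Q G b → g ∈ Γ.Q G c → g = 1)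
include H

theorem n3_semi (h1 : Γ.adj a b) (h2 : Γ.adj b c) (ne : a ≠ c) (hz : z ∈ Z G a b) (hw : Γ.adj c w) (nw : w ≠ b)
    (f : z • w = w) : z = 1 := by
  have qb := S.Z_le_Q' h1 hz
  refine H a b c h1 h2 ne z (S.Z_le_Q h1 hz) qb
    (S.mem_Q_of_trans (Γ.symm h2) (Q_le_V' qb (Γ.symm h2)) f fun u hu nu => ?_)
  obtain ⟨g, hg, e⟩ := S.T1 (Γ.symm h2) hw hu nw nu
  exact ⟨g, Z_comm_Q' hz h1 hg, e⟩

theorem n3_trans (hP : Γ.W P) (hw : Γ.adj (P 3) w) (nw : w ≠ P 2) : ∃ z ∈ Z G (P 1) (P 2), z • P 4 = w := by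
  have := Γ.three
  have a0 : Γ.adj (P 0) (P (-1)) := adj' hP (by norm_num)
  have a1 : Γ.adj (P 0) (P 1) := hP.adj (by norm_num)
  have a2 : Γ.adj (P 1) (P 2) := hP.adj (by norm_num)
  have a3 : Γ.adj (P 2) (P 3) := hP.adj (by norm_num)
  have a4 : Γ.adj (P 3) (P 4) := hP.adj (by norm_num)
  have n02 : P 0 ≠ P 2 := W_ne hP (by omega) (by omega) (by omega)
  have n13 : P 1 ≠ P 3 := W_ne hP (by omega) (by omega) (by omega)
  have n42 : P 4 ≠ P 2 := W_ne hP (by omega) (by omega) (by omega)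
  obtain ⟨v, hv, v1, -⟩ := S.exists_Z_pow a1
  have v0 := S.Z_le_Q a1 hv
  have vq := S.Z_le_Q' a1 hv
  have key : ∀ t : {u // Γ.adj (P 1) u ∧ u ≠ P 2}, ∃ u ∈ Γ.Q G (P 2), u ∈ Γ.Q G (P 3) ∧ u • P 0 = t ∧
      ⁅u, v⁆ ∈ Z G (P 1) (P 2) := by
    rintro ⟨t, ht, nt⟩
    by_cases t0 : t = P 0
    · exact ⟨1, one_mem _, one_mem _, (one_smul _ _).trans t0.symm, by rw [commutatorElement_one_left]; exact one_mem _⟩
    obtain ⟨u, u2, u3, e⟩ := S.T2 a2 a3 n13 (Γ.symm a1) ht n02 nt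
    refine ⟨u, u2, u3, e, ?_⟩
    have u1 := Q_fix_nbr u2 (Γ.symm a2)
    have ha := Z_conj hv u
    rw [e, u1] at ha
    have aq := S.Z_le_Q' (Γ.symm ht) ha
    obtain ⟨q, q0, -, e'⟩ := S.T2 (Γ.symm a1) a0 (W_ne hP (by omega) (by omega) (by omega)) ht a2 t0 n02.symm
    have hb := Z_conj ha q
    rw [e', Q_fix_nbr q0 a1, Z_symm] at hb
    have bq := S.Z_le_Q a2 hb
    have c0 := S.Q_conj_inv (inv_mem (S.comm_Q q0 (Q_fix_nbr aq (Γ.symm a1)))) (Q_fix_nbr bq (Γ.symm a1))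
    have := H _ _ _ a1 a2 n02 ((q * (u * v * u⁻¹) * q⁻¹)⁻¹ * ⁅u, v⁆)
      (by convert mul_mem c0 (inv_mem v0) using 1; group) (mul_mem (inv_mem bq) (S.comm_Q' vq u1))
      (mul_mem (inv_mem (S.Z_le_Q' a2 hb)) (S.comm_Q u2 (Q_fix_nbr vq a2)))
    rwa [← inv_mul_eq_one.1 this]
  choose u u2 u3 u0 uz using key
  refine (S.surj_nbr (Γ.symm a3) (fun t => ⁅u t, v⁆ • P 4) (fun s t e => ?_) (fun t => ?_)
    (by rw [S.card_nbr a2, S.val_two hP (i := 3) (j := 1) (by norm_num)]) hw nw).elim fun t ht => ⟨_, uz t, ht⟩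
  · have e1 := S.n3_semi H a2 a3 n13 (mul_mem (inv_mem (uz t)) (uz s)) a4 n42 (by
      rw [mul_smul, show ⁅u s, v⁆ • P 4 = _ from e, inv_smul_smul])
    have c : Commute ((u t)⁻¹ * u s) v := by
      calc (u t)⁻¹ * u s * v = (u t)⁻¹ * ⁅u s, v⁆ * v * u s := by group
        _ = v * ((u t)⁻¹ * u s) := by rw [← inv_mul_eq_one.1 e1]; group
    have h3 := mul_mem (inv_mem (u3 t)) (u3 s)
    have := H _ _ _ (Γ.symm a3) (by simpa only [Q_fix_nbr vq a2] using S.smul v a3)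
      (fun q => v1 (S.n3_semi H a1 a2 n02 hv a3 n13.symm q.symm)) _ h3 (mul_mem (inv_mem (u2 t)) (u2 s))
      (S.Q_of_comm h3 c rfl)
    exact Subtype.ext (by rw [← u0, ← u0, inv_mul_eq_one.1 this])
  · have q2 := S.Z_le_Q' a2 (uz t)
    exact ⟨by simpa only [Q_fix_nbr q2 a3] using S.smul ⁅u t, v⁆ a4,
      fun q => n42 (by rwa [← Q_fix q2, smul_left_cancel_iff] at q)⟩

end aux

/-- Lemma N3 -/
theorem reg_of_QQQ (h : ∀ P, Γ.W P → ∀ g ∈ Γ.Q G (P 0), g ∈ Γ.Q G (P 1) → g ∈ Γ.Q G (P 2) → g = 1) (x : X) :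
    Γ.Reg G x := by
  have H : ∀ a b c, Γ.adj a b → Γ.adj b c → a ≠ c → ∀ g ∈ Γ.Q G a, g ∈ Γ.Q G b → g ∈ Γ.Q G c → g = 1 := by
    intro a b c h1 h2 ne
    obtain ⟨P, hP, rfl, rfl, rfl⟩ := exists_W3 h1 h2 ne 1
    exact h P hP
  refine S.reg_of_fix fun P hP _ g hg f => ?_
  refine S.mem_Q_of_trans (hP.adj (by norm_num)) hg (f (-1) le_rfl (by norm_num)) fun u hu ne => ?_
  obtain ⟨z, hz, e⟩ := S.n3_trans H (rev hP 3) hu ne
  have := S.mem_V_walk hP (i := 0) (j := 1) hg f (by norm_num) (by norm_num) (by norm_num) (by norm_num)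
  rw [V_symm] at this
  exact ⟨z, ((mem_Z.1 hz).2 g this).symm, e⟩

theorem reg_three (hn : n = 3) (x : X) : Γ.Reg G x := by
  refine S.reg_of_QQQ (fun P hP g h0 h1 h2 => ?_) x
  refine S.eq_one hP (i := -1) (j := 0) (fun k a b => ?_) (by omega) (by omega) h0 h1
  by_cases e : k ≤ 1
  · exact Q_fix_W hP h0 (by omega) (by omega)
  · exact Q_fix_W hP h2 (by omega) (by omega)

theorem n4_A (hn : n = 4) (h : ∀ x, Γ.K G 2 x = ⊥) (x : X) : Γ.Reg G x := by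
  refine S.reg_of_QQQ (fun P hP u u0 u1 u2 => ?_) x
  have a1 : Γ.adj (P 0) (P 1) := hP.adj (by norm_num)
  have a2 : Γ.adj (P 1) (P 2) := hP.adj (by norm_num)
  have a3 : Γ.adj (P 2) (P 3) := hP.adj (by norm_num)
  have a4 : Γ.adj (P 3) (P 4) := hP.adj (by norm_num)
  have n02 : P 0 ≠ P 2 := W_ne hP (by omega) (by omega) (by omega)
  have n13 : P 1 ≠ P 3 := W_ne hP (by omega) (by omega) (by omega)
  have one : ∀ x g, g ∈ Γ.Q G x → (∀ y, Γ.adj x y → g ∈ Γ.Q G y) → g = 1 := fun x g a b => by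
    rw [← Subgroup.mem_bot, ← h x]
    exact mem_K_succ.2 ⟨a, fun y hy => by rw [K_one]; exact b y hy⟩
  have nW : ¬Γ.Cq G (P 3) ≤ Γ.Q G (P 2) := fun q => by
    obtain ⟨z, hz, z1, -⟩ := S.exists_Z_pow a4
    have := S.ZK hP (i := 3) (j := 4) (k := 2) (m := 1) (Or.inl ⟨by norm_num, by norm_num⟩) hz (by omega)
      (Q_fix_nbr (q (S.Z_le_Cq a4 hz)) (Γ.symm a2))
    rw [h, Subgroup.mem_bot] at this
    exact z1 this
  refine one _ u u1 fun y hy => ?_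
  by_cases e : y = P 2
  · rwa [e]
  obtain ⟨w, hw, w2, ew⟩ := S.T a2 a3 n13 (fun g hg => Q_le_V' (mem_Cq.1 hg).1 a3) (fun v hv t ht => S.Cq_conj ht (V_fix' hv)) nW
    (Γ.symm a1) hy n02 e
  have r3 : ⁅w, u⁆ ∈ Γ.Cq G (P 3) := by
    have := mul_mem hw (S.Cq_conj (inv_mem hw) (Q_fix_nbr u2 a3))
    rwa [← mul_assoc, ← mul_assoc] at this
  refine S.Q_of_comm u0 (commutatorElement_eq_one_iff_commute.1 (one _ _ (S.comm_Q w2 (Q_fix u2)) fun y hy => ?_)).symm ew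
  by_cases e' : y = P 3
  · rw [e']
    exact r3.1
  rw [← K_one]
  exact S.K_all a3 (mem_Cq.1 r3).2 (Γ.symm a2) n13 (by rw [K_one]; exact S.comm_Q' u1 (Q_fix_nbr w2 (Γ.symm a2))) hy e'

theorem n4_odd (hn : n = 4) (hP : Γ.W P) (hC : Γ.K G 2 (P 4) ≠ ⊥) {w w' : X} (hw : Γ.adj (P 3) w) (hw' : Γ.adj (P 3) w')
    (nw : w ≠ P 4) (nw' : w' ≠ P 4) : ∃ k ∈ Γ.Q G (P 4), k ∈ Γ.Cq G (P 5) ∧ k ∈ Γ.Q G (P 6) ∧ k • w = w' := by
  have a4 : Γ.adj (P 3) (P 4) := hP.adj (by norm_num)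
  have a5 : Γ.adj (P 4) (P 5) := hP.adj (by norm_num)
  have a6 : Γ.adj (P 5) (P 6) := hP.adj (by norm_num)
  have n35 : P 3 ≠ P 5 := W_ne hP (by omega) (by omega) (by omega)
  have n64 : P 6 ≠ P 4 := W_ne hP (by omega) (by omega) (by omega)
  obtain ⟨A, hA⟩ : ∃ A : Subgroup G, ∀ k, k ∈ A ↔ k ∈ Γ.Cq G (P 5) ∧ ∀ y, Γ.adj (P 5) y → y ≠ P 4 →
      ∃ z ∈ Γ.K G 2 (P 4), z ∈ Γ.Cq G (P 5) ∧ z⁻¹ * k ∈ Γ.Q G y := by
    refine ⟨{ carrier := {k | k ∈ Γ.Cq G (P 5) ∧ ∀ y, Γ.adj (P 5) y → y ≠ P 4 →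
                ∃ z ∈ Γ.K G 2 (P 4), z ∈ Γ.Cq G (P 5) ∧ z⁻¹ * k ∈ Γ.Q G y}
              mul_mem' := fun {k l} a b => ⟨mul_mem a.1 b.1, fun y hy ne => ?_⟩
              one_mem' := ⟨one_mem _, fun y _ _ => ⟨1, one_mem _, one_mem _, by simpa using one_mem _⟩⟩
              inv_mem' := fun {k} a => ⟨inv_mem a.1, fun y hy ne => ?_⟩ }, fun _ => Iff.rfl⟩
    · obtain ⟨z, z1, z2, z3⟩ := a.2 y hy ne
      obtain ⟨t, t1, t2, t3⟩ := b.2 y hy ne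
      refine ⟨t * z, mul_mem t1 z1, mul_mem t2 z2, ?_⟩
      have := mul_mem z3 t3
      rwa [mul_assoc, ← mul_assoc k, ((mem_Cq.1 a.1).2 _ (inv_mem t2.1)).eq, mul_assoc, ← mul_assoc, ← mul_inv_rev] at this
    · obtain ⟨z, z1, z2, z3⟩ := a.2 y hy ne
      refine ⟨z⁻¹, inv_mem z1, inv_mem z2, ?_⟩
      have := inv_mem z3
      rwa [mul_inv_rev, ((mem_Cq.1 (inv_mem a.1)).2 _ (inv_mem (inv_mem z2.1))).eq] at this
  have nA : ¬A ≤ Γ.Q G (P 4) := fun q => by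
    obtain ⟨t, t6, tz, t1⟩ := S.exists_ZK (Γ.symm a6) two_pos (S.K_ne_two hP hC (j := 6) (by norm_num))
    have tc := S.Z_le_Cq' (Γ.symm a6) tz
    refine t1 (S.K_eq_one hP (by omega) t6 (j := 3) (Or.inr (by norm_num)) (Q_fix_nbr (q ((hA t).2 ⟨tc, ?_⟩)) (Γ.symm a4)))
    intro y hy ne
    by_cases e : y = P 6
    · exact ⟨1, one_mem _, one_mem _, by rw [e, inv_one, one_mul]; exact K_le_Q t6 two_pos⟩
    obtain ⟨g, hg, eg⟩ := S.T1 hy (Γ.symm a5) a6 ne.symm (Ne.symm e)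
    refine ⟨g⁻¹ * t * g, S.K_conj_inv t6 eg, ?_, ?_⟩
    · simpa using S.Cq_conj tc (Q_fix_nbr (inv_mem hg) (Γ.symm hy))
    · convert S.comm_Q (inv_mem hg) (Q_fix_nbr (inv_mem tc.1) hy) using 1
      group
  obtain ⟨k, hk, k4, e⟩ := S.T a4 a5 n35 (fun g hg => Q_le_V' ((hA g).1 hg).1.1 a5) (fun v hv t ht => by
    obtain ⟨t1, t2⟩ := (hA t).1 ht
    refine (hA _).2 ⟨S.Cq_conj t1 (V_fix' hv), fun y hy ne => ?_⟩
    obtain ⟨z, z1, z2, z3⟩ := t2 (v⁻¹ • y) (by simpa only [V_fix' (inv_mem hv)] using S.smul v⁻¹ hy)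
      (fun q => ne (by rw [← V_fix hv, ← q, smul_inv_smul]))
    refine ⟨v * z * v⁻¹, S.K_conj' z1 (V_fix hv), S.Cq_conj z2 (V_fix' hv), ?_⟩
    convert S.Q_conj' z3 (smul_inv_smul v y) using 1
    group) nA hw hw' nw nw'
  obtain ⟨k5, k6⟩ := (hA k).1 hk
  obtain ⟨z, z1, z2, z3⟩ := k6 _ a6 n64
  refine ⟨z⁻¹ * k, mul_mem (inv_mem (K_le_Q z1 two_pos)) k4, mul_mem (inv_mem z2) k5, z3, ?_⟩
  rw [mul_smul, e, Q_fix_nbr (inv_mem (K_Q hP z1 (j := 3) (by norm_num) (by norm_num))) hw']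

theorem n4_even (hn : n = 4) (hP : Γ.W P) (hC : Γ.K G 2 (P 4) ≠ ⊥) : Γ.Tr G P 2 := by
  intro u hu ne
  have a2 : Γ.adj (P 1) (P 2) := hP.adj (by norm_num)
  have a3 : Γ.adj (P 2) (P 3) := hP.adj (by norm_num)
  have a4 : Γ.adj (P 3) (P 4) := hP.adj (by norm_num)
  have a5 : Γ.adj (P 4) (P 5) := hP.adj (by norm_num)
  have a6 : Γ.adj (P 5) (P 6) := hP.adj (by norm_num)
  have n64 : P 6 ≠ P 4 := W_ne hP (by omega) (by omega) (by omega)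
  obtain ⟨e, e3, e4, ee⟩ := S.T2 a3 a4 (W_ne hP (by omega) (by omega) (by omega)) (Γ.symm a2) hu
    (W_ne hP (by omega) (by omega) (by omega)) ne
  have odd : ∀ w w', Γ.adj (P 5) w → Γ.adj (P 5) w' → w ≠ P 4 → w' ≠ P 4 →
      ∃ k ∈ Γ.Q G (P 4), k ∈ Γ.Cq G (P 3) ∧ k ∈ Γ.Q G (P 2) ∧ k • w = w' := fun w w' => S.n4_odd hn (rev hP 8) hC
  obtain ⟨k, k4, k3, k2, ek⟩ := odd (e • P 6) (P 6) (by simpa only [Q_fix_nbr e4 a5] using S.smul e a6) a6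
    (fun q => n64 (by rwa [← Q_fix e4, smul_left_cancel_iff] at q)) n64
  have q3 := mul_mem k3.1 e3
  have q4 := mul_mem k4 e4
  have q5 := S.mem_Q_of_trans (Γ.symm a5) (Q_le_V' q4 (Γ.symm a5)) (u := P 6) (by rw [mul_smul, ek]) fun w hw nw => by
    obtain ⟨l, -, l3, -, el⟩ := odd _ _ a6 hw n64 nw
    exact ⟨l, ((mem_Cq.1 l3).2 _ q3).symm, el⟩
  refine ⟨k * e, mem_U.2 fun j a b => ?_, by rw [mul_smul, show P (2 - 1) = P 1 from rfl, ee, Q_fix_nbr k2 hu]⟩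
  obtain rfl | rfl | rfl : j = 3 ∨ j = 4 ∨ j = 5 := by omega
  exacts [q3, q4, q5]

theorem n4_mou (hn : n = 4) {x : X} (h : Γ.K G 2 x ≠ ⊥) : Γ.Mou G := by
  intro P hP i
  have key : ∀ c k, Γ.Tr G (fun j => P (j + c)) k → i = k + c → Γ.Tr G P i := by
    rintro c k h rfl u hu ne
    obtain ⟨g, hg, e⟩ := h u hu (by simpa only [add_right_comm] using ne)
    exact ⟨g, mem_U.2 fun j a b => by simpa using mem_U.1 hg (j - c) (by omega) (by omega),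
      by simpa only [sub_add_eq_add_sub] using e⟩
  rcases S.or_of_inv (q := fun x => Γ.K G 2 x ≠ ⊥) (fun g x hx => S.K_ne_smul hx g) h (hP.adj (i := i) rfl) with a | a
  · exact key (i - 2) 2 (S.n4_even hn (hP.shift _) (S.K_ne_two hP a (by omega))) (by ring)
  · refine key (i - 3) 3 (fun u hu ne => ?_) (by ring)
    have hR := hP.shift (i - 3)
    obtain ⟨k, k4, k5, k6, e⟩ := S.n4_odd hn hR (S.K_ne_two hP a (by omega)) (adj' hR (j := 2) (by norm_num)) hu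
      (W_ne hR (by omega) (by omega) (by omega)) ne
    refine ⟨k, mem_U.2 fun j a b => ?_, e⟩
    obtain rfl | rfl | rfl : j = 4 ∨ j = 5 ∨ j = 6 := by omega
    exacts [k4, k5.1, k6]

end Pol.SP

end CfsgLib.FS
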