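import Cfsg.Agent.Lib.FS.Mou

/-!
# Package N4D: Moufang quadrangles (see `plans/FS.md`)
-/

set_option autoImplicit false
set_option linter.unusedSectionVars false

namespace CfsgLib.FS
open Cfsg MulAction
open scoped commutatorElement

namespace Pol.SP
variable {n : ℕ} {X : Type*} {Γ : Pol n X} {P : ℤ → X} {G : Type*} [Group G] [MulAction G X]
  {p : ℕ} (S : Γ.SP G p) [Finite G]
include S

theorem cenD_refl {m x : G} {c : ℤ} (hP : Γ.W P) (f : ∀ j, m • P j = P (c - j)) :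
    (∀ d ∈ Γ.D G P, Commute d (m * x * m⁻¹)) ↔ ∀ d ∈ Γ.D G P, Commute d x := by
  refine ⟨fun h d hd => ?_, fun h d hd => ?_⟩
  · have := (h _ (S.D_conj_refl hP f hd).1).eq
    calc d * x = m⁻¹ * (m * d * m⁻¹ * (m * x * m⁻¹)) * m := by group
      _ = x * d := by rw [this]; group
  · have := (h _ (S.D_conj_refl hP f hd).2).eq
    calc d * (m * x * m⁻¹) = m * (m⁻¹ * d * m * x) * m⁻¹ := by group
      _ = m * x * m⁻¹ * d := by rw [this]; group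

theorem n4_R (hn : n = 4) (hM : Γ.Mou G) (hP : Γ.Apt P) {x y : G} (hy : y ∈ Γ.U G P 1) (hx : x ∈ Γ.U G P 3)
    (cx : ∀ d ∈ Γ.D G P, Commute d x) (nc : ¬Commute y x) : ∀ d ∈ Γ.D G P, Commute d y := by
  subst hn
  obtain ⟨m, p, hp, q, hq, em, f⟩ := S.exists_Mu hM hP hy fun e => nc (by rw [e]; exact Commute.one_left x)
  have hx' := (S.U_conj_refl f hx rfl).1
  rw [hP.U_eq (k := 3) (by norm_num)] at hx'
  have cx' := (S.cenD_refl hP.1 f).2 cx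
  have hb : ⁅x⁻¹, q⁆ ∈ Γ.U G P 4 := mem_U.2 fun j a b =>
    S.comm_U_Q hP.1 (inv_mem hx) hq (by omega) (by omega) (by omega) (by omega)
  have hb' : ⁅(m * x * m⁻¹)⁻¹, p⁻¹⁆ ∈ Γ.U G P 4 := mem_U.2 fun j a b =>
    S.comm_U_Q hP.1 (inv_mem hx') (inv_mem hp) (by omega) (by omega) (by omega) (by omega)
  have e : y * x * ⁅x⁻¹, q⁆ * y⁻¹ = m * x * m⁻¹ * ⁅(m * x * m⁻¹)⁻¹, p⁻¹⁆ := by rw [em]; group
  generalize ⁅x⁻¹, q⁆ = b at hb e
  generalize ⁅(m * x * m⁻¹)⁻¹, p⁻¹⁆ = b' at hb' e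
  generalize m * x * m⁻¹ = x' at hx' cx' e
  have a3 : Γ.adj (P 4) (P 3) := adj' hP.1 (by norm_num)
  have mv : ∀ b ∈ Γ.U G P 4, Γ.adj (P 4) (b • P 3) := fun b hb => by
    simpa only [U_fix hP.1 hb (j := 4) le_rfl (by omega)] using S.smul b a3
  have bb : b⁻¹ * b' = 1 := S.U_eq_one hP.1 (mul_mem (inv_mem hb) hb') (j := 3) (Or.inl (by norm_num)) (by
    have := congrArg (· • P 3) e
    simp only [mul_smul] at this
    rw [U_fix hP.1 (inv_mem hy) (by omega) (by omega), Q_fix_nbr (U_Q hx (by omega) (by omega)) (mv b hb),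
      Q_fix_nbr (U_Q hy (by omega) (by omega)) (mv b hb), Q_fix_nbr (U_Q hx' (by omega) (by omega)) (mv b' hb')] at this
    rw [mul_smul, ← this, inv_smul_smul])
  obtain rfl := inv_mul_eq_one.1 bb
  have hc : ⁅y, x⁻¹⁆ ∈ Γ.U G P 2 := mem_U.2 fun j a b =>
    S.comm_U_Q hP.1 hy (inv_mem hx) (by omega) (by omega) (by omega) (by omega)
  have e2 : ⁅b, y⁆ = x'⁻¹ * x * ⁅y, x⁻¹⁆⁻¹ := by
    calc _ = x'⁻¹ * (x' * b) * y * b⁻¹ * y⁻¹ := by group
      _ = _ := by rw [← e]; group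
  have hxx := mul_mem (inv_mem hx') hx
  by_cases b1 : b = 1
  · rw [b1, commutatorElement_one_left, eq_comm, mul_inv_eq_one] at e2
    have := S.U_eq_one hP.1 hc (j := 7) (Or.inr (by norm_num)) (by rw [← e2]; exact U_fix hP.1 hxx (by omega) (by omega))
    exact (nc (by simpa using (commutatorElement_eq_one_iff_commute.1 this).inv_right)).elim
  obtain ⟨k, hk⟩ := S.exists_Mu hM hP hb b1
  have h1 := (S.mu_right hP hb hk hy (j := 3) ⟨by norm_num, by norm_num⟩).2 (P 2) (adj' hP.1 (by norm_num))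
  obtain ⟨-, -, -, -, -, fk⟩ := hk
  have h2 := (S.U_conj_refl fk hy (k := 3) (by norm_num)).1
  have h3 := S.U_eq_one hP.1 (mul_mem (inv_mem hxx) h2) (j := 2) (Or.inl (by norm_num)) (by
    rw [mul_smul, ← h1, e2, mul_smul _ _⁻¹, U_fix hP.1 (inv_mem hc) le_rfl (by omega), inv_smul_smul])
  rw [← S.cenD_refl hP.1 fk, ← inv_mul_eq_one.1 h3]
  exact fun d hd => (cx' d hd).inv_right.mul_right (cx d hd)

theorem n4_D (hn : n = 4) (hM : Γ.Mou G) (hP : Γ.Apt P) : ∀ d ∈ Γ.D G P, ∀ u ∈ Γ.U G P 1, Commute d u := by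
  by_contra h
  obtain ⟨y, hy, z, hz, d, hd, z1, cz, e⟩ := S.exists_coset hP.1 h
  have ny : ¬∀ d ∈ Γ.D G P, Commute d y := fun c => z1 (by
    rw [(c d hd).eq, mul_inv_cancel_right] at e
    exact right_eq_mul.1 e)
  have R' : ∀ u ∈ Γ.U G P 3, (¬∀ d ∈ Γ.D G P, Commute d u) → Commute u z := fun u hu nu => by
    by_contra c
    have := S.n4_R hn hM (hP.rev 8) (x := z) (y := u) (by rwa [U_rev, show 8 - 1 - (n : ℤ) = 3 by omega])
      (by rwa [U_rev, show 8 - 3 - (n : ℤ) = 1 by omega]) (by rwa [S.D_rev hP.1]) c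
    rw [S.D_rev hP.1] at this
    exact nu this
  subst hn
  obtain ⟨v, hv, v1, cv⟩ := S.exists_cen_D hM hP.1 4
  have z3 : ∀ u ∈ Γ.U G P 3, Commute u z := fun u hu => by
    obtain ⟨m, -, -, -, -, -, f⟩ := S.exists_Mu hM hP hv v1
    have h3 := (S.U_conj_refl f hy (k := 3) (by norm_num)).1
    have n3 := mt (S.cenD_refl hP.1 f).1 ny
    by_cases c : ∀ d ∈ Γ.D G P, Commute d u
    · have := (R' _ (mul_mem hu h3) fun q => n3 fun d hd => by
        simpa using (c d hd).inv_right.mul_right (q d hd)).mul_left (R' _ h3 n3).inv_left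
      rwa [mul_inv_cancel_right] at this
    · exact R' u hu c
  obtain ⟨m, hm⟩ := S.exists_Mu hM hP hy fun e => ny fun d _ => by rw [e]; exact Commute.one_right d
  obtain ⟨-, h1⟩ := S.mu_left hP hy hm hv (j := 6) ⟨by norm_num, by norm_num⟩
  obtain ⟨-, -, -, -, -, f⟩ := hm
  have h2 := (S.U_conj_refl f hv rfl).1
  rw [hP.U_eq (k := 2) (by norm_num)] at h2
  have c2 := (S.cenD_refl hP.1 f).2 cv
  generalize m * v * m⁻¹ = a at h1 h2 c2
  have q45 : ∀ j : ℤ, 4 ≤ j → j ≤ 5 → a⁻¹ * ⁅y, v⁆ ∈ Γ.Q G (P j) := fun j b c =>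
    mul_mem (inv_mem (U_Q h2 (by omega) (by omega))) (S.comm_U_Q hP.1 hy hv (by omega) b (by omega) (by omega))
  have h3 : a⁻¹ * ⁅y, v⁆ ∈ Γ.U G P 3 := mem_U.2 fun j b c => by
    by_cases q : j = 6
    · have a5 : Γ.adj (P 6) (P 5) := adj' hP.1 (by norm_num)
      rw [q]
      exact S.mem_Q_of_fix a5 (Q_le_V' (q45 5 (by omega) le_rfl) a5) fun w hw => by rw [mul_smul, h1 w hw, inv_smul_smul]
    · exact q45 j (by omega) (by omega)
  have c3 : Commute ⁅y, v⁆ z := by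
    simpa using (S.U_comm hP.1 hz h2 (by norm_num)).symm.mul_left (z3 _ h3)
  have e2 : ⁅z, v⁆ = (a⁻¹ * ⁅y, v⁆)⁻¹ * (d * (a⁻¹ * ⁅y, v⁆) * d⁻¹) := by
    have e3 : d * ⁅y, v⁆ * d⁻¹ = ⁅y, v⁆ * ⁅z, v⁆ := by
      calc _ = d * y * d⁻¹ * (d * v) * d⁻¹ * (d * y * d⁻¹)⁻¹ * (d * v⁻¹) * d⁻¹ := by group
        _ = z * ⁅y, v⁆ * z⁻¹ * ⁅z, v⁆ := by rw [e, (cv d hd).eq, (cv d hd).inv_right.eq]; group
        _ = _ := by rw [← c3.eq]; group
    calc _ = ⁅y, v⁆⁻¹ * a * (a⁻¹ * d) * d⁻¹ * (⁅y, v⁆ * ⁅z, v⁆) := by group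
      _ = _ := by rw [← e3, ← (c2 d hd).inv_right.eq]; group
  have h4 : ⁅z, v⁆ ∈ Γ.U G P 3 := by
    rw [e2]
    exact mul_mem (inv_mem h3) (S.U_conj_fix (mem_D.1 hd).2 h3)
  obtain ⟨k, hk⟩ := S.exists_Mu hM hP hz z1
  have h5 := (S.mu_left hP hz hk hv (j := 6) ⟨by norm_num, by norm_num⟩).2 (P 7) (hP.1.adj (by norm_num))
  obtain ⟨-, -, -, -, -, fk⟩ := hk
  have h6 := (S.U_conj_refl fk hv rfl).1
  rw [hP.U_eq (k := 2) (by norm_num)] at h6
  have := S.U_eq_one hP.1 h6 (j := 7) (Or.inr (by norm_num)) (by rw [← h5]; exact U_fix hP.1 h4 (by omega) (by omega))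
  exact v1 (by simpa using this)

end Pol.SP

end CfsgLib.FS
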