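import Cfsg.Agent.Lib.FS.Base3

/-!
# Package O8: octagons (see `plans/FS.md`)
-/

set_option autoImplicit false
set_option linter.unusedSectionVars false

namespace CfsgLib.FS
open Cfsg MulAction
open scoped commutatorElement

namespace Pol.SP
variable {n : ℕ} {X : Type*} {Γ : Pol n X} {P : ℤ → X} {G : Type*} [Group G] [MulAction G X]
  {p : ℕ} (S : Γ.SP G p) [Finite G] {x y a b c u u' : X} {e e' g z t : G} {i j k l : ℤ}
include S

theorem o_two (h : IsSquare (2 * Γ.val x * Γ.val y)) : p = 2 := by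
  obtain ⟨e, -, he⟩ := S.val_pow x
  obtain ⟨f, -, hf⟩ := S.val_pow y
  obtain ⟨r, hr⟩ := h
  rw [he, hf, mul_assoc, ← pow_add] at hr
  obtain ⟨s, rfl⟩ : 2 ∣ r := (Nat.prime_two.dvd_mul.1 ⟨_, hr.symm⟩).elim id id
  have : 2 ∣ p ^ (e + f) := ⟨s * s, by nlinarith⟩
  exact ((Nat.prime_dvd_prime_iff_eq Nat.prime_two S.prime).1 (Nat.prime_two.dvd_of_dvd_pow this)).symm

/-- the commutator of elements that fix balls of radius three at distance three -/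
theorem o_comm (hn : n = 8) (hP : Γ.W P) (e1 : j = i + 3) (hg : g ∈ Γ.K G 3 (P i)) (hz : z ∈ Γ.K G 3 (P j)) :
    Commute g z := by
  have h1 := S.comm_K hg (K_fix hP hz (by norm_num) (j := i) (by omega) (by omega))
  have h2 := S.comm_K' hz (K_fix hP hg (by norm_num) (j := j) (by omega) (by omega))
  refine commutatorElement_eq_one_iff_commute.1 (S.eq_one hP (i := i - 3) (j := i) (fun k a b => ?_) (by omega)
    (by omega) (K_Q hP h1 (by omega) (by omega)) (K_Q hP h1 (by omega) (by omega)))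
  by_cases q : k ≤ i
  · exact K_fix hP h1 (by norm_num) (by omega) (by omega)
  · exact K_fix hP h2 (by norm_num) (by omega) (by omega)

theorem o_cen_or (hn : n = 8) (h : Γ.adj x y) : Γ.K G 4 x ≠ ⊥ ∨ Γ.K G 4 y ≠ ⊥ := by
  by_contra q
  push Not at q
  obtain ⟨P, hP, rfl, rfl⟩ := exists_W2 h 0
  have a1 : Γ.adj (P 0) (P 1) := h
  have a5 : Γ.adj (P 4) (P 5) := hP.adj (by norm_num)
  obtain ⟨z, hz, z1, -⟩ := S.exists_Z_pow a5
  obtain ⟨t, ht, t1, -⟩ := S.exists_Z_pow a1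
  have k4 := S.Z_le_K a5 hz (k := 3) (by omega)
  have c := S.o_comm hn hP (by norm_num) (S.Z_le_K' a1 ht (k := 3) (by omega)) k4
  have f1 := K_fix hP k4 (by norm_num) (j := 1) (by norm_num) (by norm_num)
  have ne : z • P 0 ≠ P 0 := fun f => S.K_ne_two hP (fun e => z1 (by
    have := S.ZK hP (i := 4) (j := 5) (k := 4) (m := 0) (Or.inl ⟨by norm_num, by norm_num⟩) hz (by omega) f
    rwa [e, Subgroup.mem_bot] at this)) (j := 0) (by norm_num) q.1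
  obtain ⟨R, hR, r1, r2⟩ := ext_right hP (i := 1) (by simpa only [f1] using S.smul z (Γ.symm a1)) ne
  have h1 := Z_conj ht z
  rw [← c.eq, mul_inv_cancel_right, f1, Z_symm, ← r2, ← r1 1 le_rfl] at h1
  have := S.ZK hR (i := 1) (k := 4) (m := -3) (Or.inl ⟨rfl, by norm_num⟩) h1 (by omega) (by
    rw [r1 _ (by norm_num)]
    exact K_fix hP (S.Z_le_K a1 ht (k := 3) (by omega)) (by norm_num) (by norm_num) (by norm_num))
  rw [r1 1 le_rfl, show Γ.K G 4 (P 1) = ⊥ from q.2, Subgroup.mem_bot] at this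
  exact t1 this

theorem o_b (hn : n = 8) (hC : Γ.K G 4 a ≠ ⊥) (hg : g ∈ Γ.K G 3 a) : g ∈ Γ.K G 4 a := by
  obtain ⟨y, hy, -⟩ := Γ.thick a a a
  refine S.mem_K_of_fix hy (Q_le_V (K_le_Q hg (by norm_num)) hy) ?_
  rintro P hP rfl j h1 h2
  by_cases q : j ≤ 3
  · exact K_fix hP hg (by norm_num) (by omega) (by omega)
  obtain rfl : j = 4 := by omega
  by_contra ne
  obtain ⟨c, hc, c1⟩ := (Subgroup.bot_or_exists_ne_one _).resolve_left (S.K_ne_two hP hC (j := 4) (by norm_num))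
  have a4 : Γ.adj (P 3) (P 4) := hP.adj (by norm_num)
  have cm := S.o_comm hn hP (by norm_num) hg (K_nbr hc (Γ.symm a4))
  exact c1 (S.K_inf (by omega) a4
    (by simpa only [K_fix hP hg (by norm_num) (j := 3) (by norm_num) (by norm_num)] using S.smul g a4) (Ne.symm ne) hc
    (S.K_of_comm hc cm.symm rfl))

theorem o_ZC (hn : n = 8) (h : Γ.adj a b) (hC : Γ.K G 4 a ≠ ⊥) (hz : z ∈ Z G a b) : z ∈ Γ.K G 4 a :=
  S.o_b hn hC (S.Z_le_K h hz (by omega))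

theorem o_c (hn : n = 8) (hP : Γ.W P) (hC : Γ.K G 4 (P 8) ≠ ⊥) (h9 : g ∈ Γ.K G 3 (P 9)) (h6 : g ∈ Γ.Q G (P 6))
    (hc : ∀ q ∈ Γ.Q G (P 9), Commute g q) : g ∈ Γ.K G 4 (P 8) := by
  have a7 : Γ.adj (P 6) (P 7) := hP.adj (by norm_num)
  have a8 : Γ.adj (P 7) (P 8) := hP.adj (by norm_num)
  have a9 : Γ.adj (P 8) (P 9) := hP.adj (by norm_num)
  have n79 : P 7 ≠ P 9 := W_ne hP (by omega) (by omega) (by omega)
  have q8 : g ∈ Γ.Q G (P 8) := K_Q hP h9 (by norm_num) (by norm_num)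
  have k7 : g ∈ Γ.K G 2 (P 7) := mem_K_succ.2 ⟨K_Q hP h9 (by norm_num) (by norm_num), fun y hy => by
    rw [K_one]
    by_cases q : y = P 8
    · rwa [q]
    obtain ⟨r, -, r9, e⟩ := S.T2 a8 a9 n79 (Γ.symm a7) hy (W_ne hP (by omega) (by omega) (by omega)) q
    exact S.Q_of_comm h6 (hc r r9) e⟩
  refine S.o_b hn hC (mem_K_succ.2 ⟨q8, fun y hy => ?_⟩)
  by_cases q : y = P 9
  · rw [q]
    exact K_mono h9 (by norm_num)
  · exact S.K_all a9 hc (Γ.symm a8) n79 k7 hy q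

theorem o_free (hn : n = 8) (hP : Γ.W P) (hz : z ∈ Γ.K G 4 (P 10)) (z1 : z ≠ 1) (u : X) (hu : Γ.adj (P 6) u)
    (f : z • u = u) : u = P 7 := by
  by_contra ne
  obtain ⟨R, hR, r1, r2⟩ := ext_left hP hu ne
  exact z1 (S.K_eq_one hR (k := 4) (by omega) (i := 10) (by rwa [r1 _ (by norm_num)]) (j := 6 - 1) (Or.inr (by norm_num))
    (by rwa [r2]))

theorem o_d (hn : n = 8) (hI : ∀ x, Γ.CI G x) (h1 : Γ.adj a b) (h2 : Γ.adj b c) (ne : a ≠ c) (hC : Γ.K G 4 a ≠ ⊥)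
    (hz : z ∈ Z G c b) (zz : z * z = 1) (hg : g ∈ V G a b) : ⁅g, z⁆ ∈ Γ.K G 4 a := by
  by_cases z1 : z = 1
  · rw [z1, commutatorElement_one_right]
    exact one_mem _
  obtain ⟨P, hP, p8, p9, p10⟩ := exists_W3 h1 h2 ne 9
  have p8 : P 8 = a := p8
  have p10 : P 10 = c := p10
  subst p8 p9 p10
  have a7 : Γ.adj (P 6) (P 7) := hP.adj (by norm_num)
  have a8 : Γ.adj (P 7) (P 8) := hP.adj (by norm_num)
  have n79 : P 7 ≠ P 9 := W_ne hP (by omega) (by omega) (by omega)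
  have n68 : P 6 ≠ P 8 := W_ne hP (by omega) (by omega) (by omega)
  have zc := S.o_ZC hn (Γ.symm h2) (S.K_ne_two hP hC (j := 10) (by norm_num)) hz
  obtain ⟨q, q9, e1⟩ := S.T1 h1 (u := g • P 7) (by simpa only [V_fix hg] using S.smul g (Γ.symm a8)) (Γ.symm a8)
    (fun q => n79 (by rwa [← V_fix' hg, smul_left_cancel_iff] at q)) n79
  have v1 := mul_mem (Q_le_V' q9 h1) hg
  rw [← mul_smul] at e1
  obtain ⟨r, r8, r9, e2⟩ := S.T2 a8 h1 n79 (u := (q * g) • P 6) (by simpa only [e1] using S.smul (q * g) (Γ.symm a7))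
    (Γ.symm a7) (fun q => n68 (by rwa [← V_fix v1, smul_left_cancel_iff] at q)) n68
  have v2 := mul_mem (Q_le_V' r9 h1) v1
  have v3 : r * (q * g) ∈ V G (P 6) (P 7) := S.mem_V_walk hP (i := 8) (j := 6) (lo := 6) (hi := 9) v2 (fun k a b => by
    obtain rfl | rfl | rfl | rfl : k = 6 ∨ k = 7 ∨ k = 8 ∨ k = 9 := by omega
    exacts [by rw [mul_smul, e2], by rw [mul_smul, e1, Q_fix_nbr r8 (Γ.symm a8)], V_fix v2, V_fix' v2])
    (by norm_num) (by norm_num) (by norm_num) (by norm_num)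
  have cz : ∀ t ∈ Γ.Q G (P 9), Commute (g * z * g⁻¹) t := fun t ht => by
    have := Z_conj hz g
    rw [V_fix' hg] at this
    exact Z_comm_Q' this (by simpa only [V_fix' hg] using S.smul g (Γ.symm h2)) ht
  have q6 := inv_mem (hI _ _ a7 z (Q_le_V' (K_Q hP zc (by norm_num) (by norm_num)) a7) (by rw [zz]; exact one_mem _)
    (S.o_free hn hP zc z1) _ v3)
  have e3 : (z * (r * (q * g)) * z⁻¹ * (r * (q * g))⁻¹)⁻¹ = ⁅g, z⁆ := by
    calc _ = r * q * (g * z * g⁻¹) * (r * q)⁻¹ * z⁻¹ := by group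
      _ = _ := by rw [← (cz _ (mul_mem r9 q9)).eq]; group
  rw [e3] at q6
  exact S.o_c hn hP hC (S.comm_K' (K_nbr zc (Γ.symm h2)) (V_fix' hg)) q6 fun t ht =>
    (cz t ht).mul_left (Z_comm_Q' hz (Γ.symm h2) ht).inv_left

theorem o_d' (hn : n = 8) (hI : ∀ x, Γ.CI G x) (h1 : Γ.adj b a) (h2 : Γ.adj b c) (ne : a ≠ c) (hC : Γ.K G 4 a ≠ ⊥)
    (hx : Γ.adj b x) (na : x ≠ a) (nc : x ≠ c) (ht : t ∈ Z G x b) (tt : t * t = 1) :
    ∃ y ∈ Z G a b, y * y = 1 ∧ ∃ z ∈ Z G c b, z * z = 1 ∧ t = y * z := by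
  have key : ∀ a c, Γ.adj b a → Γ.adj b c → a ≠ c → Γ.K G 4 a ≠ ⊥ → x ≠ a →
      ∃ k ∈ Γ.K G 4 a, ∃ z ∈ Z G c b, z * z = 1 ∧ t = k * z := fun a c h1 h2 ne hC na => by
    obtain ⟨g, hg, e⟩ := S.trans1 h1 h2 hx ne.symm na
    have hz := Z_conj ht g⁻¹
    rw [V_fix (inv_mem hg), ← e, inv_smul_smul] at hz
    have zz : g⁻¹ * t * g⁻¹⁻¹ * (g⁻¹ * t * g⁻¹⁻¹) = 1 := by
      calc _ = g⁻¹ * (t * t) * g := by group
        _ = 1 := by rw [tt]; group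
    exact ⟨_, S.o_d hn hI (Γ.symm h1) h2 ne hC hz zz (by rwa [V_symm]), _, hz, zz, by
      rw [commutatorElement_def]; group⟩
  have hC' := S.K_ne_nbr hC h1 h2
  obtain ⟨k, hk, z, hz, zz, e⟩ := key a c h1 h2 ne hC na
  obtain ⟨k', hk', y, hy, yy, e'⟩ := key c a h2 h1 ne.symm hC' nc
  have zc := S.o_ZC hn (Γ.symm h2) hC' hz
  have cm := (Z_comm_Q' hy (Γ.symm h1) (K_le_Q (K_nbr zc (Γ.symm h2)) (by norm_num))).inv_right.eq
  have e1 : k * y⁻¹ = k' * z⁻¹ := by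
    calc _ = k * z * z⁻¹ * y⁻¹ := by group
      _ = k' * (y * z⁻¹) * y⁻¹ := by rw [← e, e']; group
      _ = _ := by rw [cm]; group
  have := S.K_inf (k := 4) (by omega) h1 h2 ne (mul_mem hk (inv_mem (S.o_ZC hn (Γ.symm h1) hC hy)))
    (by rw [e1]; exact mul_mem hk' (inv_mem zc))
  exact ⟨y, hy, yy, z, hz, zz, by rw [e, mul_inv_eq_one.1 this]⟩

theorem o_Y (hp : p = 2) (h : Γ.adj a b) : ∃ z ∈ Z G a b, z ≠ 1 ∧ z * z = 1 := by
  obtain ⟨z, hz, z1, e⟩ := S.exists_Z_pow h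
  exact ⟨z, hz, z1, by rwa [hp, pow_two] at e⟩

theorem o_reg (hn : n = 8) (hp : p = 2) (hI : ∀ x, Γ.CI G x) (h : Γ.adj x y) (hC : Γ.K G 4 x ≠ ⊥) : Γ.Reg G y := by
  intro a c h1 h2 ne g hg f
  have hg' : g ∈ V G a y := by rwa [V_symm]
  have hg'' : g ∈ V G c y := by rw [V_symm]; exact S.mem_V_shift (Γ.symm h1) h2 hg' f
  refine S.mem_Q_of_fix h1 hg fun u hu => ?_
  by_cases na : u = a
  · rw [na, V_fix' hg]
  by_cases nc : u = c
  · rw [nc, f]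
  by_contra q
  obtain ⟨t, ht, t1, tt⟩ := S.o_Y hp (Γ.symm hu)
  obtain ⟨r, hr, -, z, hz, -, e⟩ := S.o_d' hn hI h1 h2 ne (S.K_ne_nbr hC (Γ.symm h) h1) hu na nc ht tt
  have tc := S.o_ZC hn (Γ.symm hu) (S.K_ne_nbr hC (Γ.symm h) hu) ht
  have cm : Commute t g := by
    rw [e]
    exact ((mem_Z.1 hr).2 g hg').mul_left ((mem_Z.1 hz).2 g hg'')
  exact t1 (S.K_inf (by omega) hu (by simpa only [V_fix hg] using S.smul g hu) (Ne.symm q) tc (S.K_of_comm tc cm rfl))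

theorem o_val (hn : n = 8) (hp : p = 2) (hI : ∀ x, Γ.CI G x) (h : Γ.adj x y) (hC : Γ.K G 4 x ≠ ⊥) (hU : Γ.UI G x) :
    Γ.val y = 2 := by
  obtain ⟨P, hP, rfl, rfl⟩ := exists_W2 h 6
  have a6 : Γ.adj (P 6) (P 5) := adj' hP (by norm_num)
  have a7 : Γ.adj (P 6) (P 7) := h
  have a9 : Γ.adj (P 9) (P 8) := adj' hP (by norm_num)
  have a10 : Γ.adj (P 9) (P 10) := hP.adj (by norm_num)
  have ne : P 8 ≠ P 10 := W_ne hP (by omega) (by omega) (by omega)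
  have C8 := S.K_ne_two hP hC (j := 8) (by norm_num)
  have C10 := S.K_ne_two hP hC (j := 10) (by norm_num)
  have u10 : ∀ z ∈ Z G (P 10) (P 9), z ≠ 1 → z * z = 1 → ∀ t ∈ Z G (P 10) (P 9), t ≠ 1 → t * t = 1 → z = t := by
    intro z hz z1 zz t ht t1 tt
    have zc := S.o_ZC hn (Γ.symm a10) C10 hz
    have tc := S.o_ZC hn (Γ.symm a10) C10 ht
    have := hU _ a7 z (Q_le_V' (K_Q hP zc (by norm_num) (by norm_num)) a7) t
      (Q_le_V' (K_Q hP tc (by norm_num) (by norm_num)) a7) (by rw [zz]; exact one_mem _) (by rw [tt]; exact one_mem _)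
      (S.o_free hn hP zc z1) (S.o_free hn hP tc t1)
    exact inv_mul_eq_one.1 (S.K_eq_one hP (by omega) (mul_mem (inv_mem zc) tc) (j := 5) (Or.inr (by norm_num))
      (Q_fix_nbr this a6))
  have u8 : ∀ z ∈ Z G (P 8) (P 9), z ≠ 1 → z * z = 1 → ∀ t ∈ Z G (P 8) (P 9), t ≠ 1 → t * t = 1 → z = t := by
    intro z hz z1 zz t ht t1 tt
    obtain ⟨g, g1, g2⟩ := S.exists_nbr a9 a10
    have k : ∀ z ∈ Z G (P 8) (P 9), z ≠ 1 → z * z = 1 →
        g * z * g⁻¹ ∈ Z G (P 10) (P 9) ∧ g * z * g⁻¹ ≠ 1 ∧ g * z * g⁻¹ * (g * z * g⁻¹) = 1 := fun z hz z1 zz =>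
      ⟨by simpa only [g1, g2] using Z_conj hz g, by simpa using z1, by
        calc _ = g * (z * z) * g⁻¹ := by group
          _ = 1 := by rw [zz]; group⟩
    obtain ⟨b1, b2, b3⟩ := k z hz z1 zz
    obtain ⟨c1, c2, c3⟩ := k t ht t1 tt
    simpa using u10 _ b1 b2 b3 _ c1 c2 c3
  have key : ∀ u, Γ.adj (P 9) u → u ≠ P 8 → u ≠ P 10 → ∃ y ∈ Z G (P 8) (P 9), y ≠ 1 ∧ y * y = 1 ∧
      ∃ z ∈ Z G (P 10) (P 9), z ≠ 1 ∧ z * z = 1 ∧ y * z ≠ 1 ∧ y * z ∈ Γ.K G 4 u := fun u hu na nc => by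
    obtain ⟨t, ht, t1, tt⟩ := S.o_Y hp (Γ.symm hu)
    obtain ⟨r, hr, rr, z, hz, zz, rfl⟩ := S.o_d' hn hI a9 a10 ne C8 hu na nc ht tt
    have tc := S.o_ZC hn (Γ.symm hu) (S.K_ne_nbr C8 a9 hu) ht
    refine ⟨r, hr, fun q => t1 (S.K_inf (by omega) hu a10 nc tc ?_), rr, z, hz,
      fun q => t1 (S.K_inf (by omega) hu a9 na tc ?_), zz, t1, tc⟩
    · rw [q, one_mul]
      exact S.o_ZC hn (Γ.symm a10) C10 hz
    · rw [q, mul_one]
      exact S.o_ZC hn (Γ.symm a9) C8 hr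
  refine le_antisymm ?_ (S.two_le_val _)
  rw [S.val_two hP (j := 9) (by norm_num), ← S.card_nbr a9]
  refine (Nat.card_le_card_of_injective (fun u : {u // Γ.adj (P 9) u ∧ u ≠ P 8} => (u : X) = P 10) ?_).trans (by simp)
  rintro ⟨u, hu, na⟩ ⟨w, hw, na'⟩ e
  simp only [eq_iff_iff] at e
  refine Subtype.ext ?_
  by_cases nc : u = P 10
  · exact nc.trans (e.1 nc).symm
  by_contra q
  obtain ⟨y, b1, b2, b3, z, b4, b5, b6, b7, b8⟩ := key u hu na nc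
  obtain ⟨y', c1, c2, c3, z', c4, c5, c6, -, c8⟩ := key w hw na' (mt e.2 nc)
  rw [← u8 y b1 b2 b3 y' c1 c2 c3, ← u10 z b4 b5 b6 z' c4 c5 c6] at c8
  exact b7 (S.K_inf (by omega) hu hw q b8 c8)

end Pol.SP

end CfsgLib.FS
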