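import Cfsg.Agent.Lib.FS.Defs

/-!
# Package POL: walks in a generalized polygon (see `plans/FS.md`)
-/

set_option autoImplicit false
set_option maxHeartbeats 400000

namespace CfsgLib.FS
open Cfsg MulAction

namespace Wk
variable {X : Type*} {r : X → X → Prop} {P R : ℤ → X}

theorem shift (h : Wk r P) (c : ℤ) : Wk r fun j => P (j + c) := ⟨fun i => by
    have := h.1 (i + c)
    rwa [show i + c + 1 = i + 1 + c by ring] at this, fun i => by
    have := h.2 (i + c)
    rwa [show i + c + 2 = i + 2 + c by ring] at this⟩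

theorem adj (h : Wk r P) {i j : ℤ} (e : j = i + 1) : r (P i) (P j) := e ▸ h.1 i

theorem ne (h : Wk r P) {i j : ℤ} (e : j = i + 2) : P i ≠ P j := e ▸ h.2 i

theorem glue (h : Wk r P) (h' : Wk r R) {i : ℤ} (e : P i = R i) (ne : P (i - 1) ≠ R (i + 1)) :
    Wk r fun j => if j ≤ i then P j else R j := by
  refine ⟨fun j => ?_, fun j => ?_⟩
  · by_cases h1 : j + 1 ≤ i
    · simp only [if_pos h1, if_pos (show j ≤ i by omega)]; exact h.1 j
    · by_cases h2 : j ≤ i
      · obtain rfl : j = i := by omega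
        simp only [if_neg h1, if_pos h2, e]; exact h'.1 j
      · simp only [if_neg h1, if_neg h2]; exact h'.1 j
  · by_cases h1 : j + 2 ≤ i
    · simp only [if_pos h1, if_pos (show j ≤ i by omega)]; exact h.2 j
    · by_cases h2 : j ≤ i
      · simp only [if_neg h1, if_pos h2]
        by_cases h3 : j = i
        · subst h3; rw [e]; exact h'.2 j
        · obtain rfl : j = i - 1 := by omega
          rwa [show i - 1 + 2 = i + 1 by ring]
      · simp only [if_neg h1, if_neg h2]; exact h'.2 j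

end Wk

namespace Pol
variable {n : ℕ} {X : Type*} {Γ : Pol n X} {P R : ℤ → X}

theorem rev (h : Γ.W P) (c : ℤ) : Γ.W fun j => P (c - j) := ⟨fun i => Γ.symm (h.adj (by ring)), fun i => (h.ne (by ring)).symm⟩

theorem line (h : Γ.W P) (c : ℤ) {ε : ℤ} (hε : ε = 1 ∨ ε = -1) : Γ.W fun j => P (c + ε * j) := by
  rcases hε with rfl | rfl
  · simpa only [one_mul, add_comm c] using h.shift c
  · simpa only [neg_mul, one_mul, ← sub_eq_add_neg] using rev h c

theorem adj' (h : Γ.W P) {i j : ℤ} (e : i = j + 1) : Γ.adj (P i) (P j) := Γ.symm (h.adj e)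

theorem W_ne (h : Γ.W P) {i j : ℤ} (h1 : i ≠ j) (h2 : i - j < 2 * n) (h3 : j - i < 2 * n) : P i ≠ P j := by
  rcases lt_or_gt_of_ne h1 with h4 | h4
  · exact Γ.girth P h i j h4 (by omega)
  · exact (Γ.girth P h j i h4 (by omega)).symm

theorem exists_ray {a b : X} (h : Γ.adj a b) : ∃ f : ℕ → X, f 0 = a ∧ f 1 = b ∧
    (∀ k, Γ.adj (f k) (f (k + 1))) ∧ ∀ k, f k ≠ f (k + 2) := by
  choose nx h1 h2 _ using fun y x => Γ.thick y x x
  let F : ℕ → X × X := fun k => Nat.rec (a, b) (fun _ p => (p.2, nx p.2 p.1)) k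
  refine ⟨fun k => (F k).1, rfl, rfl, fun k => ?_, fun k => (h2 _ _).symm⟩
  cases k with
  | zero => exact h
  | succ k => exact h1 _ _

theorem exists_W0 {a b : X} (h : Γ.adj a b) : ∃ P, Γ.W P ∧ P 0 = a ∧ P 1 = b := by
  obtain ⟨f, f0, f1, fa, fn⟩ := exists_ray h
  obtain ⟨g, g0, g1, ga, gn⟩ := exists_ray (Γ.symm h)
  let P : ℤ → X := fun j => if 0 ≤ j then f j.toNat else g (1 - j).toNat
  have hf : ∀ (j : ℤ) (k : ℕ), j = k → P j = f k := fun j k e => by
    subst e; simp [P]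
  have hg : ∀ (j : ℤ) (k : ℕ), j = 1 - k → P j = g k := fun j k e => by
    by_cases h0 : 0 ≤ j
    · have : k = 0 ∨ k = 1 := by omega
      rcases this with rfl | rfl
      · rw [hf j 1 (by omega), f1, g0]
      · rw [hf j 0 (by omega), f0, g1]
    · simp only [P, if_neg h0]
      congr 1; omega
  refine ⟨P, ⟨fun j => ?_, fun j => ?_⟩, (hf 0 0 rfl).trans f0, (hf 1 1 rfl).trans f1⟩
  · by_cases h0 : 0 ≤ j
    · rw [hf j j.toNat (by omega), hf (j + 1) (j.toNat + 1) (by omega)]; exact fa _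
    · rw [hg j ((-j).toNat + 1) (by omega), hg (j + 1) (-j).toNat (by omega)]
      exact Γ.symm (ga _)
  · by_cases h0 : 0 ≤ j
    · rw [hf j j.toNat (by omega), hf (j + 2) (j.toNat + 2) (by omega)]; exact fn _
    · rw [hg j ((-j - 1).toNat + 2) (by omega), hg (j + 2) (-j - 1).toNat (by omega)]
      exact (gn _).symm

theorem adj_ne {a b : X} (h : Γ.adj a b) : a ≠ b := by
  obtain ⟨P, hP, rfl, rfl⟩ := exists_W0 h
  have := Γ.three
  exact Γ.girth P hP 0 1 (by omega) (by omega)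

theorem exists_W2 {a b : X} (h : Γ.adj a b) (i : ℤ) : ∃ P, Γ.W P ∧ P i = a ∧ P (i + 1) = b := by
  obtain ⟨P, hP, h0, h1⟩ := exists_W0 h
  exact ⟨_, hP.shift (-i), by simpa using h0, by simpa using h1⟩

theorem exists_W1 (Γ : Pol n X) (a : X) (i : ℤ) : ∃ P, Γ.W P ∧ P i = a := by
  obtain ⟨u, hu, -⟩ := Γ.thick a a a
  obtain ⟨P, hP, h0, -⟩ := exists_W2 hu i
  exact ⟨P, hP, h0⟩

theorem ext_right (h : Γ.W P) {i : ℤ} {u : X} (hu : Γ.adj (P i) u) (ne : u ≠ P (i - 1)) :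
    ∃ R, Γ.W R ∧ (∀ j, j ≤ i → R j = P j) ∧ R (i + 1) = u := by
  obtain ⟨R, hR, h0, h1⟩ := exists_W2 hu i
  refine ⟨_, h.glue hR h0.symm (h1 ▸ ne.symm), fun j hj => if_pos hj, ?_⟩
  simp only [if_neg (show ¬ i + 1 ≤ i by omega), h1]

theorem ext_left (h : Γ.W P) {i : ℤ} {u : X} (hu : Γ.adj (P i) u) (ne : u ≠ P (i + 1)) :
    ∃ R, Γ.W R ∧ (∀ j, i ≤ j → R j = P j) ∧ R (i - 1) = u := by
  obtain ⟨R, hR, h0, h1⟩ := ext_right (rev h (2 * i)) (i := i) (u := u)
    (by rwa [show 2 * i - i = i by ring]) (by rwa [show 2 * i - (i - 1) = i + 1 by ring])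
  refine ⟨_, rev hR (2 * i), fun j hj => ?_, ?_⟩
  · simp only [h0 (2 * i - j) (by omega), sub_sub_cancel]
  · simp only [show 2 * i - (i - 1) = i + 1 by ring, h1]

theorem exists_W3 {a b c : X} (h : Γ.adj a b) (h' : Γ.adj b c) (ne : a ≠ c) (i : ℤ) :
    ∃ P, Γ.W P ∧ P (i - 1) = a ∧ P i = b ∧ P (i + 1) = c := by
  obtain ⟨P, hP, h0, h1⟩ := exists_W2 h (i - 1)
  rw [sub_add_cancel] at h1
  obtain ⟨R, hR, h2, h3⟩ := ext_right hP (i := i) (u := c) (h1 ▸ h') (h0 ▸ ne.symm)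
  exact ⟨R, hR, (h2 _ (by omega)).trans h0, (h2 _ le_rfl).trans h1, h3⟩

theorem uniq_step (h : Γ.W P) (h' : Γ.W R) {i k : ℤ} (hi : i < k) (hk : k < i + n) (e1 : P i = R i)
    (e2 : P k = R k) : P (k - 1) = R (k - 1) := by
  by_contra hn
  have hT := h.glue (rev h' (2 * k)) (i := k) (by rwa [show 2 * k - k = k by ring])
    (by rwa [show 2 * k - (k + 1) = k - 1 by ring])
  refine Γ.girth _ hT i (2 * k - i) (by omega) (by omega) ?_
  simp only [if_pos hi.le, if_neg (show ¬ 2 * k - i ≤ k by omega), sub_sub_cancel, e1]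

theorem uniq (h : Γ.W P) (h' : Γ.W R) {i k : ℤ} (hk : k < i + n) (e1 : P i = R i) (e2 : P k = R k) {j : ℤ}
    (h1 : i ≤ j) (h2 : j ≤ k) : P j = R j := by
  have key : ∀ t : ℕ, i ≤ k - t → P (k - t) = R (k - t) := by
    intro t
    induction t with
    | zero => intro _; simpa using e2
    | succ t ih =>
      intro ht
      push_cast at ht ⊢
      rw [← sub_sub]
      exact uniq_step h h' (by omega) (by omega) e1 (ih (by omega))
  have := key (k - j).toNat (by omega)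
  rwa [show k - ((k - j).toNat : ℤ) = j by omega] at this

theorem exists_apt (h : Γ.W P) (i : ℤ) : ∃ R, Γ.Apt R ∧ ∀ j, i ≤ j → j ≤ i + n + 1 → R j = P j := by
  obtain ⟨Q, h1, h2, h3⟩ := Γ.close P h i
  exact ⟨Q, ⟨h1, h2⟩, h3⟩

theorem Apt.shift (h : Γ.Apt P) (c : ℤ) : Γ.Apt fun j => P (j + c) := ⟨h.1.shift c, fun j => by
    have := h.2 (j + c)
    rwa [show j + c + 2 * n = j + 2 * n + c by ring] at this⟩

theorem Apt.rev (h : Γ.Apt P) (c : ℤ) : Γ.Apt fun j => P (c - j) := ⟨Pol.rev h.1 c, fun j => by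
    have := h.2 (c - (j + 2 * n))
    rw [show c - (j + 2 * n) + 2 * n = c - j by ring] at this
    exact this.symm⟩

theorem Apt.eq (h : Γ.Apt P) {i j : ℤ} (e : (2 * n : ℤ) ∣ i - j) : P i = P j := by
  obtain ⟨c, hc⟩ := e
  have hp : Function.Periodic P (2 * n : ℤ) := h.2
  have := hp.int_mul c j
  rw [← this]
  congr 1
  push_cast
  linear_combination hc

theorem Apt.eq' (h : Γ.Apt P) {i j : ℤ} (e : i = j + 2 * n) : P i = P j := e ▸ h.2 j

theorem Apt.red (h : Γ.Apt P) (i j : ℤ) : ∃ k, i ≤ k ∧ k < i + 2 * n ∧ (2 * n : ℤ) ∣ j - k := by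
  have h3 := Γ.three
  have h0 : (0 : ℤ) < 2 * n := by omega
  refine ⟨i + (j - i) % (2 * n), by have := Int.emod_nonneg (j - i) h0.ne'; omega,
    by have := Int.emod_lt_of_pos (j - i) h0; omega, ⟨(j - i) / (2 * n), ?_⟩⟩
  have := Int.mul_ediv_add_emod (j - i) (2 * n)
  linear_combination -this

/-- two apartments that agree on a path of length `n + 1` are equal -/
theorem Apt.ext (h : Γ.Apt P) (h' : Γ.Apt R) {i : ℤ} (e : ∀ j, i ≤ j → j ≤ i + n + 1 → P j = R j) : P = R := by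
  funext j
  obtain ⟨k, k1, k2, k3⟩ := h.red i j
  rw [h.eq k3, h'.eq k3]
  by_cases hk : k ≤ i + n + 1
  · exact e k k1 hk
  · refine uniq h.1 h'.1 (i := i + n + 1) (k := i + 2 * n) (by omega) (e _ (by omega) le_rfl) ?_
      (by omega) (by omega)
    rw [h.2, h'.2, e i le_rfl (by omega)]

/-- every vertex is reached from a given flag -/
theorem exists_reach (h : Γ.W P) (x : X) :
    ∃ R, Γ.W R ∧ R 0 = P 0 ∧ R 1 = P 1 ∧ ∃ k : ℤ, -n < k ∧ k ≤ n ∧ R k = x := by
  have h3 := Γ.three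
  induction Γ.conn (P 0) x with
  | refl => exact ⟨P, h, rfl, rfl, 0, by omega, by omega, rfl⟩
  | @tail x x' _ hx ih =>
    obtain ⟨R, hR, r0, r1, k, k1, k2, rfl⟩ := ih
    by_cases hk : 1 ≤ k
    · by_cases he : x' = R (k - 1)
      · exact ⟨R, hR, r0, r1, k - 1, by omega, by omega, he.symm⟩
      obtain ⟨R', hR', e1, e2⟩ := ext_right hR hx he
      by_cases hn : k < n
      · exact ⟨R', hR', (e1 0 (by omega)).trans r0, (e1 1 hk).trans r1, k + 1, by omega, by omega, e2⟩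
      obtain ⟨A, hA, e3⟩ := exists_apt hR' 0
      refine ⟨A, hA.1, ((e3 0 le_rfl (by omega)).trans (e1 0 (by omega))).trans r0,
        ((e3 1 (by omega) (by omega)).trans (e1 1 hk)).trans r1, 1 - n, by omega, by omega, ?_⟩
      rw [← hA.eq' (i := k + 1) (by omega), e3 _ (by omega) (by omega), e2]
    · by_cases he : x' = R (k + 1)
      · exact ⟨R, hR, r0, r1, k + 1, by omega, by omega, he.symm⟩
      obtain ⟨R', hR', e1, e2⟩ := ext_left hR hx he
      by_cases hn : -n < k - 1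
      · exact ⟨R', hR', (e1 0 (by omega)).trans r0, (e1 1 (by omega)).trans r1, k - 1, hn, by omega, e2⟩
      obtain ⟨A, hA, e3⟩ := exists_apt hR' (-n)
      refine ⟨A, hA.1, ((e3 0 (by omega) (by omega)).trans (e1 0 (by omega))).trans r0,
        ((e3 1 (by omega) (by omega)).trans (e1 1 (by omega))).trans r1, n, by omega, by omega, ?_⟩
      rw [hA.eq' (j := k - 1) (by omega), e3 _ (by omega) (by omega), e2]

variable {G : Type*} [Group G] [MulAction G X]

namespace Au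
variable (S : Γ.Au G)
include S

theorem adj_iff (g : G) {x y : X} : Γ.adj (g • x) (g • y) ↔ Γ.adj x y := ⟨fun h => by simpa using S.smul g⁻¹ h, S.smul g⟩

theorem W_smul (h : Γ.W P) (g : G) : Γ.W fun j => g • P j := ⟨fun i => S.smul g (h.1 i), fun i e => h.2 i (smul_left_cancel g e)⟩

theorem val_smul (g : G) (x : X) : Γ.val (g • x) = Γ.val x := by
  unfold val
  congr 1
  exact (Nat.card_congr (Equiv.subtypeEquiv (MulAction.toPerm g) fun u => (S.adj_iff g).symm)).symm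

theorem fix_between (h : Γ.W P) {g : G} {i k : ℤ} (hk : k < i + n) (e1 : g • P i = P i) (e2 : g • P k = P k) {j : ℤ}
    (h1 : i ≤ j) (h2 : j ≤ k) : g • P j = P j := uniq (S.W_smul h g) h hk e1 e2 h1 h2

theorem Apt_smul (h : Γ.Apt P) (g : G) : Γ.Apt fun j => g • P j :=
  ⟨S.W_smul h.1 g, fun j => by simp only [h.2]⟩

theorem fix_apt (h : Γ.Apt P) {g : G} {i : ℤ} (e : ∀ j, i ≤ j → j ≤ i + n + 1 → g • P j = P j) (j : ℤ) :
    g • P j = P j := congrFun ((S.Apt_smul h g).ext h e) j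

/-- the neighbours of opposite vertices correspond -/
theorem opp (h : Γ.W P) {i : ℤ} {u : X} (hu : Γ.adj (P i) u) (ne : u ≠ P (i + 1)) :
    ∃ u', Γ.adj (P (i + n)) u' ∧ u' ≠ P (i + n - 1) ∧ ∀ g : G, (g • P (i + n) = P (i + n) → g • u = u → g • u' = u') ∧
      (g • P i = P i → g • u' = u' → g • u = u) := by
  have h3 := Γ.three
  obtain ⟨R, hR, e1, e2⟩ := ext_left h hu ne
  obtain ⟨A, hA, e3⟩ := exists_apt hR (i - 1)
  have a0 : ∀ j, i ≤ j → j ≤ i + n → A j = P j := fun j j1 j2 =>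
    (e3 j (by omega) (by omega)).trans (e1 j j1)
  have a1 : A (i + 2 * n - 1) = u := by
    rw [hA.eq' (j := i - 1) (by ring), e3 _ le_rfl (by omega), e2]
  have a2 : A (i + 2 * n) = P i := by rw [hA.2, a0 i le_rfl (by omega)]
  refine ⟨A (i + n + 1), a0 (i + n) (by omega) le_rfl ▸ hA.1.1 _, ?_, fun g => ⟨fun g1 g2 => ?_,
    fun g1 g2 => ?_⟩⟩
  · rw [← a0 _ (by omega) (by omega)]; exact (hA.1.ne (by ring)).symm
  · exact S.fix_between hA.1 (i := i + n) (k := i + 2 * n - 1) (by omega)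
      (by rwa [a0 _ (by omega) le_rfl]) (by rwa [a1]) (by omega) (by omega)
  · rw [← a1]
    exact S.fix_between hA.1 (i := i + n + 1) (k := i + 2 * n) (by omega) g2 (by rwa [a2]) (by omega)
      (by omega)

theorem opp_all (h : Γ.W P) {i k : ℤ} (hk : k = i + n) {g : G} (e : g • P i = P i)
    (f : ∀ u, Γ.adj (P k) u → g • u = u) (u : X) (hu : Γ.adj (P i) u) : g • u = u := by
  subst hk
  have h3 := Γ.three
  by_cases ne : u = P (i + 1)
  · rw [ne]
    exact S.fix_between h (i := i) (k := i + n - 1) (by omega) e (f _ (adj' h (by ring))) (by omega)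
      (by omega)
  · obtain ⟨u', h1, -, h2⟩ := S.opp h hu ne
    exact (h2 g).2 e (f u' h1)

theorem rigid_step (h : Γ.Apt P) {g : G} (e : ∀ j, g • P j = P j) {k : ℤ}
    (f1 : ∀ u, Γ.adj (P k) u → g • u = u) (f2 : ∀ u, Γ.adj (P (k + 1)) u → g • u = u) :
    ∀ u, Γ.adj (P (k + 2)) u → g • u = u := by
  have h3 := Γ.three
  have f3 := S.opp_all h.1 (i := k + n + 1) (k := k + 1 + 2 * n) (by ring) (e _) (by rwa [h.2])
  obtain ⟨y, hy, y1, y2⟩ := Γ.thick (P (k + n + 1)) (P (k + n + 1 - 1)) (P (k + n + 1 + 1))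
  obtain ⟨R1, hR1, a1, a2⟩ := ext_right h.1 hy y1
  obtain ⟨R2, hR2, b1, b2⟩ := ext_left h.1 hy y2
  have f4 := S.opp_all hR2 (i := k + n + 1 - 1) (k := k + 2 * n) (g := g) (by ring)
    (by rw [b2]; exact f3 y hy) (by rwa [b1 _ (by omega), h.2])
  rw [b2, ← a2] at f4
  have f5 := S.opp_all hR1 (i := k + 2) (k := k + n + 1 + 1) (by ring)
    (by rw [a1 _ (by omega)]; exact e _) f4
  rwa [a1 _ (by omega)] at f5

theorem rigid_apt (h : Γ.Apt P) {g : G} (e : ∀ j, g • P j = P j) {k : ℤ}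
    (f1 : ∀ u, Γ.adj (P k) u → g • u = u) (f2 : ∀ u, Γ.adj (P (k + 1)) u → g • u = u) (j : ℤ) :
    ∀ u, Γ.adj (P j) u → g • u = u := by
  have key : ∀ t : ℕ, (∀ u, Γ.adj (P (k + t)) u → g • u = u) ∧
      ∀ u, Γ.adj (P (k + t + 1)) u → g • u = u := by
    intro t
    induction t with
    | zero => simpa using ⟨f1, f2⟩
    | succ t ih =>
      push_cast
      rw [← add_assoc, add_assoc (k + t) 1 1, one_add_one_eq_two]
      exact ⟨ih.2, S.rigid_step h e ih.1 ih.2⟩
  obtain ⟨l, l1, -, l3⟩ := h.red k j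
  have := (key (l - k).toNat).1
  rwa [show k + ((l - k).toNat : ℤ) = l by omega, ← h.eq l3] at this

theorem rigid (h : Γ.W P) {g : G} {i j : ℤ} (e : ∀ k, i ≤ k → k ≤ i + n + 1 → g • P k = P k) (h1 : i ≤ j)
    (h2 : j ≤ i + n) (f1 : ∀ u, Γ.adj (P j) u → g • u = u) (f2 : ∀ u, Γ.adj (P (j + 1)) u → g • u = u) : g = 1 := by
  have h3 := Γ.three
  obtain ⟨A, hA, a⟩ := exists_apt h i
  have eA := S.fix_apt hA (g := g) (i := i) fun k k1 k2 => by rw [a k k1 k2]; exact e k k1 k2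
  have fA := S.rigid_apt hA eA (k := j) (by rwa [a j h1 (by omega)])
    (by rwa [a _ (by omega) (by omega)])
  have key : ∀ x, ∃ B, Γ.Apt B ∧ (∀ k, g • B k = B k) ∧ (∀ k u, Γ.adj (B k) u → g • u = u) ∧
      ∃ k, B k = x := by
    intro x
    induction Γ.conn (A 0) x with
    | refl => exact ⟨A, hA, eA, fA, 0, rfl⟩
    | @tail x x' _ hx ih =>
      obtain ⟨B, hB, eB, fB, k, rfl⟩ := ih
      by_cases he : x' = B (k - 1)
      · exact ⟨B, hB, eB, fB, k - 1, he.symm⟩
      obtain ⟨R, hR, r1, r2⟩ := ext_right hB.1 hx he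
      obtain ⟨C, hC, c⟩ := exists_apt hR (k - n)
      have eC := S.fix_apt hC (g := g) (i := k - n) fun l l1 l2 => by
        rw [c l l1 l2]
        by_cases hl : l ≤ k
        · rw [r1 l hl]; exact eB l
        · rw [show l = k + 1 by omega, r2]; exact fB k _ hx
      refine ⟨C, hC, eC, S.rigid_apt hC eC (k := k - 1) ?_ ?_, k + 1, ?_⟩
      · rw [c _ (by omega) (by omega), r1 _ (by omega)]; exact fB _
      · rw [c _ (by omega) (by omega), r1 _ (by omega)]; exact fB _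
      · rw [c _ (by omega) (by omega), r2]
  refine S.faith g fun x => ?_
  obtain ⟨B, -, eB, -, k, rfl⟩ := key x
  exact eB k

/-- the lemma on two walks -/
theorem two_walk (h : Γ.W P) {z : G} {i c : ℤ} (h1 : c < i + n) (h2 : n + 1 ≤ 2 * (c - i)) (e : z • P c = P c)
    (ne : z • P (c - 1) ≠ P (c - 1)) : ∃ u, Γ.adj (P (i + n)) u ∧ u ≠ P (i + n - 1) ∧ ∀ g : G, g • P i = P i →
      g • P c = P c → g • z • P i = z • P i → g • P (i + n) = P (i + n) → g • u = u := by
  have h3 := Γ.three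
  have hR := h.glue (S.W_smul (rev h (2 * c)) z) (i := c)
    (by simp only [show 2 * c - c = c by ring, e])
    (by simp only [show 2 * c - (c + 1) = c - 1 by ring]; exact ne.symm)
  set R := fun j => if j ≤ c then P j else z • P (2 * c - j) with hRd
  have r1 : ∀ j, j ≤ c → R j = P j := fun j hj => if_pos hj
  have r2 : R (2 * c - i) = z • P i := by
    simp only [hRd, if_neg (show ¬ 2 * c - i ≤ c by omega), sub_sub_cancel]
  obtain ⟨A, hA, a⟩ := exists_apt hR i
  obtain ⟨u, u1, u2, u3⟩ := S.opp h (i := i) (u := A (i - 1))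
    (by rw [← r1 i (by omega), ← a i le_rfl (by omega)]; exact adj' hA.1 (by ring))
    (by rw [← r1 _ (by omega), ← a _ (by omega) (by omega)]; exact hA.1.ne (by ring))
  refine ⟨u, u1, u2, fun g g1 g2 g3 g4 => (u3 g).1 g4 (S.fix_apt hA (i := i) (fun k k1 k2 => ?_) _)⟩
  rw [a k k1 k2]
  by_cases hk : k ≤ c
  · rw [r1 k hk]; exact S.fix_between h h1 g1 g2 k1 hk
  · exact S.fix_between hR (i := c) (k := 2 * c - i) (by omega) (by rwa [r1 c le_rfl])
      (by rwa [r2]) (by omega) (by omega)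

end Au

end Pol

end CfsgLib.FS
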